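import Mathlib

namespace Cfsg.Agent.Lib.Helper18

/-- Closure lemma for coset enumeration: a finite family of points of a transitive `G`-set that is
closed under a generating set is everything. -/
theorem card_le_of_closed {G X : Type*} [Group G] [MulAction G X] [MulAction.IsPretransitive G X]
    (S : Set G) (hS : Subgroup.closure S = ⊤) (n : ℕ) (c : Fin (n + 1) → X)
    (hcl : ∀ s ∈ S, ∀ i, ∃ j, s • c i = c j) : Finite X ∧ Nat.card X ≤ n + 1 := by
  classical
  set T : Set X := Set.range c with hT
  have hTfin : T.Finite := Set.finite_range c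
  have hmaps : ∀ s ∈ S, Set.MapsTo (fun x => s • x) T T := by
    rintro s hs _ ⟨i, rfl⟩
    obtain ⟨j, hj⟩ := hcl s hs i
    exact ⟨j, hj.symm⟩
  have hsurjOn : ∀ a : G, (∀ x ∈ T, a • x ∈ T) → ∀ x ∈ T, ∃ y ∈ T, a • y = x := by
    intro a ha x hx
    have : Finite T := hTfin
    let f : T → T := fun y => ⟨a • y.1, ha y.1 y.2⟩
    have hf : Function.Injective f := by
      intro y y' h
      have := congrArg Subtype.val h
      exact Subtype.ext (MulAction.injective a this)
    obtain ⟨y, hy⟩ := (Finite.injective_iff_surjective.mp hf) ⟨x, hx⟩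
    exact ⟨y.1, y.2, congrArg Subtype.val hy⟩
  have hall : ∀ g : G, ∀ x ∈ T, g • x ∈ T := by
    intro g
    have hg : g ∈ Subgroup.closure S := by rw [hS]; trivial
    induction hg using Subgroup.closure_induction with
    | mem s hs => exact fun x hx => hmaps s hs hx
    | one => intro x hx; simpa using hx
    | mul a b _ _ iha ihb => intro x hx; rw [mul_smul]; exact iha _ (ihb _ hx)
    | inv a _ iha =>
      -- need surjectivity for general a: a maps T to T injectively
      intro x hx
      obtain ⟨y, hy, hyx⟩ := hsurjOn a iha x hx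
      have : a⁻¹ • x = y := by rw [← hyx]; simp
      rw [this]; exact hy
  have huniv : T = Set.univ := by
    rw [Set.eq_univ_iff_forall]
    intro x
    obtain ⟨g, hg⟩ := MulAction.exists_smul_eq G (c 0) x
    rw [← hg]
    exact hall g _ ⟨0, rfl⟩
  have hsurjc : Function.Surjective c := by
    rw [← Set.range_eq_univ]; exact huniv
  refine ⟨Finite.of_surjective c hsurjc, ?_⟩
  have := Nat.card_le_card_of_surjective c hsurjc
  simpa using this

/-- bound for the order of a group from a subgroup and the number of cosets -/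
theorem card_le_of_index_le {G : Type*} [Group G] (H : Subgroup G) (m n : ℕ) [Finite H]
    (hH : Nat.card H ≤ m) (hfin : Finite (G ⧸ H)) (hidx : Nat.card (G ⧸ H) ≤ n) :
    Finite G ∧ Nat.card G ≤ m * n := by
  have hfi : H.FiniteIndex := ⟨by
    rw [Subgroup.index]; exact Nat.card_pos.ne'⟩
  have hG : Finite G := Finite.of_equiv _ (Subgroup.groupEquivQuotientProdSubgroup (s := H)).symm
  refine ⟨hG, ?_⟩
  rw [← Subgroup.card_mul_index H]
  exact Nat.mul_le_mul hH hidx

theorem smul_mk_one_of_mem {G : Type*} [Group G] (H : Subgroup G) {h : G} (hh : h ∈ H) :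
    h • (QuotientGroup.mk (1 : G) : G ⧸ H) = QuotientGroup.mk (1 : G) := by
  rw [MulAction.Quotient.smul_mk, QuotientGroup.eq]
  simpa using H.inv_mem hh

end Cfsg.Agent.Lib.Helper18
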