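import Mathlib
import Cfsg.Agent.Lib.Helper18.Coset
import Cfsg.Agent.Lib.Helper18.Simple60

namespace Cfsg.Agent.Lib.Helper18

theorem index_235 {G : Type*} [Group G] (a b : G)
    (hr0 : a * a * a = 1)
    (hr1 : b * b * b * b * b = 1)
    (hr2 : a * b * a * b = 1)
    (hgen : Subgroup.closure ({a, b} : Set G) = ⊤) :
    Finite (G ⧸ Subgroup.zpowers b) ∧ Nat.card (G ⧸ Subgroup.zpowers b) ≤ 12 := by
  set H : Subgroup G := Subgroup.zpowers b with hH
  let X := G ⧸ H
  have hrel0 : ∀ x : X, a • a • a • x = x := fun x => by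
    have h := congrArg (fun g : G => g • x) hr0
    simpa only [mul_smul, one_smul] using h
  have hrel1 : ∀ x : X, b • b • b • b • b • x = x := fun x => by
    have h := congrArg (fun g : G => g • x) hr1
    simpa only [mul_smul, one_smul] using h
  have hrel2 : ∀ x : X, a • b • a • b • x = x := fun x => by
    have h := congrArg (fun g : G => g • x) hr2
    simpa only [mul_smul, one_smul] using h
  obtain ⟨c0, hc0⟩ : ∃ y : X, y = (QuotientGroup.mk (1 : G) : G ⧸ H) := ⟨_, rfl⟩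
  have hsub0 : b • c0 = c0 := by
    have hm : b ∈ H := Subgroup.mem_zpowers b
    have h := Cfsg.Agent.Lib.Helper18.smul_mk_one_of_mem H hm
    rw [← hc0] at h
    simpa only [mul_smul] using h
  have f1 : b • c0 = c0 := by
    have h := hsub0
    exact h
  have f2 : b⁻¹ • c0 = c0 := inv_smul_eq_iff.mpr f1.symm
  obtain ⟨c1, f3⟩ : ∃ y : X, a • c0 = y := ⟨_, rfl⟩
  have f4 : a⁻¹ • c1 = c0 := inv_smul_eq_iff.mpr f3.symm
  obtain ⟨c2, f5⟩ : ∃ y : X, a • c1 = y := ⟨_, rfl⟩
  have f6 : a⁻¹ • c2 = c1 := inv_smul_eq_iff.mpr f5.symm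
  have f7 : a • c2 = c0 := by
    have h := hrel0 c0
    rw [f3, f5] at h
    exact h
  have f8 : a⁻¹ • c0 = c2 := inv_smul_eq_iff.mpr f7.symm
  have f9 : b • c1 = c2 := by
    have h := hrel2 c0
    rw [f1, f3] at h
    rw [smul_eq_iff_eq_inv_smul, f8] at h
    exact h
  have f10 : b⁻¹ • c2 = c1 := inv_smul_eq_iff.mpr f9.symm
  obtain ⟨c3, f11⟩ : ∃ y : X, b • c2 = y := ⟨_, rfl⟩
  have f12 : b⁻¹ • c3 = c2 := inv_smul_eq_iff.mpr f11.symm
  obtain ⟨c4, f13⟩ : ∃ y : X, b • c3 = y := ⟨_, rfl⟩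
  have f14 : b⁻¹ • c4 = c3 := inv_smul_eq_iff.mpr f13.symm
  obtain ⟨c5, f15⟩ : ∃ y : X, b • c4 = y := ⟨_, rfl⟩
  have f16 : b⁻¹ • c5 = c4 := inv_smul_eq_iff.mpr f15.symm
  have f17 : b • c5 = c1 := by
    have h := hrel1 c1
    rw [f9, f11, f13, f15] at h
    exact h
  have f18 : b⁻¹ • c1 = c5 := inv_smul_eq_iff.mpr f17.symm
  have f19 : a • c3 = c5 := by
    have h := hrel2 c2
    rw [f11] at h
    rw [smul_eq_iff_eq_inv_smul, f6] at h
    rw [smul_eq_iff_eq_inv_smul, f18] at h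
    exact h
  have f20 : a⁻¹ • c5 = c3 := inv_smul_eq_iff.mpr f19.symm
  obtain ⟨c6, f21⟩ : ∃ y : X, a • c5 = y := ⟨_, rfl⟩
  have f22 : a⁻¹ • c6 = c5 := inv_smul_eq_iff.mpr f21.symm
  have f23 : a • c6 = c3 := by
    have h := hrel0 c3
    rw [f19, f21] at h
    exact h
  have f24 : a⁻¹ • c3 = c6 := inv_smul_eq_iff.mpr f23.symm
  obtain ⟨c7, f25⟩ : ∃ y : X, a • c4 = y := ⟨_, rfl⟩
  have f26 : a⁻¹ • c7 = c4 := inv_smul_eq_iff.mpr f25.symm
  have f27 : b • c7 = c6 := by
    have h := hrel2 c3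
    rw [f13, f25] at h
    rw [smul_eq_iff_eq_inv_smul, f24] at h
    exact h
  have f28 : b⁻¹ • c6 = c7 := inv_smul_eq_iff.mpr f27.symm
  obtain ⟨c8, f29⟩ : ∃ y : X, a • c7 = y := ⟨_, rfl⟩
  have f30 : a⁻¹ • c8 = c7 := inv_smul_eq_iff.mpr f29.symm
  have f31 : a • c8 = c4 := by
    have h := hrel0 c4
    rw [f25, f29] at h
    exact h
  have f32 : a⁻¹ • c4 = c8 := inv_smul_eq_iff.mpr f31.symm
  have f33 : b • c6 = c8 := by
    have h := hrel2 c4
    rw [f15, f21] at h
    rw [smul_eq_iff_eq_inv_smul, f32] at h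
    exact h
  have f34 : b⁻¹ • c8 = c6 := inv_smul_eq_iff.mpr f33.symm
  obtain ⟨c9, f35⟩ : ∃ y : X, b • c8 = y := ⟨_, rfl⟩
  have f36 : b⁻¹ • c9 = c8 := inv_smul_eq_iff.mpr f35.symm
  obtain ⟨c10, f37⟩ : ∃ y : X, b • c9 = y := ⟨_, rfl⟩
  have f38 : b⁻¹ • c10 = c9 := inv_smul_eq_iff.mpr f37.symm
  have f39 : b • c10 = c7 := by
    have h := hrel1 c6
    rw [f33, f35, f37] at h
    rw [smul_eq_iff_eq_inv_smul, f28] at h
    exact h
  have f40 : b⁻¹ • c7 = c10 := inv_smul_eq_iff.mpr f39.symm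
  have f41 : a • c9 = c10 := by
    have h := hrel2 c8
    rw [f35] at h
    rw [smul_eq_iff_eq_inv_smul, f30] at h
    rw [smul_eq_iff_eq_inv_smul, f40] at h
    exact h
  have f42 : a⁻¹ • c10 = c9 := inv_smul_eq_iff.mpr f41.symm
  obtain ⟨c11, f43⟩ : ∃ y : X, a • c10 = y := ⟨_, rfl⟩
  have f44 : a⁻¹ • c11 = c10 := inv_smul_eq_iff.mpr f43.symm
  have f45 : a • c11 = c9 := by
    have h := hrel0 c9
    rw [f41, f43] at h
    exact h
  have f46 : a⁻¹ • c9 = c11 := inv_smul_eq_iff.mpr f45.symm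
  have f47 : b • c11 = c11 := by
    have h := hrel2 c9
    rw [f37, f43] at h
    rw [smul_eq_iff_eq_inv_smul, f46] at h
    exact h
  have f48 : b⁻¹ • c11 = c11 := inv_smul_eq_iff.mpr f47.symm
  refine Cfsg.Agent.Lib.Helper18.card_le_of_closed ({a, b} : Set G) hgen 11 ![c0, c1, c2, c3, c4, c5, c6, c7, c8, c9, c10, c11] ?_
  intro s hs i
  simp only [Set.mem_insert_iff, Set.mem_singleton_iff] at hs
  rcases hs with rfl | rfl
  · fin_cases i
    · exact ⟨1, f3⟩
    · exact ⟨2, f5⟩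
    · exact ⟨0, f7⟩
    · exact ⟨5, f19⟩
    · exact ⟨7, f25⟩
    · exact ⟨6, f21⟩
    · exact ⟨3, f23⟩
    · exact ⟨8, f29⟩
    · exact ⟨4, f31⟩
    · exact ⟨10, f41⟩
    · exact ⟨11, f43⟩
    · exact ⟨9, f45⟩
  · fin_cases i
    · exact ⟨0, f1⟩
    · exact ⟨2, f9⟩
    · exact ⟨3, f11⟩
    · exact ⟨4, f13⟩
    · exact ⟨5, f15⟩
    · exact ⟨1, f17⟩
    · exact ⟨8, f33⟩
    · exact ⟨6, f27⟩
    · exact ⟨9, f35⟩
    · exact ⟨10, f37⟩
    · exact ⟨7, f39⟩
    · exact ⟨11, f47⟩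

theorem card_le_235 {G : Type*} [Group G] (a b : G) (ha : a ^ 3 = 1) (hb : b ^ 5 = 1)
    (hab : (a * b) ^ 2 = 1) (hgen : Subgroup.closure ({a, b} : Set G) = ⊤) :
    Finite G ∧ Nat.card G ≤ 60 := by
  obtain ⟨h1, h2⟩ := index_235 a b (by simpa [pow_succ, mul_assoc] using ha)
    (by simpa [pow_succ, mul_assoc] using hb) (by simpa [pow_succ, mul_assoc] using hab) hgen
  have hfo : IsOfFinOrder b := isOfFinOrder_iff_pow_eq_one.mpr ⟨5, by norm_num, hb⟩
  have hfin : Finite (Subgroup.zpowers b) := hfo.finite_zpowers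
  have hc : Nat.card (Subgroup.zpowers b) ≤ 5 := by
    rw [Nat.card_zpowers]
    exact Nat.le_of_dvd (by norm_num) (orderOf_dvd_of_pow_eq_one hb)
  exact card_le_of_index_le (Subgroup.zpowers b) 5 12 hc h1 h2

/-- bijectivity from surjectivity and a cardinality bound -/
theorem bijective_of_surjective_of_card_le {G S : Type*} [Group G] [Group S] [Finite G]
    (φ : G →* S) (hφ : Function.Surjective φ) (h : Nat.card G ≤ Nat.card S) :
    Function.Bijective φ := by
  have : Finite S := Finite.of_surjective φ hφ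
  have h2 := Nat.card_le_card_of_surjective φ hφ
  exact (Nat.bijective_iff_surjective_and_card φ).mpr ⟨hφ, le_antisymm h h2⟩

abbrev rels235 : Set (FreeGroup (Fin 2)) :=
  {FreeGroup.of (0 : Fin 2) ^ 3, FreeGroup.of (1 : Fin 2) ^ 5,
    (FreeGroup.of (0 : Fin 2) * FreeGroup.of 1) ^ 2}

def a5a : alternatingGroup (Fin 5) :=
  ⟨c[0, 1, 2], by rw [Equiv.Perm.mem_alternatingGroup]; decide⟩
def a5b : alternatingGroup (Fin 5) :=
  ⟨c[0, 2, 3, 1, 4], by rw [Equiv.Perm.mem_alternatingGroup]; decide⟩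

theorem a5a_pow : a5a ^ 3 = 1 := by
  apply Subtype.ext; decide +kernel
theorem a5b_pow : a5b ^ 5 = 1 := by
  apply Subtype.ext; decide +kernel
theorem a5ab_pow : (a5a * a5b) ^ 2 = 1 := by
  apply Subtype.ext; decide +kernel
theorem a5a_ne : a5a ≠ 1 := by
  intro h; have := congrArg Subtype.val h; revert this; decide +kernel
theorem a5b_ne : a5b ≠ 1 := by
  intro h; have := congrArg Subtype.val h; revert this; decide +kernel
theorem a5ab_ne : a5a * a5b ≠ 1 := by
  intro h; have := congrArg Subtype.val h; revert this; decide +kernel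

theorem card_A5 : Nat.card (alternatingGroup (Fin 5)) = 60 := by
  have := two_mul_nat_card_alternatingGroup (α := Fin 5)
  rw [Nat.card_eq_fintype_card (α := Equiv.Perm (Fin 5)), Fintype.card_perm, Fintype.card_fin] at this
  have h5 : Nat.factorial 5 = 120 := rfl
  omega

theorem closure_a5 : Subgroup.closure ({a5a, a5b} : Set (alternatingGroup (Fin 5))) = ⊤ := by
  set R := Subgroup.closure ({a5a, a5b} : Set (alternatingGroup (Fin 5))) with hR
  have haR : a5a ∈ R := Subgroup.subset_closure (by simp)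
  have hbR : a5b ∈ R := Subgroup.subset_closure (by simp)
  have : Fact (Nat.Prime 2) := ⟨Nat.prime_two⟩
  have : Fact (Nat.Prime 3) := ⟨Nat.prime_three⟩
  have : Fact (Nat.Prime 5) := ⟨Nat.prime_five⟩
  have o3 : orderOf a5a = 3 := orderOf_eq_prime a5a_pow a5a_ne
  have o5 : orderOf a5b = 5 := orderOf_eq_prime a5b_pow a5b_ne
  have o2 : orderOf (a5a * a5b) = 2 := orderOf_eq_prime a5ab_pow a5ab_ne
  have d3 : 3 ∣ Nat.card R := by
    have := orderOf_dvd_natCard (⟨a5a, haR⟩ : R)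
    rwa [Subgroup.orderOf_mk, o3] at this
  have d5 : 5 ∣ Nat.card R := by
    have := orderOf_dvd_natCard (⟨a5b, hbR⟩ : R)
    rwa [Subgroup.orderOf_mk, o5] at this
  have d2 : 2 ∣ Nat.card R := by
    have := orderOf_dvd_natCard (⟨a5a * a5b, R.mul_mem haR hbR⟩ : R)
    rwa [Subgroup.orderOf_mk, o2] at this
  have hmul := Subgroup.card_mul_index R
  rw [card_A5] at hmul
  by_contra hne
  have : IsSimpleGroup (alternatingGroup (Fin 5)) := alternatingGroup.isSimpleGroup (by simp)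
  have hdvd := card_dvd_factorial_index_of_simple R hne
  rw [card_A5] at hdvd
  have h30 : 30 ∣ Nat.card R := by omega
  obtain ⟨m, hm⟩ := h30
  rw [hm] at hmul
  have hidx : R.index ≤ 2 := by
    rcases Nat.eq_zero_or_pos m with rfl | hmpos
    · simp at hmul
    · nlinarith
  interval_cases R.index <;> revert hdvd <;> decide

theorem lift_rels235 {H : Type*} [Group H] (x y : H) (hx : x ^ 3 = 1) (hy : y ^ 5 = 1)
    (hxy : (x * y) ^ 2 = 1) : ∀ r ∈ rels235, FreeGroup.lift ![x, y] r = 1 := by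
  intro r hr
  simp only [rels235, Set.mem_insert_iff, Set.mem_singleton_iff] at hr
  rcases hr with rfl | rfl | rfl <;> simp [hx, hy, hxy]

noncomputable def pres235ToA5 : PresentedGroup rels235 →* alternatingGroup (Fin 5) :=
  PresentedGroup.toGroup (lift_rels235 a5a a5b a5a_pow a5b_pow a5ab_pow)

theorem pres235_card : Finite (PresentedGroup rels235) ∧ Nat.card (PresentedGroup rels235) ≤ 60 := by
  apply card_le_235 (PresentedGroup.of 0) (PresentedGroup.of 1)
  · have : PresentedGroup.mk rels235 (FreeGroup.of (0 : Fin 2) ^ 3) = 1 :=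
      PresentedGroup.one_of_mem (by simp [rels235])
    simpa [PresentedGroup.of] using this
  · have : PresentedGroup.mk rels235 (FreeGroup.of (1 : Fin 2) ^ 5) = 1 :=
      PresentedGroup.one_of_mem (by simp [rels235])
    simpa [PresentedGroup.of] using this
  · have : PresentedGroup.mk rels235 ((FreeGroup.of (0 : Fin 2) * FreeGroup.of 1) ^ 2) = 1 :=
      PresentedGroup.one_of_mem (by simp [rels235])
    simpa [PresentedGroup.of] using this
  · rw [← PresentedGroup.closure_range_of rels235]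
    congr 1
    ext g
    simp only [Set.mem_insert_iff, Set.mem_singleton_iff, Set.mem_range]
    constructor
    · rintro (rfl | rfl)
      · exact ⟨0, rfl⟩
      · exact ⟨1, rfl⟩
    · rintro ⟨i, rfl⟩
      fin_cases i
      · left; rfl
      · right; rfl

theorem pres235_bijective : Function.Bijective pres235ToA5 := by
  obtain ⟨hfin, hcard⟩ := pres235_card
  apply bijective_of_surjective_of_card_le
  · rw [← MonoidHom.range_eq_top, eq_top_iff, ← closure_a5, Subgroup.closure_le]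
    intro g hg
    simp only [Set.mem_insert_iff, Set.mem_singleton_iff] at hg
    rcases hg with rfl | rfl
    · exact ⟨PresentedGroup.of 0, by simp [pres235ToA5]⟩
    · exact ⟨PresentedGroup.of 1, by simp [pres235ToA5]⟩
  · rw [card_A5]; exact hcard

/-- universal property of `A5` as the (2,3,5) triangle group -/
theorem exists_hom_A5 {H : Type*} [Group H] (x y : H) (hx : x ^ 3 = 1) (hy : y ^ 5 = 1)
    (hxy : (x * y) ^ 2 = 1) : ∃ φ : alternatingGroup (Fin 5) →* H, φ a5a = x ∧ φ a5b = y := by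
  let e := MulEquiv.ofBijective pres235ToA5 pres235_bijective
  refine ⟨(PresentedGroup.toGroup (lift_rels235 x y hx hy hxy)).comp e.symm.toMonoidHom, ?_, ?_⟩
  · have : e.symm a5a = PresentedGroup.of 0 := by
      rw [MulEquiv.symm_apply_eq]; simp [e, pres235ToA5]
    simp [this]
  · have : e.symm a5b = PresentedGroup.of 1 := by
      rw [MulEquiv.symm_apply_eq]; simp [e, pres235ToA5]
    simp [this]

end Cfsg.Agent.Lib.Helper18
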