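import Mathlib
import Cfsg.Agent.Lib.Helper18.Coset
import Cfsg.Agent.Lib.Helper18.A5Pres

namespace Cfsg.Agent.Lib.Helper18

theorem index_168 {G : Type*} [Group G] (a b : G)
    (hr0 : a * a = 1)
    (hr1 : b * b * b = 1)
    (hr2 : a * b * a * b * a * b * a * b * a * b * a * b * a * b = 1)
    (hr3 : a * b * a * b * b * a * b * a * b * b * a * b * a * b * b * a * b * a * b * b = 1)
    (hgen : Subgroup.closure ({a, b} : Set G) = ⊤) :
    Finite (G ⧸ Subgroup.zpowers (a * b)) ∧ Nat.card (G ⧸ Subgroup.zpowers (a * b)) ≤ 24 := by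
  set H : Subgroup G := Subgroup.zpowers (a * b) with hH
  let X := G ⧸ H
  have hrel0 : ∀ x : X, a • a • x = x := fun x => by
    have h := congrArg (fun g : G => g • x) hr0
    simpa only [mul_smul, one_smul] using h
  have hrel1 : ∀ x : X, b • b • b • x = x := fun x => by
    have h := congrArg (fun g : G => g • x) hr1
    simpa only [mul_smul, one_smul] using h
  have hrel2 : ∀ x : X, a • b • a • b • a • b • a • b • a • b • a • b • a • b • x = x := fun x => by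
    have h := congrArg (fun g : G => g • x) hr2
    simpa only [mul_smul, one_smul] using h
  have hrel3 : ∀ x : X, a • b • a • b • b • a • b • a • b • b • a • b • a • b • b • a • b • a • b • b • x = x := fun x => by
    have h := congrArg (fun g : G => g • x) hr3
    simpa only [mul_smul, one_smul] using h
  obtain ⟨c0, hc0⟩ : ∃ y : X, y = (QuotientGroup.mk (1 : G) : G ⧸ H) := ⟨_, rfl⟩
  have hsub0 : a • b • c0 = c0 := by
    have hm : a * b ∈ H := Subgroup.mem_zpowers (a * b)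
    have h := Cfsg.Agent.Lib.Helper18.smul_mk_one_of_mem H hm
    rw [← hc0] at h
    simpa only [mul_smul] using h
  obtain ⟨c1, f1⟩ : ∃ y : X, b • c0 = y := ⟨_, rfl⟩
  have f2 : b⁻¹ • c1 = c0 := inv_smul_eq_iff.mpr f1.symm
  have f3 : a • c1 = c0 := by
    have h := hsub0
    rw [f1] at h
    exact h
  have f4 : a⁻¹ • c0 = c1 := inv_smul_eq_iff.mpr f3.symm
  have f5 : a • c0 = c1 := by
    have h := hrel0 c0
    rw [smul_eq_iff_eq_inv_smul, f4] at h
    exact h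
  have f6 : a⁻¹ • c1 = c0 := inv_smul_eq_iff.mpr f5.symm
  obtain ⟨c2, f7⟩ : ∃ y : X, b • c1 = y := ⟨_, rfl⟩
  have f8 : b⁻¹ • c2 = c1 := inv_smul_eq_iff.mpr f7.symm
  have f9 : b • c2 = c0 := by
    have h := hrel1 c0
    rw [f1, f7] at h
    exact h
  have f10 : b⁻¹ • c0 = c2 := inv_smul_eq_iff.mpr f9.symm
  obtain ⟨c3, f11⟩ : ∃ y : X, a • c2 = y := ⟨_, rfl⟩
  have f12 : a⁻¹ • c3 = c2 := inv_smul_eq_iff.mpr f11.symm
  obtain ⟨c4, f13⟩ : ∃ y : X, b • c3 = y := ⟨_, rfl⟩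
  have f14 : b⁻¹ • c4 = c3 := inv_smul_eq_iff.mpr f13.symm
  obtain ⟨c5, f15⟩ : ∃ y : X, a • c4 = y := ⟨_, rfl⟩
  have f16 : a⁻¹ • c5 = c4 := inv_smul_eq_iff.mpr f15.symm
  obtain ⟨c6, f17⟩ : ∃ y : X, b • c5 = y := ⟨_, rfl⟩
  have f18 : b⁻¹ • c6 = c5 := inv_smul_eq_iff.mpr f17.symm
  obtain ⟨c7, f19⟩ : ∃ y : X, b • c6 = y := ⟨_, rfl⟩
  have f20 : b⁻¹ • c7 = c6 := inv_smul_eq_iff.mpr f19.symm
  obtain ⟨c8, f21⟩ : ∃ y : X, a • c7 = y := ⟨_, rfl⟩
  have f22 : a⁻¹ • c8 = c7 := inv_smul_eq_iff.mpr f21.symm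
  obtain ⟨c9, f23⟩ : ∃ y : X, b • c8 = y := ⟨_, rfl⟩
  have f24 : b⁻¹ • c9 = c8 := inv_smul_eq_iff.mpr f23.symm
  obtain ⟨c10, f25⟩ : ∃ y : X, a • c9 = y := ⟨_, rfl⟩
  have f26 : a⁻¹ • c10 = c9 := inv_smul_eq_iff.mpr f25.symm
  obtain ⟨c11, f27⟩ : ∃ y : X, b • c10 = y := ⟨_, rfl⟩
  have f28 : b⁻¹ • c11 = c10 := inv_smul_eq_iff.mpr f27.symm
  obtain ⟨c12, f29⟩ : ∃ y : X, b • c11 = y := ⟨_, rfl⟩
  have f30 : b⁻¹ • c12 = c11 := inv_smul_eq_iff.mpr f29.symm
  obtain ⟨c13, f31⟩ : ∃ y : X, a • c12 = y := ⟨_, rfl⟩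
  have f32 : a⁻¹ • c13 = c12 := inv_smul_eq_iff.mpr f31.symm
  obtain ⟨c14, f33⟩ : ∃ y : X, b • c13 = y := ⟨_, rfl⟩
  have f34 : b⁻¹ • c14 = c13 := inv_smul_eq_iff.mpr f33.symm
  have f35 : a • c14 = c2 := by
    have h := hrel3 c0
    rw [f1, f7, f11, f13, f15, f17, f19, f21, f23, f25, f27, f29, f31, f33] at h
    rw [smul_eq_iff_eq_inv_smul, f4] at h
    rw [smul_eq_iff_eq_inv_smul, f2] at h
    rw [smul_eq_iff_eq_inv_smul, f4] at h
    rw [smul_eq_iff_eq_inv_smul, f2] at h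
    rw [smul_eq_iff_eq_inv_smul, f10] at h
    exact h
  have f36 : a⁻¹ • c2 = c14 := inv_smul_eq_iff.mpr f35.symm
  obtain ⟨c15, f37⟩ : ∃ y : X, a • c6 = y := ⟨_, rfl⟩
  have f38 : a⁻¹ • c15 = c6 := inv_smul_eq_iff.mpr f37.symm
  obtain ⟨c16, f39⟩ : ∃ y : X, b • c15 = y := ⟨_, rfl⟩
  have f40 : b⁻¹ • c16 = c15 := inv_smul_eq_iff.mpr f39.symm
  have f41 : a • c16 = c11 := by
    have h := hrel2 c1
    rw [f7, f11, f13, f15, f17, f37, f39] at h
    rw [smul_eq_iff_eq_inv_smul, f6] at h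
    rw [smul_eq_iff_eq_inv_smul, f10] at h
    rw [smul_eq_iff_eq_inv_smul, f36] at h
    rw [smul_eq_iff_eq_inv_smul, f34] at h
    rw [smul_eq_iff_eq_inv_smul, f32] at h
    rw [smul_eq_iff_eq_inv_smul, f30] at h
    exact h
  have f42 : a⁻¹ • c11 = c16 := inv_smul_eq_iff.mpr f41.symm
  obtain ⟨c17, f43⟩ : ∃ y : X, b • c4 = y := ⟨_, rfl⟩
  have f44 : b⁻¹ • c17 = c4 := inv_smul_eq_iff.mpr f43.symm
  obtain ⟨c18, f45⟩ : ∃ y : X, a • c17 = y := ⟨_, rfl⟩
  have f46 : a⁻¹ • c18 = c17 := inv_smul_eq_iff.mpr f45.symm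
  obtain ⟨c19, f47⟩ : ∃ y : X, b • c18 = y := ⟨_, rfl⟩
  have f48 : b⁻¹ • c19 = c18 := inv_smul_eq_iff.mpr f47.symm
  obtain ⟨c20, f49⟩ : ∃ y : X, a • c19 = y := ⟨_, rfl⟩
  have f50 : a⁻¹ • c20 = c19 := inv_smul_eq_iff.mpr f49.symm
  obtain ⟨c21, f51⟩ : ∃ y : X, b • c20 = y := ⟨_, rfl⟩
  have f52 : b⁻¹ • c21 = c20 := inv_smul_eq_iff.mpr f51.symm
  obtain ⟨c22, f53⟩ : ∃ y : X, b • c21 = y := ⟨_, rfl⟩
  have f54 : b⁻¹ • c22 = c21 := inv_smul_eq_iff.mpr f53.symm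
  obtain ⟨c23, f55⟩ : ∃ y : X, a • c22 = y := ⟨_, rfl⟩
  have f56 : a⁻¹ • c23 = c22 := inv_smul_eq_iff.mpr f55.symm
  obtain ⟨c24, f57⟩ : ∃ y : X, b • c23 = y := ⟨_, rfl⟩
  have f58 : b⁻¹ • c24 = c23 := inv_smul_eq_iff.mpr f57.symm
  obtain ⟨c25, f59⟩ : ∃ y : X, a • c24 = y := ⟨_, rfl⟩
  have f60 : a⁻¹ • c25 = c24 := inv_smul_eq_iff.mpr f59.symm
  have f61 : b • c25 = c13 := by
    have h := hrel3 c1
    rw [f7, f9, f5, f7, f11, f13, f43, f45, f47, f49, f51, f53, f55, f57, f59] at h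
    rw [smul_eq_iff_eq_inv_smul, f6] at h
    rw [smul_eq_iff_eq_inv_smul, f10] at h
    rw [smul_eq_iff_eq_inv_smul, f36] at h
    rw [smul_eq_iff_eq_inv_smul, f34] at h
    exact h
  have f62 : b⁻¹ • c13 = c25 := inv_smul_eq_iff.mpr f61.symm
  have f63 : c3 = c14 := by
    have h := hrel0 c2
    rw [f11] at h
    rw [smul_eq_iff_eq_inv_smul, f36] at h
    exact h
  have f64 : c3 = c14 := f63
  subst f64
  have f65 : c17 = c13 := by
    have h := hrel1 c3
    rw [f13, f43] at h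
    rw [smul_eq_iff_eq_inv_smul, f34] at h
    exact h
  have f66 : c13 = c17 := (f65).symm
  subst f66
  have f67 : c4 = c25 := f44.symm.trans f62
  subst f67
  have f68 : c5 = c24 := by
    have h := hrel0 c4
    rw [f15] at h
    rw [smul_eq_iff_eq_inv_smul, f60] at h
    exact h
  have f69 : c5 = c24 := f68
  subst f69
  obtain ⟨c26, f70⟩ : ∃ y : X, a • c21 = y := ⟨_, rfl⟩
  have f71 : a⁻¹ • c26 = c21 := inv_smul_eq_iff.mpr f70.symm
  obtain ⟨c27, f72⟩ : ∃ y : X, b • c26 = y := ⟨_, rfl⟩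
  have f73 : b⁻¹ • c27 = c26 := inv_smul_eq_iff.mpr f72.symm
  obtain ⟨c28, f74⟩ : ∃ y : X, a • c27 = y := ⟨_, rfl⟩
  have f75 : a⁻¹ • c28 = c27 := inv_smul_eq_iff.mpr f74.symm
  obtain ⟨c29, f76⟩ : ∃ y : X, b • c28 = y := ⟨_, rfl⟩
  have f77 : b⁻¹ • c29 = c28 := inv_smul_eq_iff.mpr f76.symm
  have f78 : a • c29 = c21 := by
    have h := hrel2 c4
    rw [f43, f45, f47, f49, f51, f70, f72, f74, f76] at h
    rw [smul_eq_iff_eq_inv_smul, f60] at h
    rw [smul_eq_iff_eq_inv_smul, f58] at h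
    rw [smul_eq_iff_eq_inv_smul, f56] at h
    rw [smul_eq_iff_eq_inv_smul, f54] at h
    exact h
  have f79 : a⁻¹ • c21 = c29 := inv_smul_eq_iff.mpr f78.symm
  have f80 : c7 = c23 := by
    have h := hrel1 c5
    rw [f17, f19] at h
    rw [smul_eq_iff_eq_inv_smul, f58] at h
    exact h
  have f81 : c7 = c23 := f80
  subst f81
  have f82 : a • c15 = c6 := by
    have h := hrel0 c6
    rw [f37] at h
    exact h
  have f83 : a⁻¹ • c6 = c15 := inv_smul_eq_iff.mpr f82.symm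
  obtain ⟨c30, f84⟩ : ∃ y : X, a • c11 = y := ⟨_, rfl⟩
  have f85 : a⁻¹ • c30 = c11 := inv_smul_eq_iff.mpr f84.symm
  obtain ⟨c31, f86⟩ : ∃ y : X, b • c30 = y := ⟨_, rfl⟩
  have f87 : b⁻¹ • c31 = c30 := inv_smul_eq_iff.mpr f86.symm
  obtain ⟨c32, f88⟩ : ∃ y : X, a • c31 = y := ⟨_, rfl⟩
  have f89 : a⁻¹ • c32 = c31 := inv_smul_eq_iff.mpr f88.symm
  obtain ⟨c33, f90⟩ : ∃ y : X, b • c32 = y := ⟨_, rfl⟩
  have f91 : b⁻¹ • c33 = c32 := inv_smul_eq_iff.mpr f90.symm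
  obtain ⟨c34, f92⟩ : ∃ y : X, a • c33 = y := ⟨_, rfl⟩
  have f93 : a⁻¹ • c34 = c33 := inv_smul_eq_iff.mpr f92.symm
  obtain ⟨c35, f94⟩ : ∃ y : X, b • c34 = y := ⟨_, rfl⟩
  have f95 : b⁻¹ • c35 = c34 := inv_smul_eq_iff.mpr f94.symm
  obtain ⟨c36, f96⟩ : ∃ y : X, a • c35 = y := ⟨_, rfl⟩
  have f97 : a⁻¹ • c36 = c35 := inv_smul_eq_iff.mpr f96.symm
  have f98 : b • c36 = c15 := by
    have h := hrel2 c6
    rw [f19, f21, f23, f25, f27, f84, f86, f88, f90, f92, f94, f96] at h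
    rw [smul_eq_iff_eq_inv_smul, f83] at h
    exact h
  have f99 : b⁻¹ • c15 = c36 := inv_smul_eq_iff.mpr f98.symm
  obtain ⟨c37, f100⟩ : ∃ y : X, b • c19 = y := ⟨_, rfl⟩
  have f101 : b⁻¹ • c37 = c19 := inv_smul_eq_iff.mpr f100.symm
  obtain ⟨c38, f102⟩ : ∃ y : X, a • c37 = y := ⟨_, rfl⟩
  have f103 : a⁻¹ • c38 = c37 := inv_smul_eq_iff.mpr f102.symm
  obtain ⟨c39, f104⟩ : ∃ y : X, b • c38 = y := ⟨_, rfl⟩
  have f105 : b⁻¹ • c39 = c38 := inv_smul_eq_iff.mpr f104.symm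
  obtain ⟨c40, f106⟩ : ∃ y : X, a • c39 = y := ⟨_, rfl⟩
  have f107 : a⁻¹ • c40 = c39 := inv_smul_eq_iff.mpr f106.symm
  obtain ⟨c41, f108⟩ : ∃ y : X, b • c40 = y := ⟨_, rfl⟩
  have f109 : b⁻¹ • c41 = c40 := inv_smul_eq_iff.mpr f108.symm
  obtain ⟨c42, f110⟩ : ∃ y : X, b • c41 = y := ⟨_, rfl⟩
  have f111 : b⁻¹ • c42 = c41 := inv_smul_eq_iff.mpr f110.symm
  obtain ⟨c43, f112⟩ : ∃ y : X, a • c42 = y := ⟨_, rfl⟩
  have f113 : a⁻¹ • c43 = c42 := inv_smul_eq_iff.mpr f112.symm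
  obtain ⟨c44, f114⟩ : ∃ y : X, b • c43 = y := ⟨_, rfl⟩
  have f115 : b⁻¹ • c44 = c43 := inv_smul_eq_iff.mpr f114.symm
  obtain ⟨c45, f116⟩ : ∃ y : X, a • c44 = y := ⟨_, rfl⟩
  have f117 : a⁻¹ • c45 = c44 := inv_smul_eq_iff.mpr f116.symm
  have f118 : b • c45 = c34 := by
    have h := hrel3 c6
    rw [f19, f57, f59, f43, f45, f47, f100, f102, f104, f106, f108, f110, f112, f114, f116] at h
    rw [smul_eq_iff_eq_inv_smul, f83] at h
    rw [smul_eq_iff_eq_inv_smul, f99] at h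
    rw [smul_eq_iff_eq_inv_smul, f97] at h
    rw [smul_eq_iff_eq_inv_smul, f95] at h
    exact h
  have f119 : b⁻¹ • c34 = c45 := inv_smul_eq_iff.mpr f118.symm
  have f120 : c8 = c22 := by
    have h := hrel0 c7
    rw [f21] at h
    rw [smul_eq_iff_eq_inv_smul, f56] at h
    exact h
  have f121 : c8 = c22 := f120
  subst f121
  obtain ⟨c46, f122⟩ : ∃ y : X, b • c12 = y := ⟨_, rfl⟩
  have f123 : b⁻¹ • c46 = c12 := inv_smul_eq_iff.mpr f122.symm
  obtain ⟨c47, f124⟩ : ∃ y : X, a • c46 = y := ⟨_, rfl⟩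
  have f125 : a⁻¹ • c47 = c46 := inv_smul_eq_iff.mpr f124.symm
  obtain ⟨c48, f126⟩ : ∃ y : X, b • c47 = y := ⟨_, rfl⟩
  have f127 : b⁻¹ • c48 = c47 := inv_smul_eq_iff.mpr f126.symm
  obtain ⟨c49, f128⟩ : ∃ y : X, a • c48 = y := ⟨_, rfl⟩
  have f129 : a⁻¹ • c49 = c48 := inv_smul_eq_iff.mpr f128.symm
  obtain ⟨c50, f130⟩ : ∃ y : X, b • c49 = y := ⟨_, rfl⟩
  have f131 : b⁻¹ • c50 = c49 := inv_smul_eq_iff.mpr f130.symm
  obtain ⟨c51, f132⟩ : ∃ y : X, b • c50 = y := ⟨_, rfl⟩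
  have f133 : b⁻¹ • c51 = c50 := inv_smul_eq_iff.mpr f132.symm
  obtain ⟨c52, f134⟩ : ∃ y : X, a • c51 = y := ⟨_, rfl⟩
  have f135 : a⁻¹ • c52 = c51 := inv_smul_eq_iff.mpr f134.symm
  obtain ⟨c53, f136⟩ : ∃ y : X, b • c52 = y := ⟨_, rfl⟩
  have f137 : b⁻¹ • c53 = c52 := inv_smul_eq_iff.mpr f136.symm
  obtain ⟨c54, f138⟩ : ∃ y : X, a • c53 = y := ⟨_, rfl⟩
  have f139 : a⁻¹ • c54 = c53 := inv_smul_eq_iff.mpr f138.symm
  have f140 : b • c54 = c28 := by
    have h := hrel3 c7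
    rw [f57, f17, f37, f39, f41, f29, f122, f124, f126, f128, f130, f132, f134, f136, f138] at h
    rw [smul_eq_iff_eq_inv_smul, f56] at h
    rw [smul_eq_iff_eq_inv_smul, f54] at h
    rw [smul_eq_iff_eq_inv_smul, f79] at h
    rw [smul_eq_iff_eq_inv_smul, f77] at h
    exact h
  have f141 : b⁻¹ • c28 = c54 := inv_smul_eq_iff.mpr f140.symm
  have f142 : c9 = c20 := by
    have h := hrel1 c8
    rw [f23] at h
    rw [smul_eq_iff_eq_inv_smul, f54] at h
    rw [smul_eq_iff_eq_inv_smul, f52] at h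
    exact h
  have f143 : c9 = c20 := f142
  subst f143
  obtain ⟨c55, f144⟩ : ∃ y : X, b • c29 = y := ⟨_, rfl⟩
  have f145 : b⁻¹ • c55 = c29 := inv_smul_eq_iff.mpr f144.symm
  obtain ⟨c56, f146⟩ : ∃ y : X, a • c55 = y := ⟨_, rfl⟩
  have f147 : a⁻¹ • c56 = c55 := inv_smul_eq_iff.mpr f146.symm
  obtain ⟨c57, f148⟩ : ∃ y : X, b • c56 = y := ⟨_, rfl⟩
  have f149 : b⁻¹ • c57 = c56 := inv_smul_eq_iff.mpr f148.symm
  obtain ⟨c58, f150⟩ : ∃ y : X, a • c57 = y := ⟨_, rfl⟩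
  have f151 : a⁻¹ • c58 = c57 := inv_smul_eq_iff.mpr f150.symm
  obtain ⟨c59, f152⟩ : ∃ y : X, b • c58 = y := ⟨_, rfl⟩
  have f153 : b⁻¹ • c59 = c58 := inv_smul_eq_iff.mpr f152.symm
  obtain ⟨c60, f154⟩ : ∃ y : X, b • c59 = y := ⟨_, rfl⟩
  have f155 : b⁻¹ • c60 = c59 := inv_smul_eq_iff.mpr f154.symm
  obtain ⟨c61, f156⟩ : ∃ y : X, a • c60 = y := ⟨_, rfl⟩
  have f157 : a⁻¹ • c61 = c60 := inv_smul_eq_iff.mpr f156.symm
  obtain ⟨c62, f158⟩ : ∃ y : X, b • c61 = y := ⟨_, rfl⟩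
  have f159 : b⁻¹ • c62 = c61 := inv_smul_eq_iff.mpr f158.symm
  obtain ⟨c63, f160⟩ : ∃ y : X, a • c62 = y := ⟨_, rfl⟩
  have f161 : a⁻¹ • c63 = c62 := inv_smul_eq_iff.mpr f160.symm
  have f162 : b • c63 = c36 := by
    have h := hrel3 c8
    rw [f23, f51, f70, f72, f74, f76, f144, f146, f148, f150, f152, f154, f156, f158, f160] at h
    rw [smul_eq_iff_eq_inv_smul, f22] at h
    rw [smul_eq_iff_eq_inv_smul, f20] at h
    rw [smul_eq_iff_eq_inv_smul, f83] at h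
    rw [smul_eq_iff_eq_inv_smul, f99] at h
    exact h
  have f163 : b⁻¹ • c36 = c63 := inv_smul_eq_iff.mpr f162.symm
  have f164 : c10 = c19 := by
    have h := hrel0 c9
    rw [f25] at h
    rw [smul_eq_iff_eq_inv_smul, f50] at h
    exact h
  have f165 : c10 = c19 := f164
  subst f165
  have f166 : c11 = c37 := (f100.symm.trans f27).symm
  subst f166
  have f167 : c30 = c38 := (f102.symm.trans f84).symm
  subst f167
  have f168 : c31 = c39 := (f104.symm.trans f86).symm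
  subst f168
  have f169 : c32 = c40 := (f106.symm.trans f88).symm
  subst f169
  have f170 : c33 = c41 := (f108.symm.trans f90).symm
  subst f170
  have f171 : c46 = c10 := by
    have h := hrel1 c10
    rw [f27, f29, f122] at h
    exact h
  have f172 : c10 = c46 := (f171).symm
  subst f172
  have f173 : c9 = c47 := (f124.symm.trans f49).symm
  subst f173
  have f174 : c12 = c18 := f123.symm.trans f48
  subst f174
  have f175 : c21 = c48 := (f126.symm.trans f51).symm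
  subst f175
  have f176 : c26 = c49 := (f128.symm.trans f70).symm
  subst f176
  have f177 : c27 = c50 := (f130.symm.trans f72).symm
  subst f177
  have f178 : c30 = c16 := by
    have h := hrel0 c11
    rw [f84] at h
    rw [smul_eq_iff_eq_inv_smul, f42] at h
    exact h
  have f179 : c16 = c30 := (f178).symm
  subst f179
  have f180 : c35 = c32 := by
    have h := hrel3 c13
    rw [f33, f13, f15, f17, f37, f39, f86, f88, f90, f92, f94] at h
    rw [smul_eq_iff_eq_inv_smul, f32] at h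
    rw [smul_eq_iff_eq_inv_smul, f30] at h
    rw [smul_eq_iff_eq_inv_smul, f42] at h
    rw [smul_eq_iff_eq_inv_smul, f40] at h
    rw [smul_eq_iff_eq_inv_smul, f99] at h
    rw [smul_eq_iff_eq_inv_smul, f97] at h
    rw [smul_eq_iff_eq_inv_smul, f95] at h
    rw [smul_eq_iff_eq_inv_smul, f93] at h
    rw [smul_eq_iff_eq_inv_smul, f91] at h
    exact h
  have f181 : c32 = c35 := (f180).symm
  subst f181
  have f182 : c31 = c36 := by
    have h := hrel1 c15
    rw [f39, f86] at h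
    rw [smul_eq_iff_eq_inv_smul, f99] at h
    exact h
  have f183 : c31 = c36 := f182
  subst f183
  have f184 : c16 = c63 := (f163.symm.trans f87).symm
  subst f184
  have f185 : c11 = c62 := (f161.symm.trans f85).symm
  subst f185
  have f186 : c10 = c61 := (f159.symm.trans f28).symm
  subst f186
  have f187 : c9 = c60 := (f157.symm.trans f26).symm
  subst f187
  have f188 : c8 = c59 := (f155.symm.trans f24).symm
  subst f188
  have f189 : c21 = c58 := (f153.symm.trans f54).symm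
  subst f189
  have f190 : c29 = c57 := (f151.symm.trans f79).symm
  subst f190
  have f191 : c28 = c56 := (f149.symm.trans f77).symm
  subst f191
  have f192 : c27 = c55 := (f147.symm.trans f75).symm
  subst f192
  have f193 : c26 = c29 := (f145.symm.trans f73).symm
  subst f193
  have f194 : c51 = c28 := by
    have h := hrel1 c26
    rw [f72, f132] at h
    rw [smul_eq_iff_eq_inv_smul, f77] at h
    exact h
  have f195 : c28 = c51 := (f194).symm
  subst f195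
  have f196 : c27 = c54 := f133.symm.trans f141
  subst f196
  have f197 : c52 = c27 := by
    have h := hrel0 c27
    rw [f74, f134] at h
    exact h
  have f198 : c27 = c52 := (f197).symm
  subst f198
  have f199 : c28 = c53 := (f136.symm.trans f132).symm
  subst f199
  have f200 : c42 = c34 := by
    have h := hrel1 c32
    rw [f90, f110] at h
    rw [smul_eq_iff_eq_inv_smul, f95] at h
    exact h
  have f201 : c34 = c42 := (f200).symm
  subst f201
  have f202 : c33 = c45 := f111.symm.trans f119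
  subst f202
  have f203 : c43 = c33 := by
    have h := hrel0 c33
    rw [f92, f112] at h
    exact h
  have f204 : c33 = c43 := (f203).symm
  subst f204
  have f205 : c34 = c44 := (f114.symm.trans f110).symm
  subst f205
  refine Cfsg.Agent.Lib.Helper18.card_le_of_closed ({a, b} : Set G) hgen 23 ![c0, c1, c2, c3, c4, c5, c6, c7, c8, c9, c10, c11, c12, c13, c15, c16, c21, c26, c27, c28, c31, c32, c33, c34] ?_
  intro s hs i
  simp only [Set.mem_insert_iff, Set.mem_singleton_iff] at hs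
  rcases hs with rfl | rfl
  · fin_cases i
    · exact ⟨1, f5⟩
    · exact ⟨0, f3⟩
    · exact ⟨3, f11⟩
    · exact ⟨2, f35⟩
    · exact ⟨5, f15⟩
    · exact ⟨4, f59⟩
    · exact ⟨14, f37⟩
    · exact ⟨8, f21⟩
    · exact ⟨7, f55⟩
    · exact ⟨10, f25⟩
    · exact ⟨9, f49⟩
    · exact ⟨15, f84⟩
    · exact ⟨13, f31⟩
    · exact ⟨12, f45⟩
    · exact ⟨6, f82⟩
    · exact ⟨11, f41⟩
    · exact ⟨17, f70⟩
    · exact ⟨16, f78⟩
    · exact ⟨19, f74⟩
    · exact ⟨18, f134⟩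
    · exact ⟨21, f88⟩
    · exact ⟨20, f96⟩
    · exact ⟨23, f92⟩
    · exact ⟨22, f112⟩
  · fin_cases i
    · exact ⟨1, f1⟩
    · exact ⟨2, f7⟩
    · exact ⟨0, f9⟩
    · exact ⟨4, f13⟩
    · exact ⟨13, f43⟩
    · exact ⟨6, f17⟩
    · exact ⟨7, f19⟩
    · exact ⟨5, f57⟩
    · exact ⟨9, f23⟩
    · exact ⟨16, f51⟩
    · exact ⟨11, f27⟩
    · exact ⟨12, f29⟩
    · exact ⟨10, f122⟩
    · exact ⟨3, f33⟩
    · exact ⟨15, f39⟩
    · exact ⟨20, f86⟩
    · exact ⟨8, f53⟩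
    · exact ⟨18, f72⟩
    · exact ⟨19, f132⟩
    · exact ⟨17, f76⟩
    · exact ⟨14, f98⟩
    · exact ⟨22, f90⟩
    · exact ⟨23, f110⟩
    · exact ⟨21, f94⟩

theorem card_le_168 {G : Type*} [Group G] (a b : G) (ha : a ^ 2 = 1) (hb : b ^ 3 = 1)
    (hab : (a * b) ^ 7 = 1) (hc : (a * b * a * b * b) ^ 4 = 1)
    (hgen : Subgroup.closure ({a, b} : Set G) = ⊤) :
    Finite G ∧ Nat.card G ≤ 168 := by
  obtain ⟨h1, h2⟩ := index_168 a b (by simpa [pow_succ, mul_assoc] using ha)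
    (by simpa [pow_succ, mul_assoc] using hb) (by simpa [pow_succ, mul_assoc] using hab)
    (by simpa [pow_succ, mul_assoc] using hc) hgen
  have hfo : IsOfFinOrder (a * b) := isOfFinOrder_iff_pow_eq_one.mpr ⟨7, by norm_num, hab⟩
  have hfin : Finite (Subgroup.zpowers (a * b)) := hfo.finite_zpowers
  have hc : Nat.card (Subgroup.zpowers (a * b)) ≤ 7 := by
    rw [Nat.card_zpowers]
    exact Nat.le_of_dvd (by norm_num) (orderOf_dvd_of_pow_eq_one hab)
  exact card_le_of_index_le (Subgroup.zpowers (a * b)) 7 24 hc h1 h2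

abbrev rels168 : Set (FreeGroup (Fin 2)) :=
  {FreeGroup.of (0 : Fin 2) ^ 2, FreeGroup.of (1 : Fin 2) ^ 3,
    (FreeGroup.of (0 : Fin 2) * FreeGroup.of 1) ^ 7,
    (FreeGroup.of (0 : Fin 2) * FreeGroup.of 1 * FreeGroup.of 0 * FreeGroup.of 1 * FreeGroup.of 1) ^ 4}

theorem range_of_fin_two {rels : Set (FreeGroup (Fin 2))} :
    ({PresentedGroup.of 0, PresentedGroup.of 1} : Set (PresentedGroup rels)) =
      Set.range (PresentedGroup.of : Fin 2 → PresentedGroup rels) := by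
  ext g
  simp only [Set.mem_insert_iff, Set.mem_singleton_iff, Set.mem_range]
  constructor
  · rintro (rfl | rfl)
    · exact ⟨0, rfl⟩
    · exact ⟨1, rfl⟩
  · rintro ⟨i, rfl⟩
    fin_cases i
    · left; rfl
    · right; rfl

theorem pres168_card : Finite (PresentedGroup rels168) ∧ Nat.card (PresentedGroup rels168) ≤ 168 := by
  apply card_le_168 (PresentedGroup.of 0) (PresentedGroup.of 1)
  · have : PresentedGroup.mk rels168 (FreeGroup.of (0 : Fin 2) ^ 2) = 1 :=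
      PresentedGroup.one_of_mem (by simp [rels168])
    simpa [PresentedGroup.of] using this
  · have : PresentedGroup.mk rels168 (FreeGroup.of (1 : Fin 2) ^ 3) = 1 :=
      PresentedGroup.one_of_mem (by simp [rels168])
    simpa [PresentedGroup.of] using this
  · have : PresentedGroup.mk rels168 ((FreeGroup.of (0 : Fin 2) * FreeGroup.of 1) ^ 7) = 1 :=
      PresentedGroup.one_of_mem (by simp [rels168])
    simpa [PresentedGroup.of] using this
  · have : PresentedGroup.mk rels168 ((FreeGroup.of (0 : Fin 2) * FreeGroup.of 1 * FreeGroup.of 0 * FreeGroup.of 1 * FreeGroup.of 1) ^ 4) = 1 :=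
      PresentedGroup.one_of_mem (by simp [rels168])
    simpa [PresentedGroup.of] using this
  · rw [← PresentedGroup.closure_range_of rels168, range_of_fin_two]

/-- a simple group of order 168 with a (2,3,7;4)-pair is the presented group -/
theorem simple168_equiv {G : Type*} [Group G] [IsSimpleGroup G] (hG : Nat.card G = 168) (a b : G)
    (ha : a ^ 2 = 1) (hb : b ^ 3 = 1) (hab : (a * b) ^ 7 = 1) (hc : (a * b * a * b * b) ^ 4 = 1)
    (ha1 : a ≠ 1) (hb1 : b ≠ 1) (hab1 : a * b ≠ 1) :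
    Nonempty (PresentedGroup rels168 ≃* G) := by
  have hfinG : Finite G := Nat.finite_of_card_ne_zero (by rw [hG]; norm_num)
  have hlift : ∀ r ∈ rels168, FreeGroup.lift ![a, b] r = 1 := by
    intro r hr
    simp only [rels168, Set.mem_insert_iff, Set.mem_singleton_iff] at hr
    rcases hr with rfl | rfl | rfl | rfl <;> simp [ha, hb, hab, hc]
  let φ : PresentedGroup rels168 →* G := PresentedGroup.toGroup hlift
  obtain ⟨hfin, hcard⟩ := pres168_card
  have hsurj : Function.Surjective φ := by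
    rw [← MonoidHom.range_eq_top]
    set R := φ.range with hR
    have haR : a ∈ R := ⟨PresentedGroup.of 0, by simp [φ]⟩
    have hbR : b ∈ R := ⟨PresentedGroup.of 1, by simp [φ]⟩
    have : Fact (Nat.Prime 2) := ⟨Nat.prime_two⟩
    have : Fact (Nat.Prime 3) := ⟨Nat.prime_three⟩
    have : Fact (Nat.Prime 7) := ⟨by norm_num⟩
    have o2 : orderOf a = 2 := orderOf_eq_prime ha ha1
    have o3 : orderOf b = 3 := orderOf_eq_prime hb hb1
    have o7 : orderOf (a * b) = 7 := orderOf_eq_prime hab hab1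
    have d2 : 2 ∣ Nat.card R := by
      have := orderOf_dvd_natCard (⟨a, haR⟩ : R)
      rwa [Subgroup.orderOf_mk, o2] at this
    have d3 : 3 ∣ Nat.card R := by
      have := orderOf_dvd_natCard (⟨b, hbR⟩ : R)
      rwa [Subgroup.orderOf_mk, o3] at this
    have d7 : 7 ∣ Nat.card R := by
      have := orderOf_dvd_natCard (⟨a * b, R.mul_mem haR hbR⟩ : R)
      rwa [Subgroup.orderOf_mk, o7] at this
    have hmul := Subgroup.card_mul_index R
    rw [hG] at hmul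
    by_contra hne
    have hdvd := card_dvd_factorial_index_of_simple R hne
    rw [hG] at hdvd
    have h42 : 42 ∣ Nat.card R := by omega
    obtain ⟨m, hm⟩ := h42
    rw [hm] at hmul
    have hidx : R.index ≤ 4 := by
      rcases Nat.eq_zero_or_pos m with rfl | hmpos
      · simp at hmul
      · nlinarith
    interval_cases R.index <;> revert hdvd <;> decide
  exact ⟨MulEquiv.ofBijective φ (bijective_of_surjective_of_card_le φ hsurj (by rw [hG]; exact hcard))⟩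

theorem charP_of_card_eq_prime_pow {F : Type*} [Field F] [Fintype F] (p k : ℕ) (hp : p.Prime)
    (hF : Fintype.card F = p ^ k) : CharP F p := by
  obtain ⟨p', hp'⟩ := CharP.exists F
  obtain ⟨n, hpp, hn⟩ := FiniteField.card F p'
  rw [hF] at hn
  have h1 : p' ∣ p ^ k := by rw [hn]; exact dvd_pow_self p' n.pos.ne'
  have h2 : p' ∣ p := hpp.dvd_of_dvd_pow h1
  have := (Nat.prime_dvd_prime_iff_eq hpp hp).mp h2
  rw [← this]; exact hp'

/-- an element of `SL` with a nonzero off-diagonal entry is nontrivial in `PSL` -/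
theorem mk_ne_one_of_offdiag {n : Type*} [Fintype n] [DecidableEq n] {F : Type*} [Field F]
    (g : Matrix.SpecialLinearGroup n F) (i j : n) (hij : i ≠ j) (h : g i j ≠ 0) :
    (QuotientGroup.mk g : Matrix.ProjectiveSpecialLinearGroup n F) ≠ 1 := by
  intro h1
  rw [QuotientGroup.eq_one_iff, Matrix.SpecialLinearGroup.mem_center_iff] at h1
  obtain ⟨r, -, hr⟩ := h1
  apply h
  have := congrFun (congrFun hr i) j
  simp [Matrix.diagonal_apply_ne _ hij] at this
  exact this.symm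

end Cfsg.Agent.Lib.Helper18
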