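import Mathlib
import Cfsg.Prelude.Def_LieClassical

set_option linter.unusedSimpArgs false
set_option linter.unusedSectionVars false

namespace Cfsg.Agent.Lib.Helper18

section fiber

variable {F : Type*} [Field F] [Fintype F]

/-- fibres of a nonzero linear functional on a finite vector space -/
theorem card_fiber_linear {M : Type*} [AddCommGroup M] [Module F M] [Finite M]
    (φ : M →ₗ[F] F) (hφ : ∃ y, φ y ≠ 0) (s : F) :
    Fintype.card F * Nat.card {y : M // φ y = s} = Nat.card M := by
  obtain ⟨y1, hy1⟩ := hφ
  have h0 : φ ((φ y1)⁻¹ • y1) = 1 := by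
    rw [map_smul, smul_eq_mul, inv_mul_cancel₀ hy1]
  set y0 := (φ y1)⁻¹ • y1 with hy0
  let e : M ≃ F × {y : M // φ y = s} :=
    { toFun := fun u => (φ u, ⟨u + (s - φ u) • y0, by
        rw [map_add, map_smul, h0, smul_eq_mul, mul_one]; ring⟩)
      invFun := fun p => p.2.1 + (p.1 - s) • y0
      left_inv := fun u => by
        simp only
        rw [add_assoc, ← add_smul]
        simp
      right_inv := fun p => by
        have h1 : φ (p.2.1 + (p.1 - s) • y0) = p.1 := by
          rw [map_add, map_smul, h0, p.2.2, smul_eq_mul, mul_one]; ring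
        apply Prod.ext
        · exact h1
        · apply Subtype.ext
          simp only [h1]
          rw [add_assoc, ← add_smul]
          simp }
  rw [Nat.card_congr e, Nat.card_prod, Nat.card_eq_fintype_card (α := F)]

theorem card_fiber_dot {ι : Type*} [Fintype ι] (x : ι → F) (hx : x ≠ 0) (s : F) :
    Fintype.card F * Nat.card {y : ι → F // ∑ i, x i * y i = s}
      = Fintype.card F ^ Fintype.card ι := by
  classical
  let φ : (ι → F) →ₗ[F] F :=
    { toFun := fun y => ∑ i, x i * y i
      map_add' := fun y y' => by simp [mul_add, Finset.sum_add_distrib]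
      map_smul' := fun a y => by
        simp only [Pi.smul_apply, smul_eq_mul, RingHom.id_apply, Finset.mul_sum]
        apply Finset.sum_congr rfl
        intro i _
        ring }
  have hφ : ∃ y, φ y ≠ 0 := by
    obtain ⟨k, hk⟩ := Function.ne_iff.mp hx
    refine ⟨Pi.single k 1, ?_⟩
    show ∑ i, x i * (Pi.single k (1 : F) : ι → F) i ≠ 0
    simpa [Pi.single_apply] using hk
  have := card_fiber_linear φ hφ s
  rw [Nat.card_fun, Nat.card_eq_fintype_card (α := F), Nat.card_eq_fintype_card (α := ι)] at this
  exact this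

/-- the master count for `x ⬝ y + ν z = t` -/
theorem card_dot_add {ι X : Type*} [Fintype ι] [Finite X] (ν : X → F) (t : F) :
    Fintype.card F * Nat.card {p : (ι → F) × (ι → F) × X // ∑ i, p.1 i * p.2.1 i + ν p.2.2 = t}
      = (Fintype.card F ^ Fintype.card ι - 1) * Fintype.card F ^ Fintype.card ι * Nat.card X
        + Fintype.card F ^ (Fintype.card ι + 1) * Nat.card {z : X // ν z = t} := by
  classical
  have := Fintype.ofFinite X
  set q := Fintype.card F with hq
  set N := Fintype.card ι with hN
  let e : {p : (ι → F) × (ι → F) × X // ∑ i, p.1 i * p.2.1 i + ν p.2.2 = t}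
      ≃ Σ (x : ι → F), Σ (z : X), {y : ι → F // ∑ i, x i * y i = t - ν z} :=
    { toFun := fun p => ⟨p.1.1, p.1.2.2, p.1.2.1, eq_sub_of_add_eq p.2⟩
      invFun := fun p => ⟨(p.1, p.2.2.1, p.2.1), add_eq_of_eq_sub p.2.2.2⟩
      left_inv := fun p => rfl
      right_inv := fun p => rfl }
  rw [Nat.card_congr e, Nat.card_sigma]
  simp_rw [Nat.card_sigma]
  rw [← Finset.add_sum_erase Finset.univ _ (Finset.mem_univ (0 : ι → F)), mul_add,
    Finset.mul_sum (Finset.univ.erase (0 : ι → F))]
  have h1 : ∀ x ∈ Finset.univ.erase (0 : ι → F),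
      q * ∑ z : X, Nat.card {y : ι → F // ∑ i, x i * y i = t - ν z} = q ^ N * Nat.card X := by
    intro x hx
    rw [Finset.mul_sum]
    have h3 : ∀ z : X, q * Nat.card {y : ι → F // ∑ i, x i * y i = t - ν z} = q ^ N :=
      fun z => card_fiber_dot x (Finset.ne_of_mem_erase hx) _
    simp_rw [h3]
    rw [Finset.sum_const, Finset.card_univ, smul_eq_mul, Nat.card_eq_fintype_card, mul_comm]
  rw [Finset.sum_congr rfl h1, Finset.sum_const, Finset.card_erase_of_mem (Finset.mem_univ _),
    Finset.card_univ, Fintype.card_fun, smul_eq_mul]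
  have h2 : ∀ z : X, Nat.card {y : ι → F // ∑ i, (0 : ι → F) i * y i = t - ν z}
      = if ν z = t then q ^ N else 0 := by
    intro z
    split_ifs with h
    · rw [← Fintype.card_fun, ← Nat.card_eq_fintype_card]
      apply Nat.card_congr
      exact Equiv.subtypeUnivEquiv (fun y => by simp [h])
    · have : IsEmpty {y : ι → F // ∑ i, (0 : ι → F) i * y i = t - ν z} :=
        ⟨fun y => h (by
          have := y.2
          simp at this
          exact (sub_eq_zero.mp this.symm).symm)⟩
      exact Nat.card_of_isEmpty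
  simp_rw [h2]
  rw [← Finset.sum_filter, Finset.sum_const, smul_eq_mul,
    Nat.card_eq_fintype_card (α := {z : X // ν z = t}), Fintype.card_subtype]
  ring

end fiber

end Cfsg.Agent.Lib.Helper18
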