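import Mathlib
import Cfsg.Agent.Lib.Helper18.Quad1

set_option linter.unusedSimpArgs false
set_option linter.unusedSectionVars false

namespace Cfsg.Agent.Lib.Helper18

section symp

variable {F : Type*} [Field F] [Fintype F] {V : Type*} [AddCommGroup V] [Module F V] [Finite V]
variable (B : LinearMap.BilinForm F V)

/-- a nondegenerate subspace of size `q^(2j)` -/
def SympGood (U : Submodule F V) (j : ℕ) : Prop :=
  Nat.card U = Fintype.card F ^ (2 * j) ∧ ∀ x ∈ U, x ≠ 0 → ∃ y ∈ U, B x y ≠ 0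

/-- the orthogonal complement of a pair inside `U` -/
def sympPerp (U : Submodule F V) (x y : V) : Submodule F V :=
  U ⊓ (LinearMap.ker (B x) ⊓ LinearMap.ker (B y))

theorem mem_sympPerp {U : Submodule F V} {x y w : V} :
    w ∈ sympPerp B U x y ↔ w ∈ U ∧ B x w = 0 ∧ B y w = 0 := Iff.rfl

variable {B} (hB : B.IsAlt)
include hB

theorem symp_swap (x y : V) : B y x = - B x y := by
  exact (hB.neg_eq x y).symm

theorem symp_proj_mem {U : Submodule F V} {x y : V} (hx : x ∈ U) (hy : y ∈ U) (hxy : B x y = 1)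
    {u : V} (hu : u ∈ U) : u + (B y u) • x - (B x u) • y ∈ sympPerp B U x y := by
  have hyx : B y x = -1 := by rw [symp_swap hB, hxy]
  refine ⟨U.sub_mem (U.add_mem hu (U.smul_mem _ hx)) (U.smul_mem _ hy), ?_, ?_⟩
  · show B x _ = 0
    rw [map_sub, map_add, map_smul, map_smul, hB x, hxy]
    simp
  · show B y _ = 0
    rw [map_sub, map_add, map_smul, map_smul, hB y, hyx]
    simp

/-- `U ≃ F × F × U'` -/
def sympSplit (U : Submodule F V) (x y : V) (hx : x ∈ U) (hy : y ∈ U) (hxy : B x y = 1) :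
    U ≃ F × F × sympPerp B U x y where
  toFun u := (B y u.1, B x u.1, ⟨u.1 + (B y u.1) • x - (B x u.1) • y, symp_proj_mem hB hx hy hxy u.2⟩)
  invFun p := ⟨p.2.2.1 - p.1 • x + p.2.1 • y,
    U.add_mem (U.sub_mem p.2.2.2.1 (U.smul_mem _ hx)) (U.smul_mem _ hy)⟩
  left_inv u := by
    apply Subtype.ext
    simp only
    abel
  right_inv p := by
    have hyx : B y x = -1 := by rw [symp_swap hB, hxy]
    have hw1 : B x p.2.2.1 = 0 := p.2.2.2.2.1
    have hw2 : B y p.2.2.1 = 0 := p.2.2.2.2.2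
    have h1 : B y (p.2.2.1 - p.1 • x + p.2.1 • y) = p.1 := by
      rw [map_add, map_sub, map_smul, map_smul, hB y, hyx, hw2]
      simp
    have h2 : B x (p.2.2.1 - p.1 • x + p.2.1 • y) = p.2.1 := by
      rw [map_add, map_sub, map_smul, map_smul, hB x, hxy, hw1]
      simp
    refine Prod.ext h1 (Prod.ext h2 (Subtype.ext ?_))
    simp only [h1, h2]
    abel

theorem sympGood_perp {U : Submodule F V} {j : ℕ} (hU : SympGood B U (j + 1))
    (x y : V) (hx : x ∈ U) (hy : y ∈ U) (hxy : B x y = 1) : SympGood B (sympPerp B U x y) j := by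
  have hq : 0 < Fintype.card F := Fintype.card_pos
  constructor
  · have h1 := Nat.card_congr (sympSplit hB U x y hx hy hxy)
    rw [hU.1, Nat.card_prod, Nat.card_prod, Nat.card_eq_fintype_card (α := F)] at h1
    have h2 : Fintype.card F ^ (2 * (j + 1))
        = Fintype.card F * (Fintype.card F * Fintype.card F ^ (2 * j)) := by ring
    rw [h2] at h1
    exact (Nat.eq_of_mul_eq_mul_left hq (Nat.eq_of_mul_eq_mul_left hq h1)).symm
  · intro w hw hw0
    obtain ⟨y', hy', hne⟩ := hU.2 w hw.1 hw0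
    refine ⟨_, symp_proj_mem hB hx hy hxy hy', ?_⟩
    have hw1 : B w x = 0 := by rw [symp_swap hB, hw.2.1, neg_zero]
    have hw2 : B w y = 0 := by rw [symp_swap hB, hw.2.2, neg_zero]
    rw [map_sub, map_add, map_smul, map_smul, hw1, hw2]
    simpa using hne

omit hB in
theorem symp_card_pairs {U : Submodule F V} {j : ℕ} (hU : SympGood B U (j + 1)) :
    Nat.card {p : U × U // B p.1.1 p.2.1 = 1}
      = (Fintype.card F ^ (2 * (j + 1)) - 1) * Fintype.card F ^ (2 * j + 1) := by
  classical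
  have hq : 0 < Fintype.card F := Fintype.card_pos
  let e : {p : U × U // B p.1.1 p.2.1 = 1} ≃ Σ x : {x : U // x ≠ 0}, {y : U // B x.1.1 y.1 = 1} :=
    { toFun := fun p => ⟨⟨p.1.1, fun h => by
        have := p.2
        rw [h] at this
        simp at this⟩, ⟨p.1.2, p.2⟩⟩
      invFun := fun p => ⟨(p.1.1, p.2.1), p.2.2⟩
      left_inv := fun p => rfl
      right_inv := fun p => rfl }
  have := Fintype.ofFinite {x : U // x ≠ 0}
  rw [Nat.card_congr e, Nat.card_sigma]
  have h1 : ∀ x : {x : U // x ≠ 0}, Nat.card {y : U // B x.1.1 y.1 = 1}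
      = Fintype.card F ^ (2 * j + 1) := by
    intro x
    have hx0 : x.1.1 ≠ 0 := fun h => x.2 (Subtype.ext h)
    obtain ⟨y, hy, hne⟩ := hU.2 x.1.1 x.1.2 hx0
    have := card_fiber_linear ((B x.1.1).domRestrict U) ⟨⟨y, hy⟩, hne⟩ 1
    rw [hU.1] at this
    have h2 : Fintype.card F ^ (2 * (j + 1)) = Fintype.card F * Fintype.card F ^ (2 * j + 1) := by
      ring
    rw [h2] at this
    exact Nat.eq_of_mul_eq_mul_left hq this
  simp_rw [h1]
  rw [Finset.sum_const, Finset.card_univ, smul_eq_mul, ← Nat.card_eq_fintype_card]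
  congr 1
  have h3 : Nat.card {x : U // x ≠ 0} = Nat.card U - 1 := by
    have := Fintype.ofFinite U
    rw [Nat.card_eq_fintype_card, Nat.card_eq_fintype_card, Fintype.card_subtype_compl]
    simp
  rw [h3, hU.1]

variable (B) in
/-- symplectic `k`-frames (families of `k` mutually orthogonal hyperbolic pairs) inside `U` -/
def SympFrame (U : Submodule F V) (k : ℕ) : Type _ :=
  {f : Fin k → V × V // (∀ i, (f i).1 ∈ U ∧ (f i).2 ∈ U) ∧
    ∀ i l, B (f i).1 (f l).1 = 0 ∧ B (f i).2 (f l).2 = 0 ∧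
      B (f i).1 (f l).2 = if i = l then 1 else 0}

omit hB in
instance sympFrame_finite (U : Submodule F V) (k : ℕ) : Finite (SympFrame B U k) := by
  unfold SympFrame
  infer_instance

theorem sympFrame_cons_aux (U : Submodule F V) (k : ℕ)
    (x y : V) (hx : x ∈ U) (hy : y ∈ U) (hxy : B x y = 1)
    (f : Fin k → V × V) (hf : ∀ i, (f i).1 ∈ sympPerp B U x y ∧ (f i).2 ∈ sympPerp B U x y)
    (hf2 : ∀ i l, B (f i).1 (f l).1 = 0 ∧ B (f i).2 (f l).2 = 0 ∧
      B (f i).1 (f l).2 = if i = l then 1 else 0) :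
    (∀ i, ((Fin.cons (x, y) f : Fin (k + 1) → V × V) i).1 ∈ U ∧
      ((Fin.cons (x, y) f : Fin (k + 1) → V × V) i).2 ∈ U) ∧
    ∀ i l, B ((Fin.cons (x, y) f : Fin (k + 1) → V × V) i).1
        ((Fin.cons (x, y) f : Fin (k + 1) → V × V) l).1 = 0 ∧
      B ((Fin.cons (x, y) f : Fin (k + 1) → V × V) i).2
        ((Fin.cons (x, y) f : Fin (k + 1) → V × V) l).2 = 0 ∧
      B ((Fin.cons (x, y) f : Fin (k + 1) → V × V) i).1
        ((Fin.cons (x, y) f : Fin (k + 1) → V × V) l).2 = if i = l then 1 else 0 := by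
  constructor
  · intro i
    refine Fin.cases ?_ (fun i => ?_) i
    · exact ⟨hx, hy⟩
    · exact ⟨(hf i).1.1, (hf i).2.1⟩
  · intro i l
    refine Fin.cases ?_ (fun i => ?_) i <;> refine Fin.cases ?_ (fun l => ?_) l
    · simp only [Fin.cons_zero, if_true]
      exact ⟨hB x, hB y, hxy⟩
    · simp only [Fin.cons_zero, Fin.cons_succ, (Fin.succ_ne_zero l).symm, if_false]
      exact ⟨(hf l).1.2.1, (hf l).2.2.2, (hf l).2.2.1⟩
    · simp only [Fin.cons_zero, Fin.cons_succ, Fin.succ_ne_zero i, if_false]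
      refine ⟨?_, ?_, ?_⟩
      · rw [symp_swap hB, (hf i).1.2.1, neg_zero]
      · rw [symp_swap hB, (hf i).2.2.2, neg_zero]
      · rw [symp_swap hB, (hf i).1.2.2, neg_zero]
    · simp only [Fin.cons_succ, Fin.succ_inj]
      exact hf2 i l

theorem sympFrame_card {U : Submodule F V} {k : ℕ} (hU : SympGood B U k) :
    Nat.card (SympFrame B U k) = ∏ i ∈ Finset.range k,
      ((Fintype.card F ^ (2 * (i + 1)) - 1) * Fintype.card F ^ (2 * i + 1)) := by
  induction k generalizing U with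
  | zero =>
    have : Unique (SympFrame B U 0) :=
      { default := ⟨fun i => i.elim0, fun i => i.elim0, fun i => i.elim0⟩
        uniq := fun f => Subtype.ext (funext fun i => i.elim0) }
    simp
  | succ k ih =>
    let e : SympFrame B U (k + 1) ≃ Σ p : {p : U × U // B p.1.1 p.2.1 = 1},
        SympFrame B (sympPerp B U p.1.1.1 p.1.2.1) k :=
      { toFun := fun f => ⟨⟨(⟨(f.1 0).1, (f.2.1 0).1⟩, ⟨(f.1 0).2, (f.2.1 0).2⟩), by
            simpa using (f.2.2 0 0).2.2⟩,
          ⟨fun i => f.1 i.succ, fun i => ⟨⟨(f.2.1 _).1, (f.2.2 0 i.succ).1, by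
              show B (f.1 0).2 (f.1 i.succ).1 = 0
              rw [symp_swap hB, (f.2.2 i.succ 0).2.2]
              simp [Fin.succ_ne_zero]⟩,
            ⟨(f.2.1 _).2, by
              have := (f.2.2 0 i.succ).2.2
              simpa [(Fin.succ_ne_zero i).symm] using this, (f.2.2 0 i.succ).2.1⟩⟩,
            fun i l => by simpa using f.2.2 i.succ l.succ⟩⟩
        invFun := fun p => ⟨Fin.cons (p.1.1.1.1, p.1.1.2.1) p.2.1,
          sympFrame_cons_aux hB U k p.1.1.1.1 p.1.1.2.1 p.1.1.1.2 p.1.1.2.2 p.1.2 p.2.1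
            p.2.2.1 p.2.2.2⟩
        left_inv := fun f => Subtype.ext (by
          funext i
          refine Fin.cases ?_ (fun i => ?_) i <;> simp)
        right_inv := fun p => rfl }
    have := Fintype.ofFinite {p : U × U // B p.1.1 p.2.1 = 1}
    rw [Nat.card_congr e, Nat.card_sigma]
    have h1 : ∀ p : {p : U × U // B p.1.1 p.2.1 = 1},
        Nat.card (SympFrame B (sympPerp B U p.1.1.1 p.1.2.1) k)
          = ∏ i ∈ Finset.range k,
            ((Fintype.card F ^ (2 * (i + 1)) - 1) * Fintype.card F ^ (2 * i + 1)) :=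
      fun p => ih (sympGood_perp hB hU p.1.1.1 p.1.2.1 p.1.1.2 p.1.2.2 p.2)
    simp_rw [h1]
    rw [Finset.sum_const, Finset.card_univ, ← Nat.card_eq_fintype_card, symp_card_pairs hU,
      Finset.prod_range_succ, smul_eq_mul, mul_comm]

end symp

end Cfsg.Agent.Lib.Helper18
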