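import Mathlib
import Cfsg.Agent.Lib.Helper18.Symp1

set_option linter.unusedSimpArgs false
set_option linter.unusedSectionVars false

namespace Cfsg.Agent.Lib.Helper18

open Matrix

section sp

variable {F : Type*} [Field F] {m : ℕ}

/-- the standard symplectic form `u ⬝ J v` -/
noncomputable def sympB (m : ℕ) (F : Type*) [Field F] : LinearMap.BilinForm F (Fin m ⊕ Fin m → F) :=
  Matrix.toBilin' (Matrix.J (Fin m) F)

theorem sympB_apply (u v : Fin m ⊕ Fin m → F) :
    sympB m F u v = u ⬝ᵥ (Matrix.J (Fin m) F *ᵥ v) := Matrix.toBilin'_apply' _ _ _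

theorem sympB_apply' (u v : Fin m ⊕ Fin m → F) :
    sympB m F u v = ∑ i, (u (Sum.inr i) * v (Sum.inl i) - u (Sum.inl i) * v (Sum.inr i)) := by
  rw [sympB_apply, Matrix.J, Matrix.fromBlocks_mulVec]
  simp only [dotProduct, Fintype.sum_sum_type, Sum.elim_inl, Sum.elim_inr, Matrix.zero_mulVec,
    Matrix.neg_mulVec, Matrix.one_mulVec, zero_add, add_zero, Pi.neg_apply, Function.comp,
    Finset.sum_sub_distrib, mul_neg, Finset.sum_neg_distrib]
  ring

theorem sympB_isAlt : (sympB m F).IsAlt := by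
  intro v
  rw [sympB_apply']
  apply Finset.sum_eq_zero
  intro i _
  ring

theorem sympB_nondeg (x : Fin m ⊕ Fin m → F) (hx : x ≠ 0) : ∃ y, sympB m F x y ≠ 0 := by
  obtain ⟨k, hk⟩ := Function.ne_iff.mp hx
  refine ⟨-(Matrix.J (Fin m) F *ᵥ Pi.single k 1), ?_⟩
  rw [sympB_apply, Matrix.mulVec_neg, Matrix.mulVec_mulVec, Matrix.J_squared, Matrix.neg_mulVec,
    neg_neg, Matrix.one_mulVec]
  simpa using hk

theorem sympB_col (A : Matrix (Fin m ⊕ Fin m) (Fin m ⊕ Fin m) F) (i j : Fin m ⊕ Fin m) :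
    (Aᵀ * Matrix.J (Fin m) F * A) i j = sympB m F (fun k => A k i) (fun k => A k j) := by
  rw [sympB_apply, Matrix.mul_assoc, Matrix.mul_apply]
  rfl

variable [Fintype F]

theorem sympGood_top : SympGood (sympB m F) (⊤ : Submodule F (Fin m ⊕ Fin m → F)) m := by
  constructor
  · rw [Nat.card_congr (Submodule.topEquiv (R := F) (M := Fin m ⊕ Fin m → F)).toEquiv, Nat.card_fun,
      Nat.card_eq_fintype_card, Nat.card_eq_fintype_card, Fintype.card_sum, Fintype.card_fin,
      two_mul]
  · intro x _ hx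
    obtain ⟨y, hy⟩ := sympB_nondeg x hx
    exact ⟨y, Submodule.mem_top, hy⟩

theorem card_Sp_eq_frame : Nat.card (Matrix.symplecticGroup (Fin m) F)
    = Nat.card (SympFrame (sympB m F) (⊤ : Submodule F (Fin m ⊕ Fin m → F)) m) := by
  apply Nat.card_congr
  let e : Matrix (Fin m ⊕ Fin m) (Fin m ⊕ Fin m) F
      ≃ (Fin m → (Fin m ⊕ Fin m → F) × (Fin m ⊕ Fin m → F)) :=
    { toFun := fun A i => (fun k => A k (Sum.inr i), fun k => A k (Sum.inl i))
      invFun := fun f => Matrix.of (fun k j => Sum.elim (fun i => (f i).2 k) (fun i => (f i).1 k) j)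
      left_inv := fun A => by
        ext k (j | j) <;> rfl
      right_inv := fun f => rfl }
  refine e.subtypeEquiv (fun A => ?_)
  show A ∈ symplecticGroup (Fin m) F ↔
    (∀ i : Fin m, (fun k => A k (Sum.inr i)) ∈ (⊤ : Submodule F (Fin m ⊕ Fin m → F)) ∧
      (fun k => A k (Sum.inl i)) ∈ (⊤ : Submodule F (Fin m ⊕ Fin m → F))) ∧
    ∀ i l : Fin m, sympB m F (fun k => A k (Sum.inr i)) (fun k => A k (Sum.inr l)) = 0 ∧
      sympB m F (fun k => A k (Sum.inl i)) (fun k => A k (Sum.inl l)) = 0 ∧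
      sympB m F (fun k => A k (Sum.inr i)) (fun k => A k (Sum.inl l)) = if i = l then 1 else 0
  rw [SymplecticGroup.mem_iff']
  constructor
  · intro h
    refine ⟨fun i => ⟨Submodule.mem_top, Submodule.mem_top⟩, fun i l => ⟨?_, ?_, ?_⟩⟩
    · have := congrFun (congrFun h (Sum.inr i)) (Sum.inr l)
      rw [sympB_col] at this
      simpa [Matrix.J] using this
    · have := congrFun (congrFun h (Sum.inl i)) (Sum.inl l)
      rw [sympB_col] at this
      simpa [Matrix.J] using this
    · have := congrFun (congrFun h (Sum.inr i)) (Sum.inl l)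
      rw [sympB_col] at this
      simpa [Matrix.J, Matrix.one_apply] using this
  · intro h
    ext (i | i) (l | l)
    · rw [sympB_col]
      simpa [Matrix.J] using (h.2 i l).2.1
    · rw [sympB_col, symp_swap sympB_isAlt]
      have := (h.2 l i).2.2
      simp only [Matrix.J, Matrix.fromBlocks_apply₁₂, Matrix.neg_apply, Matrix.one_apply]
      rw [show (sympB m F (fun k => A k (Sum.inr l)) (fun k => A k (Sum.inl i)))
        = if l = i then 1 else 0 from this]
      simp only [eq_comm]
    · rw [sympB_col]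
      simpa [Matrix.J, Matrix.one_apply] using (h.2 i l).2.2
    · rw [sympB_col]
      simpa [Matrix.J] using (h.2 i l).1

theorem card_Sp_eq_prod : Nat.card (Matrix.symplecticGroup (Fin m) F)
    = ∏ i ∈ Finset.range m,
      ((Fintype.card F ^ (2 * (i + 1)) - 1) * Fintype.card F ^ (2 * i + 1)) := by
  rw [card_Sp_eq_frame, sympFrame_card sympB_isAlt sympGood_top]

end sp

end Cfsg.Agent.Lib.Helper18
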