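import Mathlib
import Cfsg.Agent.H5.Symp
import Cfsg.Agent.H6.Transv

set_option linter.unusedSimpArgs false
set_option linter.unusedSectionVars false

/-! rank one elements of the symplectic group, centralisers of transvections, orbit counting -/

namespace Cfsg.Agent.Lib.Helper18

open Matrix Cfsg Cfsg.Agent.H5Symp

theorem card_eq_card_mul_of_fibers {G X : Type*} [Group G] (f : G → X) (H : Subgroup G)
    (hf : Function.Surjective f) (hH : ∀ g g', f g = f g' ↔ g⁻¹ * g' ∈ H) :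
    Nat.card G = Nat.card X * Nat.card H := by
  rw [Subgroup.card_eq_card_quotient_mul_card_subgroup H]
  congr 1
  apply Nat.card_congr
  refine Equiv.ofBijective (Quotient.lift f (fun a b hab => ?_)) ⟨?_, ?_⟩
  · exact (hH a b).2 (QuotientGroup.leftRel_apply.1 hab)
  · intro a b
    induction a using Quotient.inductionOn with | _ a => ?_
    induction b using Quotient.inductionOn with | _ b => ?_
    intro h
    exact Quotient.sound (QuotientGroup.leftRel_apply.2 ((hH a b).1 h))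
  · intro x
    obtain ⟨g, hg⟩ := hf x
    exact ⟨Quotient.mk _ g, hg⟩

section sp

variable {F : Type*} [Field F] {m : ℕ}

/-- rank one elements of `Sp` are transvections -/
theorem sp_rank_one_eq_tv (t : symplecticGroup (Fin m) F)
    (ht : ((t : Matrix (Fin m ⊕ Fin m) (Fin m ⊕ Fin m) F) - 1).rank = 1) :
    ∃ (v : Fin m ⊕ Fin m → F) (c : F), v ≠ 0 ∧ c ≠ 0 ∧ t = tv v c := by
  obtain ⟨u, w, hu, hw, hN⟩ := Cfsg.Agent.H6.exists_vecMulVec_of_rank_one _ ht
  have htx : ∀ x, (t : Matrix (Fin m ⊕ Fin m) (Fin m ⊕ Fin m) F) *ᵥ x = x + (w ⬝ᵥ x) • u := by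
    intro x
    have : (t : Matrix (Fin m ⊕ Fin m) (Fin m ⊕ Fin m) F) = 1 + vecMulVec u w := by
      rw [← hN]
      abel
    rw [this, add_mulVec, one_mulVec, vecMulVec_mulVec]
    congr 1
    ext i
    simp [mul_comm]
  have hpres := (mem_symp_iff _).1 t.2
  have key : ∀ x y, (w ⬝ᵥ y) * sympForm m F x u = (w ⬝ᵥ x) * sympForm m F y u := by
    intro x y
    have := hpres x y
    rw [htx, htx] at this
    simp only [form_add_left, form_add_right, form_smul_left, form_smul_right, form_self] at this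
    rw [form_swap u y] at this
    linear_combination this
  obtain ⟨y₀, hy₀⟩ : ∃ y, w ⬝ᵥ y ≠ 0 := by
    obtain ⟨j, hj⟩ := Function.ne_iff.mp hw
    exact ⟨Pi.single j 1, by simpa using hj⟩
  obtain ⟨z, _, hz⟩ := nondeg_top u trivial hu
  have hB : sympForm m F y₀ u ≠ 0 := by
    intro h0
    have := key z y₀
    rw [h0, mul_zero] at this
    rcases mul_eq_zero.1 this with h | h
    · exact hy₀ h
    · apply hz
      rw [form_swap, h, neg_zero]
  refine ⟨u, (w ⬝ᵥ y₀) / sympForm m F y₀ u, hu, div_ne_zero hy₀ hB, ?_⟩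
  apply Subtype.ext
  apply mat_ext
  intro x
  show (t : Matrix (Fin m ⊕ Fin m) (Fin m ⊕ Fin m) F) *ᵥ x = sympTransvection m u _ *ᵥ x
  rw [htx, tv_mulVec]
  congr 2
  have := key x y₀
  field_simp
  linear_combination (-1 : F) * this

theorem sp_coe_mul_mulVec (g h : symplecticGroup (Fin m) F) (x : Fin m ⊕ Fin m → F) :
    ((g * h : symplecticGroup (Fin m) F) : Matrix (Fin m ⊕ Fin m) (Fin m ⊕ Fin m) F) *ᵥ x
      = (g : Matrix (Fin m ⊕ Fin m) (Fin m ⊕ Fin m) F) *ᵥ
        ((h : Matrix (Fin m ⊕ Fin m) (Fin m ⊕ Fin m) F) *ᵥ x) := by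
  rw [Submonoid.coe_mul, ← mulVec_mulVec]

theorem sp_inv_mulVec (g : symplecticGroup (Fin m) F) (x : Fin m ⊕ Fin m → F) :
    ((g⁻¹ : symplecticGroup (Fin m) F) : Matrix (Fin m ⊕ Fin m) (Fin m ⊕ Fin m) F) *ᵥ
      ((g : Matrix (Fin m ⊕ Fin m) (Fin m ⊕ Fin m) F) *ᵥ x) = x := by
  rw [← sp_coe_mul_mulVec, inv_mul_cancel]
  simp

theorem sp_mulVec_inv (g : symplecticGroup (Fin m) F) (x : Fin m ⊕ Fin m → F) :
    (g : Matrix (Fin m ⊕ Fin m) (Fin m ⊕ Fin m) F) *ᵥ
      (((g⁻¹ : symplecticGroup (Fin m) F) : Matrix (Fin m ⊕ Fin m) (Fin m ⊕ Fin m) F) *ᵥ x) = x := by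
  rw [← sp_coe_mul_mulVec, mul_inv_cancel]
  simp

theorem sp_form (g : symplecticGroup (Fin m) F) (x y : Fin m ⊕ Fin m → F) :
    sympForm m F ((g : Matrix (Fin m ⊕ Fin m) (Fin m ⊕ Fin m) F) *ᵥ x)
      ((g : Matrix (Fin m ⊕ Fin m) (Fin m ⊕ Fin m) F) *ᵥ y) = sympForm m F x y :=
  (mem_symp_iff _).1 g.2 x y

theorem sp_ext {g h : symplecticGroup (Fin m) F}
    (H : ∀ x, (g : Matrix (Fin m ⊕ Fin m) (Fin m ⊕ Fin m) F) *ᵥ x
      = (h : Matrix (Fin m ⊕ Fin m) (Fin m ⊕ Fin m) F) *ᵥ x) : g = h :=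
  Subtype.ext (mat_ext H)

theorem tv_coe_mulVec (v : Fin m ⊕ Fin m → F) (c : F) (x : Fin m ⊕ Fin m → F) :
    ((tv v c : symplecticGroup (Fin m) F) : Matrix (Fin m ⊕ Fin m) (Fin m ⊕ Fin m) F) *ᵥ x
      = x + (c * sympForm m F x v) • v := tv_mulVec v c x

/-- conjugating a transvection -/
theorem sp_conj_tv (g : symplecticGroup (Fin m) F) (v : Fin m ⊕ Fin m → F) (c : F) :
    g * tv v c * g⁻¹ = tv ((g : Matrix (Fin m ⊕ Fin m) (Fin m ⊕ Fin m) F) *ᵥ v) c := by
  apply sp_ext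
  intro x
  rw [sp_coe_mul_mulVec, sp_coe_mul_mulVec, tv_coe_mulVec, tv_coe_mulVec, mulVec_add,
    sp_mulVec_inv, mulVec_smul]
  congr 3
  rw [← sp_form g, sp_mulVec_inv]

theorem tv_eq_iff_of_charTwo [CharP F 2] {v v' : Fin m ⊕ Fin m → F} (hv : v ≠ 0) {c : F}
    (hc : c ≠ 0) : tv v' c = tv v c ↔ v' = v := by
  constructor
  · intro h
    have h1 : ∀ x, sympForm m F x v' • v' = sympForm m F x v • v := by
      intro x
      have := congrArg (fun t : symplecticGroup (Fin m) F =>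
        (t : Matrix (Fin m ⊕ Fin m) (Fin m ⊕ Fin m) F) *ᵥ x) h
      simp only [tv_coe_mulVec, mul_smul] at this
      exact smul_right_injective _ hc (add_left_cancel this)
    obtain ⟨z, _, hz⟩ := nondeg_top v trivial hv
    have hz' : sympForm m F z v ≠ 0 := by
      rw [form_swap]
      exact neg_ne_zero.2 hz
    obtain ⟨l, hl⟩ : ∃ l : F, v = l • v' :=
      ⟨(sympForm m F z v)⁻¹ * sympForm m F z v', by
        rw [mul_smul, h1 z, smul_smul, inv_mul_cancel₀ hz', one_smul]⟩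
    have h2 := h1 z
    rw [hl, form_smul_right, smul_smul] at h2
    have hv' : v' ≠ 0 := by
      rintro rfl
      apply hv
      rw [hl, smul_zero]
    have h3 : sympForm m F z v' = l * sympForm m F z v' * l := smul_left_injective F hv' h2
    have h4 : sympForm m F z v' ≠ 0 := by
      intro h0
      apply hz'
      rw [hl, form_smul_right, h0, mul_zero]
    have h5 : l * l = 1 := by
      apply mul_right_cancel₀ h4
      linear_combination (-1 : F) * h3
    have h6 : (l + 1) * (l + 1) = 0 := by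
      have : (2 : F) = 0 := CharTwo.two_eq_zero
      linear_combination h5 + (l + 1) * this
    have h7 : l = 1 := by
      have := mul_self_eq_zero.1 h6
      have h8 : l = -1 := eq_neg_of_add_eq_zero_left this
      rw [h8, CharTwo.neg_eq]
    rw [hl, h7, one_smul]
  · rintro rfl
    rfl

theorem mem_centralizer_tv_iff [CharP F 2] {v : Fin m ⊕ Fin m → F} (hv : v ≠ 0) {c : F}
    (hc : c ≠ 0) (g : symplecticGroup (Fin m) F) :
    g ∈ Subgroup.centralizer ({tv v c} : Set (symplecticGroup (Fin m) F))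
      ↔ (g : Matrix (Fin m ⊕ Fin m) (Fin m ⊕ Fin m) F) *ᵥ v = v := by
  rw [Subgroup.mem_centralizer_singleton_iff, ← tv_eq_iff_of_charTwo hv hc, ← sp_conj_tv,
    mul_inv_eq_iff_eq_mul]

end sp

end Cfsg.Agent.Lib.Helper18
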