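import Mathlib
import Cfsg.Agent.Lib.Helper18.SpTv
import Cfsg.Agent.S0765
import Cfsg.Prelude.Def_SporadicB

set_option linter.unusedSimpArgs false
set_option linter.unusedSectionVars false

/-! more on symplectic transvections -/

namespace Cfsg.Agent.Lib.Helper18

open Matrix Cfsg Cfsg.Agent.H5Symp

section sp

variable {F : Type*} [Field F] {m : ℕ}

theorem rank_tv_sub_one {v : Fin m ⊕ Fin m → F} (hv : v ≠ 0) {c : F} (hc : c ≠ 0) :
    (((tv v c : symplecticGroup (Fin m) F) : Matrix (Fin m ⊕ Fin m) (Fin m ⊕ Fin m) F) - 1).rank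
      = 1 := by
  unfold Matrix.rank
  have : LinearMap.range (((tv v c : symplecticGroup (Fin m) F) :
      Matrix (Fin m ⊕ Fin m) (Fin m ⊕ Fin m) F) - 1).mulVecLin = Submodule.span F {v} := by
    apply le_antisymm
    · rintro _ ⟨x, rfl⟩
      rw [Matrix.mulVecLin_apply, Matrix.sub_mulVec, tv_coe_mulVec, Matrix.one_mulVec,
        add_sub_cancel_left]
      exact Submodule.smul_mem _ _ (Submodule.mem_span_singleton_self v)
    · rw [Submodule.span_singleton_le_iff_mem]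
      obtain ⟨z, _, hz⟩ := nondeg_top v trivial hv
      have hz' : sympForm m F z v ≠ 0 := by
        rw [form_swap]
        exact neg_ne_zero.2 hz
      refine ⟨(c * sympForm m F z v)⁻¹ • z, ?_⟩
      rw [Matrix.mulVecLin_apply, Matrix.sub_mulVec, tv_coe_mulVec, Matrix.one_mulVec,
        add_sub_cancel_left, form_smul_left, mul_left_comm, inv_mul_cancel₀ (mul_ne_zero hc hz'),
        one_smul]
  rw [this, finrank_span_singleton hv]

theorem tv_zero_right (v : Fin m ⊕ Fin m → F) : tv v (0 : F) = 1 := by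
  apply sp_ext
  intro x
  rw [tv_coe_mulVec]
  simp

theorem tv_zero_left (c : F) : tv (0 : Fin m ⊕ Fin m → F) c = 1 := by
  apply sp_ext
  intro x
  rw [tv_coe_mulVec]
  simp

theorem tv_mul_tv (v : Fin m ⊕ Fin m → F) (c d : F) : tv v c * tv v d = tv v (c + d) :=
  Subtype.ext (tv_mul v c d)

theorem tv_inv (v : Fin m ⊕ Fin m → F) (c : F) : (tv v c)⁻¹ = tv v (-c) := by
  rw [inv_eq_iff_mul_eq_one, tv_mul_tv, add_neg_cancel, tv_zero_right]

theorem sp_mulVec_ne_zero (g : symplecticGroup (Fin m) F) {v : Fin m ⊕ Fin m → F} (hv : v ≠ 0) :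
    (g : Matrix (Fin m ⊕ Fin m) (Fin m ⊕ Fin m) F) *ᵥ v ≠ 0 := by
  intro h0
  apply hv
  rw [← sp_inv_mulVec g v, h0, Matrix.mulVec_zero]

theorem sp_exists_mulVec_eq {v w : Fin m ⊕ Fin m → F} (hv : v ≠ 0) (hw : w ≠ 0) :
    ∃ g : symplecticGroup (Fin m) F,
      (g : Matrix (Fin m ⊕ Fin m) (Fin m ⊕ Fin m) F) *ᵥ v = w := by
  obtain ⟨t, _, ht⟩ := step1 (W := ⊤) nondeg_top (u := v) (w := w) trivial trivial hv hw
  exact ⟨t, ht⟩

end sp

section two

variable {n : ℕ}

theorem sp2_rank_one_iff (g : symplecticGroup (Fin n) (ZMod 2)) :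
    ((g : Matrix (Fin n ⊕ Fin n) (Fin n ⊕ Fin n) (ZMod 2)) - 1).rank = 1
      ↔ ∃ v : Fin n ⊕ Fin n → ZMod 2, v ≠ 0 ∧ g = tv v 1 := by
  constructor
  · intro h
    obtain ⟨v, c, hv, hc, rfl⟩ := sp_rank_one_eq_tv g h
    have : ∀ c : ZMod 2, c ≠ 0 → c = 1 := by decide
    have := this c hc
    exact ⟨v, hv, by rw [this]⟩
  · rintro ⟨v, hv, rfl⟩
    exact rank_tv_sub_one hv one_ne_zero

theorem sp2_tv_sq (v : Fin n ⊕ Fin n → ZMod 2) : tv v (1 : ZMod 2) * tv v 1 = 1 := by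
  rw [tv_mul_tv, show (1 : ZMod 2) + 1 = 0 by decide, tv_zero_right]

theorem sp2_tv_inv (v : Fin n ⊕ Fin n → ZMod 2) : (tv v (1 : ZMod 2))⁻¹ = tv v 1 :=
  inv_eq_of_mul_eq_one_left (sp2_tv_sq v)

theorem sp2_three (hn : 1 ≤ n) : Cfsg.IsThreeTranspositionClass
    {g : symplecticGroup (Fin n) (ZMod 2) |
      ((g : Matrix (Fin n ⊕ Fin n) (Fin n ⊕ Fin n) (ZMod 2)) - 1).rank = 1} := by
  refine ⟨⟨?_, ?_⟩, ?_, ?_⟩
  · intro d hd
    have hd' := hd
    obtain ⟨v, hv, rfl⟩ := (sp2_rank_one_iff d).1 hd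
    apply orderOf_eq_prime
    · rw [pow_two, sp2_tv_sq]
    · intro h1
      rw [Set.mem_ofPred_eq, h1] at hd'
      simp at hd'
  · intro d hd e he
    obtain ⟨u, hu, rfl⟩ := (sp2_rank_one_iff d).1 hd
    obtain ⟨v, hv, rfl⟩ := (sp2_rank_one_iff e).1 he
    have hconj : ∀ a b : Fin n ⊕ Fin n → ZMod 2, tv a (1 : ZMod 2) * tv b 1 * tv a 1
        = tv (b + sympForm n (ZMod 2) b a • a) 1 := by
      intro a b
      have := sp_conj_tv (tv a (1 : ZMod 2)) b 1
      rw [sp2_tv_inv, tv_coe_mulVec, one_mul] at this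
      exact this
    have hcases : sympForm n (ZMod 2) v u = 0 ∨ sympForm n (ZMod 2) v u = 1 := by
      generalize sympForm n (ZMod 2) v u = x
      revert x
      decide
    rcases hcases with h | h
    · left
      have h1 := hconj u v
      rw [h, zero_smul, add_zero] at h1
      rw [pow_two]
      calc tv u (1 : ZMod 2) * tv v 1 * (tv u 1 * tv v 1)
          = (tv u 1 * tv v 1 * tv u 1) * tv v 1 := by group
        _ = 1 := by rw [h1, sp2_tv_sq]
    · right
      have h1 := hconj u v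
      have h2 := hconj v u
      have h' : sympForm n (ZMod 2) u v = 1 := by
        rw [form_swap, h]
        decide
      rw [h, one_smul] at h1
      rw [h', one_smul, add_comm] at h2
      calc (tv u (1 : ZMod 2) * tv v 1) ^ 3
          = (tv u 1 * tv v 1 * tv u 1) * (tv v 1 * tv u 1 * tv v 1) := by
            simp only [pow_succ, pow_zero, one_mul, mul_assoc]
        _ = 1 := by rw [h1, h2, sp2_tv_sq]
  · have he : (Pi.single (Sum.inl ⟨0, hn⟩) 1 : Fin n ⊕ Fin n → ZMod 2) ≠ 0 := by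
      intro h
      have := congrFun h (Sum.inl ⟨0, hn⟩)
      simp at this
    refine ⟨tv (Pi.single (Sum.inl ⟨0, hn⟩) 1) 1, (sp2_rank_one_iff _).2 ⟨_, he, rfl⟩, ?_⟩
    ext g
    show _ ↔ IsConj _ g
    rw [Set.mem_ofPred_eq, sp2_rank_one_iff, isConj_iff]
    constructor
    · rintro ⟨v, hv, rfl⟩
      obtain ⟨h, hh⟩ := sp_exists_mulVec_eq he hv
      exact ⟨h, by rw [sp_conj_tv, hh]⟩
    · rintro ⟨h, rfl⟩
      exact ⟨_, sp_mulVec_ne_zero h he, sp_conj_tv h _ _⟩
  · rw [eq_top_iff, ← Cfsg.Agent.S0765.result, Subgroup.closure_le]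
    rintro A ⟨w, c, hA⟩
    have hA' : A = tv w c := Subtype.ext hA
    by_cases hw : w = 0
    · rw [hA', hw, tv_zero_left]
      exact Subgroup.one_mem _
    · by_cases hc : c = 0
      · rw [hA', hc, tv_zero_right]
        exact Subgroup.one_mem _
      · apply Subgroup.subset_closure
        rw [hA']
        exact rank_tv_sub_one hw hc

end two

end Cfsg.Agent.Lib.Helper18
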