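import Mathlib

/-! `GL_5(2)` has no element of order 9. -/

set_option autoImplicit false

namespace Cfsg.Agent.Lib.Helper18

open Matrix

theorem nine_dvd_card_of_perm {α : Type*} [Fintype α] [DecidableEq α] (σ : Equiv.Perm α)
    (h9 : σ ^ 9 = 1) (h3 : ∀ x, (σ ^ 3) x ≠ x) : 9 ∣ Fintype.card α := by
  have hsupp : σ.support = Finset.univ := by
    ext x
    simp only [Equiv.Perm.mem_support, Finset.mem_univ, iff_true]
    intro hx
    exact h3 x (Equiv.Perm.pow_apply_eq_self_of_apply_eq_self hx 3)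
  rw [← Finset.card_univ, ← hsupp, ← Equiv.Perm.sum_cycleType]
  apply Multiset.dvd_sum
  intro n hn
  have hd : n ∣ 9 := (Equiv.Perm.dvd_of_mem_cycleType hn).trans (orderOf_dvd_of_pow_eq_one h9)
  have h2 := Equiv.Perm.two_le_of_mem_cycleType hn
  obtain ⟨c, τ, hστ, hdisj, hc, hcn⟩ := Equiv.Perm.mem_cycleType_iff.1 hn
  have hle : n ≤ 9 := Nat.le_of_dvd (by norm_num) hd
  by_cases hn3 : n = 3
  · exfalso
    obtain ⟨x, hx, _⟩ := id hc
    have hτ : τ x = x := (hdisj x).resolve_left hx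
    apply h3 x
    rw [hστ, hdisj.commute.mul_pow, Equiv.Perm.mul_apply,
      Equiv.Perm.pow_apply_eq_self_of_apply_eq_self hτ 3]
    have h5 : orderOf c = 3 := by rw [hc.orderOf, hcn, hn3]
    have h6 : c ^ 3 = 1 := by rw [← h5]; exact pow_orderOf_eq_one c
    rw [h6]; rfl
  · interval_cases n <;> first | exact dvd_rfl | exact absurd rfl hn3 | (exfalso; revert hd; decide)

/-- the permutation of the vectors induced by an invertible matrix -/
def glPerm {n : ℕ} {R : Type*} [CommRing R] (g : GL (Fin n) R) : Equiv.Perm (Fin n → R) where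
  toFun v := g.1 *ᵥ v
  invFun v := g.2 *ᵥ v
  left_inv v := by
    change g.2 *ᵥ (g.1 *ᵥ v) = v
    rw [Matrix.mulVec_mulVec, g.4, Matrix.one_mulVec]
  right_inv v := by
    change g.1 *ᵥ (g.2 *ᵥ v) = v
    rw [Matrix.mulVec_mulVec, g.3, Matrix.one_mulVec]

theorem glPerm_pow {n : ℕ} {R : Type*} [CommRing R] (g : GL (Fin n) R) (k : ℕ) (v : Fin n → R) :
    (glPerm g ^ k) v = (g.1 ^ k) *ᵥ v := by
  induction k with
  | zero => simp
  | succ k ih =>
    rw [pow_succ', Equiv.Perm.mul_apply, ih, pow_succ', ← Matrix.mulVec_mulVec]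
    rfl

theorem GL52_no_order_nine (g : GL (Fin 5) (ZMod 2)) (h9 : g ^ 9 = 1) : g ^ 3 = 1 := by
  classical
  by_contra h3
  have h9' : g.1 ^ 9 = 1 := by
    have := congrArg Units.val h9
    simpa using this
  obtain ⟨T, hT⟩ : ∃ T : Matrix (Fin 5) (Fin 5) (ZMod 2), T = g.1 ^ 3 := ⟨_, rfl⟩
  have hT1 : T ≠ 1 := by
    intro h
    apply h3
    apply Units.ext
    rw [Units.val_pow_eq_pow_val, ← hT, h]; rfl
  have hcomm : T * g.1 = g.1 * T := by rw [hT, ← pow_succ, ← pow_succ']
  have hp : ∀ v : Fin 5 → ZMod 2, (T *ᵥ (glPerm g v) ≠ glPerm g v) ↔ (T *ᵥ v ≠ v) := by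
    intro v
    have e : T *ᵥ (glPerm g v) = glPerm g (T *ᵥ v) := by
      change T *ᵥ (g.1 *ᵥ v) = g.1 *ᵥ (T *ᵥ v)
      rw [Matrix.mulVec_mulVec, Matrix.mulVec_mulVec, hcomm]
    rw [e]
    exact not_congr (glPerm g).injective.eq_iff
  have hdvd := nine_dvd_card_of_perm
    ((glPerm g).subtypePerm (p := fun v => T *ᵥ v ≠ v) hp) (by
      ext x
      rw [Equiv.Perm.subtypePerm_pow]
      simp only [Equiv.Perm.subtypePerm_apply, Equiv.Perm.coe_one, id_eq]
      rw [glPerm_pow, h9', Matrix.one_mulVec]) (by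
      intro x hx
      rw [Equiv.Perm.subtypePerm_pow] at hx
      have := congrArg Subtype.val hx
      simp only [Equiv.Perm.subtypePerm_apply] at this
      rw [glPerm_pow, ← hT] at this
      exact x.2 this)
  obtain ⟨W, hW⟩ : ∃ W : AddSubgroup (Fin 5 → ZMod 2), ∀ v, v ∈ W ↔ T *ᵥ v = v :=
    ⟨{ carrier := {v | T *ᵥ v = v}
       add_mem' := fun {a b} ha hb => by
        change T *ᵥ (a + b) = a + b
        rw [Matrix.mulVec_add, ha, hb]
       zero_mem' := Matrix.mulVec_zero T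
       neg_mem' := fun {a} ha => by
        change T *ᵥ (-a) = -a
        rw [Matrix.mulVec_neg, ha] }, fun v => Iff.rfl⟩
  have hWd : Nat.card W ∣ 2 ^ 5 := by
    have := AddSubgroup.card_addSubgroup_dvd_card W
    rw [Nat.card_eq_fintype_card (α := Fin 5 → ZMod 2)] at this
    simpa using this
  have hcard : Fintype.card {v : Fin 5 → ZMod 2 // T *ᵥ v ≠ v} = 32 - Nat.card W := by
    rw [Fintype.card_subtype_compl]
    have e1 : Fintype.card (Fin 5 → ZMod 2) = 32 := by simp
    have e2 : Fintype.card {v : Fin 5 → ZMod 2 // T *ᵥ v = v} = Nat.card W := by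
      rw [← Nat.card_eq_fintype_card]
      exact Nat.card_congr (Equiv.subtypeEquivRight (fun v => (hW v).symm))
    rw [e1, e2]
  rw [hcard] at hdvd
  obtain ⟨k, hk, hkW⟩ := (Nat.dvd_prime_pow Nat.prime_two).1 hWd
  rw [hkW] at hdvd
  have hk5 : k ≠ 5 := by
    intro h5
    apply hT1
    have htop : W = ⊤ := by
      apply AddSubgroup.eq_top_of_card_eq
      rw [hkW, h5, Nat.card_eq_fintype_card]
      simp
    ext i j
    have h1 : T *ᵥ (Pi.single j 1) = Pi.single j 1 := (hW _).1 (by rw [htop]; trivial)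
    have h2 := congrFun h1 i
    rw [Matrix.mulVec_single_one] at h2
    rw [Matrix.one_apply]
    change T i j = _ at h2
    rw [h2, Pi.single_apply]
  interval_cases k <;> first | exact hk5 rfl | (revert hdvd; decide)

end Cfsg.Agent.Lib.Helper18
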