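import Mathlib
import Cfsg.Agent.S0242

/-! `PSL_2(8)` has an element of order 9. -/

set_option autoImplicit false

namespace Cfsg.Agent.Lib.Helper18

open Matrix

theorem sl2_sum_zero {F : Type*} [Field F] (h2 : (2 : F) = 0)
    (x : SpecialLinearGroup (Fin 2) F) (h3 : x ^ 3 = 1) (h1 : x ≠ 1) :
    (1 : Matrix (Fin 2) (Fin 2) F) + x.1 + x.1 * x.1 = 0 := by
  obtain ⟨M, hM⟩ : ∃ M : Matrix (Fin 2) (Fin 2) F, M = x.1 := ⟨_, rfl⟩
  rw [← hM]
  have hdet : M 0 0 * M 1 1 - M 0 1 * M 1 0 = 1 := by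
    rw [← Matrix.det_fin_two, hM]; exact x.2
  have hM3 : M * (M * M) = 1 := by
    have := congrArg Subtype.val h3
    rw [hM]
    simpa [pow_succ, mul_assoc] using this
  have hM1 : M ≠ 1 := fun h => h1 (Subtype.ext (by rw [← hM, h]; rfl))
  obtain ⟨t, ht⟩ : ∃ t : F, t = M 0 0 + M 1 1 := ⟨_, rfl⟩
  have CH : M * M = t • M - 1 := by
    ext i j
    fin_cases i <;> fin_cases j <;>
      simp [Matrix.mul_apply, Fin.sum_univ_two, ht]
    · linear_combination (-1) * hdet
    · ring
    · ring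
    · linear_combination (-1) * hdet
  have h4 : (t ^ 2 - 1) • M - t • (1 : Matrix (Fin 2) (Fin 2) F) = 1 := by
    have h4' : M * (M * M) = (t ^ 2 - 1) • M - t • (1 : Matrix (Fin 2) (Fin 2) F) := by
      rw [CH, mul_sub, mul_one, Matrix.mul_smul, CH]
      ext i j
      simp only [Matrix.sub_apply, Matrix.smul_apply, smul_eq_mul]
      ring
    rw [← h4', hM3]
  have e00 := congrFun (congrFun h4 0) 0
  have e01 := congrFun (congrFun h4 0) 1
  have e10 := congrFun (congrFun h4 1) 0
  have e11 := congrFun (congrFun h4 1) 1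
  simp at e00 e01 e10 e11
  by_cases ht1 : t = 1
  · rw [CH, ht1, one_smul]
    ext i j
    simp only [Matrix.add_apply, Matrix.sub_apply, Matrix.zero_apply]
    linear_combination (M i j) * h2
  · exfalso
    have hne : t ^ 2 - 1 ≠ 0 := by
      intro h
      apply ht1
      have : (t - 1) ^ 2 = 0 := by linear_combination h - (t - 1) * h2
      exact sub_eq_zero.1 (pow_eq_zero_iff (two_ne_zero) |>.1 this)
    have ht0 : t = 0 := by
      have : (t ^ 2 - 1) * t = 0 := by
        rw [ht]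
        rw [ht] at e00 e11
        linear_combination e00 + e11 + (1 + M 0 0 + M 1 1) * h2
      exact (mul_eq_zero.1 this).resolve_left hne
    apply hM1
    rw [ht0] at e00 e01 e10 e11
    ext i j
    fin_cases i <;> fin_cases j <;> simp
    · linear_combination (-1) * e00 - h2
    · rcases e01 with h | h
      · exact absurd h (by norm_num)
      · exact h
    · rcases e10 with h | h
      · exact absurd h (by norm_num)
      · exact h
    · linear_combination (-1) * e11 - h2

theorem sl2_eq_of_commute {F : Type*} [Field F] (h2 : (2 : F) = 0)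
    (a b : SpecialLinearGroup (Fin 2) F) (hab : a * b = b * a) (ha3 : a ^ 3 = 1) (hb3 : b ^ 3 = 1)
    (ha : a ≠ 1) (hb : b ≠ 1) (hab1 : a * b ≠ 1) : b = a := by
  have hA := sl2_sum_zero h2 a ha3 ha
  have hB := sl2_sum_zero h2 b hb3 hb
  have hAB := sl2_sum_zero h2 (a * b) (by rw [(show Commute a b from hab).mul_pow, ha3, hb3, one_mul])
    hab1
  obtain ⟨A, hAe⟩ : ∃ M : Matrix (Fin 2) (Fin 2) F, M = a.1 := ⟨_, rfl⟩
  obtain ⟨B, hBe⟩ : ∃ M : Matrix (Fin 2) (Fin 2) F, M = b.1 := ⟨_, rfl⟩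
  have hmul : (a * b).1 = A * B := by rw [hAe, hBe]; rfl
  have hc : A * B = B * A := by
    have := congrArg Subtype.val hab
    rw [hAe, hBe]; exact this
  rw [hmul] at hAB
  rw [← hAe] at hA
  rw [← hBe] at hB
  have hdbl : ∀ X : Matrix (Fin 2) (Fin 2) F, X + X = 0 := fun X => by
    ext i j
    simp only [Matrix.add_apply, Matrix.zero_apply]
    linear_combination (X i j) * h2
  have e : (A * B) * (A * B) = (A * A) * (B * B) := by
    rw [mul_assoc A B (A * B), ← mul_assoc B A B, ← hc, mul_assoc A B B, ← mul_assoc A A]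
  have hA' : A * A = -(1 + A) := by rw [eq_neg_iff_add_eq_zero, add_comm]; exact hA
  have hB' : B * B = -(1 + B) := by rw [eq_neg_iff_add_eq_zero, add_comm]; exact hB
  rw [e, hA', hB', neg_mul_neg, add_mul, mul_add, mul_add, one_mul, mul_one, one_mul] at hAB
  have h5 : A + B = 0 := by
    have : 1 + A * B + (1 + B + (A + A * B)) = (1 + 1) + (A * B + A * B) + (A + B) := by abel
    rw [this, hdbl, hdbl, zero_add, zero_add] at hAB
    exact hAB
  apply Subtype.ext
  rw [← hAe, ← hBe]
  have h6 := hdbl A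
  have : B = A := by
    have h7 : A + B = A + A := by rw [h5, h6]
    exact add_left_cancel h7
  exact this

theorem sl2_eight_exists_order_nine {F : Type*} [Field F] [Fintype F] (hF : Fintype.card F = 8) :
    ∃ x : SpecialLinearGroup (Fin 2) F, x ^ 9 = 1 ∧ x ^ 3 ≠ 1 := by
  classical
  have h2 : (2 : F) = 0 := by
    have h := Nat.cast_card_eq_zero F
    rw [hF] at h
    have h8 : (2 : F) ^ 3 = 0 := by
      have : ((8 : ℕ) : F) = (2 : F) ^ 3 := by norm_num
      rw [← this]; exact h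
    exact pow_eq_zero_iff (by norm_num) |>.1 h8
  have hcard : Nat.card (SpecialLinearGroup (Fin 2) F) = 504 := by
    have := Cfsg.Agent.S0242.result hF 2 (by norm_num)
    rw [Fin.prod_univ_two] at this
    have e0 : ((0 : Fin 2) : ℕ) = 0 := rfl
    have e1 : ((1 : Fin 2) : ℕ) = 1 := rfl
    rw [e0, e1] at this
    omega
  have : Fact (Nat.Prime 3) := ⟨by norm_num⟩
  obtain ⟨P, hP⟩ := Sylow.exists_subgroup_card_pow_prime (G := SpecialLinearGroup (Fin 2) F) 3
    (n := 2) (by rw [hcard]; norm_num)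
  by_contra hcon
  push Not at hcon
  have h9 : ∀ x ∈ P, x ^ 9 = 1 := by
    intro x hx
    have := pow_card_eq_one' (x := (⟨x, hx⟩ : P))
    rw [hP] at this
    exact congrArg Subtype.val this
  have h3 : ∀ x ∈ P, x ^ 3 = 1 := fun x hx => hcon x (h9 x hx)
  have hcomm : ∀ a b : P, a * b = b * a :=
    (IsPGroup.isMulCommutative_of_card_eq_prime_sq hP).is_comm.comm
  have : Nontrivial P := Finite.one_lt_card_iff_nontrivial.1 (by rw [hP]; norm_num)
  obtain ⟨⟨a, haP⟩, ha⟩ := exists_ne (1 : P)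
  have ha1 : a ≠ 1 := fun h => ha (Subtype.ext h)
  have hsub : (P : Set (SpecialLinearGroup (Fin 2) F)) ⊆
      (({1, a⁻¹, a} : Finset (SpecialLinearGroup (Fin 2) F)) : Set _) := by
    intro b hb
    simp only [Finset.coe_insert, Finset.coe_singleton, Set.mem_insert_iff, Set.mem_singleton_iff]
    by_cases hb1 : b = 1
    · exact Or.inl hb1
    by_cases hab1 : a * b = 1
    · exact Or.inr (Or.inl (eq_inv_of_mul_eq_one_right hab1))
    · exact Or.inr (Or.inr (sl2_eq_of_commute h2 a b
        (congrArg Subtype.val (hcomm ⟨a, haP⟩ ⟨b, hb⟩)) (h3 a haP) (h3 b hb) ha1 hb1 hab1))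
  have h5 := Set.ncard_le_ncard hsub (Finset.finite_toSet _)
  rw [Set.ncard_coe_finset] at h5
  have h6 : (P : Set (SpecialLinearGroup (Fin 2) F)).ncard = 9 := by
    rw [← Nat.card_coe_set_eq]; exact hP
  have h7 := Finset.card_le_three (a := (1 : SpecialLinearGroup (Fin 2) F)) (b := a⁻¹) (c := a)
  omega

theorem psl2_eight_exists_order_nine {F : Type*} [Field F] [Fintype F]
    (hF : Fintype.card F = 8) :
    ∃ y : ProjectiveSpecialLinearGroup (Fin 2) F, y ^ 9 = 1 ∧ y ^ 3 ≠ 1 := by
  have h2 : (2 : F) = 0 := by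
    have h := Nat.cast_card_eq_zero F
    rw [hF] at h
    have h8 : (2 : F) ^ 3 = 0 := by
      have : ((8 : ℕ) : F) = (2 : F) ^ 3 := by norm_num
      rw [← this]; exact h
    exact pow_eq_zero_iff (by norm_num) |>.1 h8
  obtain ⟨x, hx9, hx3⟩ := sl2_eight_exists_order_nine hF
  refine ⟨QuotientGroup.mk x, ?_, ?_⟩
  · rw [← QuotientGroup.mk_pow, hx9]; rfl
  · rw [← QuotientGroup.mk_pow]
    intro h
    have hc := (QuotientGroup.eq_one_iff _).1 h
    obtain ⟨r, hr, hrx⟩ := Matrix.SpecialLinearGroup.mem_center_iff.1 hc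
    apply hx3
    have hr1 : r = 1 := by
      rw [Fintype.card_fin] at hr
      have : (r - 1) ^ 2 = 0 := by linear_combination hr - (r - 1) * h2
      exact sub_eq_zero.1 (pow_eq_zero_iff (two_ne_zero) |>.1 this)
    apply Subtype.ext
    rw [← hrx, hr1]
    simp

end Cfsg.Agent.Lib.Helper18
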