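import Mathlib
import Cfsg.Prelude.Def_LieClassical

set_option linter.unusedSimpArgs false
set_option linter.unusedSectionVars false

namespace Cfsg.Agent.Lib.Helper18

open Matrix

section reindex

variable {ι κ : Type} [Fintype ι] [DecidableEq ι] [Fintype κ] [DecidableEq κ]
variable {F : Type*} [Field F]

/-- reindexing of general linear groups -/
noncomputable def glReindex (e : ι ≃ κ) : GL ι F ≃* GL κ F :=
  Units.mapEquiv (Matrix.reindexAlgEquiv F F e).toMulEquiv

theorem glReindex_coe (e : ι ≃ κ) (g : GL ι F) :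
    (glReindex e g : Matrix κ κ F) = (g : Matrix ι ι F).submatrix e.symm e.symm := rfl

theorem glReindex_symm_coe (e : ι ≃ κ) (g : GL κ F) :
    ((glReindex e).symm g : Matrix ι ι F) = (g : Matrix κ κ F).submatrix e e := rfl

theorem mem_isometryGroup_iff (Q : (ι → F) → F) (g : GL ι F) :
    g ∈ Cfsg.isometryGroup F Q ↔ ∀ v, Q ((g : Matrix ι ι F) *ᵥ v) = Q v :=
  ⟨fun h v => h v v, fun h u _ => h u⟩

/-- the isometry group does not depend on the indexing -/
noncomputable def isoReindex (e : ι ≃ κ) (Q : (κ → F) → F) (Q' : (ι → F) → F)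
    (hQ : ∀ v, Q' v = Q (v ∘ e.symm)) :
    Cfsg.isometryGroup F Q' ≃* Cfsg.isometryGroup F Q :=
  ((glReindex e).subgroupMap (Cfsg.isometryGroup F Q')).trans
    (MulEquiv.subgroupCongr (by
      rw [Subgroup.map_equiv_eq_comap_symm]
      ext g
      rw [Subgroup.mem_comap, mem_isometryGroup_iff, mem_isometryGroup_iff]
      show (∀ v, Q' (((glReindex e).symm g : Matrix ι ι F) *ᵥ v) = Q' v) ↔ _
      rw [glReindex_symm_coe]
      constructor
      · intro h w
        have := h (w ∘ e)
        rw [hQ, hQ, Matrix.submatrix_mulVec_equiv] at this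
        simpa [Function.comp_assoc] using this
      · intro h v
        rw [hQ, hQ, Matrix.submatrix_mulVec_equiv]
        simpa [Function.comp_assoc] using h (v ∘ e.symm)))

end reindex

end Cfsg.Agent.Lib.Helper18
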