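import Mathlib
import Cfsg.Agent.Lib.Helper18.Quad1

set_option linter.unusedSimpArgs false
set_option linter.unusedSectionVars false

namespace Cfsg.Agent.Lib.Helper18

section key2

variable {F : Type*} [Field F] [Fintype F]

theorem card_mul_add {X : Type*} [Finite X] (ν : X → F) (t : F) :
    Nat.card {p : F × F × X // p.1 * p.2.1 + ν p.2.2 = t}
      = (Fintype.card F - 1) * Nat.card X + Fintype.card F * Nat.card {z : X // ν z = t} := by
  have hq : 0 < Fintype.card F := Fintype.card_pos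
  have h := card_dot_add (F := F) (ι := Unit) ν t
  have e : Nat.card {p : (Unit → F) × (Unit → F) × X // ∑ i, p.1 i * p.2.1 i + ν p.2.2 = t}
      = Nat.card {p : F × F × X // p.1 * p.2.1 + ν p.2.2 = t} := by
    apply Nat.card_congr
    refine ((Equiv.funUnique Unit F).prodCongr
      ((Equiv.funUnique Unit F).prodCongr (Equiv.refl X))).subtypeEquiv (fun p => ?_)
    simp
  rw [e] at h
  apply Nat.eq_of_mul_eq_mul_left hq
  rw [h]
  simp only [Fintype.card_unit, pow_one]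
  ring

end key2

section quad

variable {F : Type*} [Field F] [Fintype F] {V : Type*} [AddCommGroup V] [Module F V] [Finite V]
variable (Q : QuadraticForm F V)

theorem qB_add (x y : V) : Q (x + y) = Q x + Q y + Q.polarBilin x y := by
  rw [QuadraticMap.polarBilin_apply_apply, QuadraticMap.polar]
  ring

theorem qB_smul (a : F) (x : V) : Q (a • x) = a * a * Q x := by
  rw [QuadraticMap.map_smul, smul_eq_mul]

theorem qB_comm (x y : V) : Q.polarBilin x y = Q.polarBilin y x := by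
  rw [QuadraticMap.polarBilin_apply_apply, QuadraticMap.polarBilin_apply_apply,
    QuadraticMap.polar_comm]

theorem qB_self {x : V} (hx : Q x = 0) : Q.polarBilin x x = 0 := by
  rw [QuadraticMap.polarBilin_apply_apply, QuadraticMap.polar_self, hx, smul_zero]

/-- the orthogonal complement of a pair inside `U` -/
def oPerp (U : Submodule F V) (x y : V) : Submodule F V :=
  U ⊓ (LinearMap.ker (Q.polarBilin x) ⊓ LinearMap.ker (Q.polarBilin y))

variable {Q}

theorem o_proj_mem {U : Submodule F V} {x y : V} (hx : x ∈ U) (hy : y ∈ U) (hQx : Q x = 0)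
    (hQy : Q y = 0) (hxy : Q.polarBilin x y = 1) {u : V} (hu : u ∈ U) :
    u - (Q.polarBilin y u) • x - (Q.polarBilin x u) • y ∈ oPerp Q U x y := by
  have hyx : Q.polarBilin y x = 1 := by rw [qB_comm, hxy]
  refine ⟨U.sub_mem (U.sub_mem hu (U.smul_mem _ hx)) (U.smul_mem _ hy), ?_, ?_⟩
  · show Q.polarBilin x _ = 0
    rw [map_sub, map_sub, map_smul, map_smul, qB_self Q hQx, hxy]
    simp
  · show Q.polarBilin y _ = 0
    rw [map_sub, map_sub, map_smul, map_smul, qB_self Q hQy, hyx]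
    simp

theorem o_form_split {U : Submodule F V} {x y : V} (hQx : Q x = 0)
    (hQy : Q y = 0) (hxy : Q.polarBilin x y = 1) (a b : F) {w : V} (hw : w ∈ oPerp Q U x y) :
    Q (a • x + b • y + w) = a * b + Q w := by
  have hw1 : Q.polarBilin x w = 0 := hw.2.1
  have hw2 : Q.polarBilin y w = 0 := hw.2.2
  rw [qB_add, qB_add, qB_smul, qB_smul, hQx, hQy, map_add, map_smul, map_smul, map_smul,
    LinearMap.add_apply, LinearMap.smul_apply, LinearMap.smul_apply, LinearMap.smul_apply,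
    hw1, hw2, hxy]
  simp [mul_comm]

/-- `U ≃ F × F × U'` -/
def oSplit (U : Submodule F V) (x y : V) (hx : x ∈ U) (hy : y ∈ U) (hQx : Q x = 0)
    (hQy : Q y = 0) (hxy : Q.polarBilin x y = 1) :
    U ≃ F × F × oPerp Q U x y where
  toFun u := (Q.polarBilin y u.1, Q.polarBilin x u.1,
    ⟨u.1 - (Q.polarBilin y u.1) • x - (Q.polarBilin x u.1) • y, o_proj_mem hx hy hQx hQy hxy u.2⟩)
  invFun p := ⟨p.1 • x + p.2.1 • y + p.2.2.1,
    U.add_mem (U.add_mem (U.smul_mem _ hx) (U.smul_mem _ hy)) p.2.2.2.1⟩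
  left_inv u := by
    apply Subtype.ext
    simp only
    abel
  right_inv p := by
    have hyx : Q.polarBilin y x = 1 := by rw [qB_comm, hxy]
    have hw1 : Q.polarBilin x p.2.2.1 = 0 := p.2.2.2.2.1
    have hw2 : Q.polarBilin y p.2.2.1 = 0 := p.2.2.2.2.2
    have h1 : Q.polarBilin y (p.1 • x + p.2.1 • y + p.2.2.1) = p.1 := by
      rw [map_add, map_add, map_smul, map_smul, qB_self Q hQy, hyx, hw2]
      simp
    have h2 : Q.polarBilin x (p.1 • x + p.2.1 • y + p.2.2.1) = p.2.1 := by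
      rw [map_add, map_add, map_smul, map_smul, qB_self Q hQx, hxy, hw1]
      simp
    refine Prod.ext h1 (Prod.ext h2 (Subtype.ext ?_))
    simp only [h1, h2]
    abel

/-- the recursion satisfied by the number of solutions of `Q = t` -/
def oSeq (q c0 n0 : ℕ) : ℕ → ℕ
  | 0 => n0
  | j + 1 => (q - 1) * (q ^ (2 * j) * c0) + q * oSeq q c0 n0 j

variable (Q) in
/-- `U` is nondegenerate and has the numerical invariants of `j` hyperbolic planes plus a base -/
def OGood (c0 : ℕ) (N0 : F → ℕ) (U : Submodule F V) (j : ℕ) : Prop :=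
  Nat.card U = Fintype.card F ^ (2 * j) * c0 ∧
  (∀ t, Nat.card {u : U // Q u.1 = t} = oSeq (Fintype.card F) c0 (N0 t) j) ∧
  ∀ x ∈ U, x ≠ 0 → ∃ y ∈ U, Q.polarBilin x y ≠ 0

theorem oGood_perp {c0 : ℕ} {N0 : F → ℕ} {U : Submodule F V} {j : ℕ}
    (hU : OGood Q c0 N0 U (j + 1)) (x y : V) (hx : x ∈ U) (hy : y ∈ U) (hQx : Q x = 0)
    (hQy : Q y = 0) (hxy : Q.polarBilin x y = 1) : OGood Q c0 N0 (oPerp Q U x y) j := by
  have hq : 0 < Fintype.card F := Fintype.card_pos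
  have hc : Nat.card (oPerp Q U x y) = Fintype.card F ^ (2 * j) * c0 := by
    have h1 := Nat.card_congr (oSplit U x y hx hy hQx hQy hxy)
    rw [hU.1, Nat.card_prod, Nat.card_prod, Nat.card_eq_fintype_card (α := F)] at h1
    have h2 : Fintype.card F ^ (2 * (j + 1)) * c0
        = Fintype.card F * (Fintype.card F * (Fintype.card F ^ (2 * j) * c0)) := by ring
    rw [h2] at h1
    exact (Nat.eq_of_mul_eq_mul_left hq (Nat.eq_of_mul_eq_mul_left hq h1)).symm
  refine ⟨hc, ?_, ?_⟩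
  · intro t
    have key := card_mul_add (fun w : oPerp Q U x y => Q w.1) t
    have h3 : Nat.card {p : F × F × oPerp Q U x y // p.1 * p.2.1 + Q p.2.2.1 = t}
        = Nat.card {u : U // Q u.1 = t} := by
      apply Nat.card_congr
      refine ((oSplit U x y hx hy hQx hQy hxy).symm).subtypeEquiv (fun p => ?_)
      show _ ↔ Q (p.1 • x + p.2.1 • y + p.2.2.1) = t
      rw [o_form_split hQx hQy hxy _ _ p.2.2.2]
    rw [h3, hU.2.1 t, hc] at key
    simp only [oSeq] at key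
    exact (Nat.eq_of_mul_eq_mul_left hq (Nat.add_left_cancel key)).symm
  · intro w hw hw0
    obtain ⟨y', hy', hne⟩ := hU.2.2 w hw.1 hw0
    refine ⟨_, o_proj_mem hx hy hQx hQy hxy hy', ?_⟩
    have hw1 : Q.polarBilin w x = 0 := by rw [qB_comm]; exact hw.2.1
    have hw2 : Q.polarBilin w y = 0 := by rw [qB_comm]; exact hw.2.2
    rw [map_sub, map_sub, map_smul, map_smul, hw1, hw2]
    simpa using hne

theorem o_card_second {c0 : ℕ} {N0 : F → ℕ} {U : Submodule F V} {j : ℕ}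
    (hU : OGood Q c0 N0 U (j + 1)) (x : V) (hx : x ∈ U) (hQx : Q x = 0) (hx0 : x ≠ 0) :
    Nat.card {y : U // Q y.1 = 0 ∧ Q.polarBilin x y.1 = 1} = Fintype.card F ^ (2 * j) * c0 := by
  obtain ⟨y0, hy0, hne⟩ := hU.2.2 x hx hx0
  obtain ⟨y1, hy1U, hxy1⟩ : ∃ y1 ∈ U, Q.polarBilin x y1 = 1 :=
    ⟨(Q.polarBilin x y0)⁻¹ • y0, U.smul_mem _ hy0, by
      rw [map_smul, smul_eq_mul, inv_mul_cancel₀ hne]⟩
  obtain ⟨y2, hy2U, hxy2, hQy2⟩ : ∃ y2 ∈ U, Q.polarBilin x y2 = 1 ∧ Q y2 = 0 := by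
    refine ⟨y1 + (-(Q y1)) • x, U.add_mem hy1U (U.smul_mem _ hx), ?_, ?_⟩
    · rw [map_add, map_smul, qB_self Q hQx, hxy1]
      simp
    · rw [qB_add, qB_smul, hQx, map_smul, qB_comm, hxy1]
      simp
  rw [← (oGood_perp hU x y2 hx hy2U hQx hQy2 hxy2).1]
  apply Nat.card_congr
  let e1 : {y : U // Q y.1 = 0 ∧ Q.polarBilin x y.1 = 1}
      ≃ {p : F × F × oPerp Q U x y2 // p.1 * p.2.1 + Q p.2.2.1 = 0 ∧ p.2.1 = 1} :=
    (oSplit U x y2 hx hy2U hQx hQy2 hxy2).subtypeEquiv (fun u => by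
      have h1 : Q u.1 = Q.polarBilin y2 u.1 * Q.polarBilin x u.1
          + Q (u.1 - (Q.polarBilin y2 u.1) • x - (Q.polarBilin x u.1) • y2) := by
        rw [← o_form_split hQx hQy2 hxy2 _ _ (o_proj_mem hx hy2U hQx hQy2 hxy2 u.2)]
        congr 1
        abel
      show _ ↔ (Q.polarBilin y2 u.1 * Q.polarBilin x u.1
          + Q (u.1 - (Q.polarBilin y2 u.1) • x - (Q.polarBilin x u.1) • y2) = 0
            ∧ Q.polarBilin x u.1 = 1)
      rw [← h1])
  refine e1.trans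
    { toFun := fun p => p.1.2.2
      invFun := fun w => ⟨(-(Q w.1), 1, w), by simp⟩
      left_inv := fun p => by
        obtain ⟨⟨a, b, w⟩, h1, h2⟩ := p
        simp only at h1 h2
        subst h2
        apply Subtype.ext
        simp only [Prod.mk.injEq, and_true]
        rw [mul_one] at h1
        exact (eq_neg_of_add_eq_zero_left h1).symm
      right_inv := fun w => rfl }

theorem o_card_pairs {c0 : ℕ} {N0 : F → ℕ} {U : Submodule F V} {j : ℕ}
    (hU : OGood Q c0 N0 U (j + 1)) :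
    Nat.card {p : U × U // Q p.1.1 = 0 ∧ Q p.2.1 = 0 ∧ Q.polarBilin p.1.1 p.2.1 = 1}
      = (oSeq (Fintype.card F) c0 (N0 0) (j + 1) - 1) * (Fintype.card F ^ (2 * j) * c0) := by
  classical
  let e : {p : U × U // Q p.1.1 = 0 ∧ Q p.2.1 = 0 ∧ Q.polarBilin p.1.1 p.2.1 = 1}
      ≃ Σ x : {x : {u : U // Q u.1 = 0} // x ≠ ⟨0, by simp⟩},
        {y : U // Q y.1 = 0 ∧ Q.polarBilin x.1.1.1 y.1 = 1} :=
    { toFun := fun p => ⟨⟨⟨p.1.1, p.2.1⟩, fun h => by
        have h0 : p.1.1.1 = 0 := congrArg (fun z : {u : U // Q u.1 = 0} => z.1.1) h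
        have := p.2.2.2
        rw [h0] at this
        simp at this⟩, ⟨p.1.2, p.2.2.1, p.2.2.2⟩⟩
      invFun := fun p => ⟨(p.1.1.1, p.2.1), p.1.1.2, p.2.2.1, p.2.2.2⟩
      left_inv := fun p => rfl
      right_inv := fun p => rfl }
  have := Fintype.ofFinite {x : {u : U // Q u.1 = 0} // x ≠ ⟨0, by simp⟩}
  rw [Nat.card_congr e, Nat.card_sigma]
  have h1 : ∀ x : {x : {u : U // Q u.1 = 0} // x ≠ ⟨0, by simp⟩},
      Nat.card {y : U // Q y.1 = 0 ∧ Q.polarBilin x.1.1.1 y.1 = 1}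
        = Fintype.card F ^ (2 * j) * c0 := by
    intro x
    exact o_card_second hU x.1.1.1 x.1.1.2 x.1.2
      (fun h => x.2 (Subtype.ext (Subtype.ext h)))
  simp_rw [h1]
  rw [Finset.sum_const, Finset.card_univ, smul_eq_mul, ← Nat.card_eq_fintype_card]
  congr 1
  have := Fintype.ofFinite {u : U // Q u.1 = 0}
  rw [← hU.2.1 0, Nat.card_eq_fintype_card, Nat.card_eq_fintype_card, Fintype.card_subtype_compl]
  simp

variable {κ : Type*} [Finite κ]

/-- the conditions defining a hyperbolic frame with base vectors `z` -/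
def IsOFrame (Q : QuadraticForm F V) (P : (κ → V) → Prop) (U : Submodule F V) {k : ℕ}
    (f : Fin k → V × V) (z : κ → V) : Prop :=
  (∀ i, (f i).1 ∈ U ∧ (f i).2 ∈ U) ∧ (∀ j, z j ∈ U) ∧
  (∀ i, Q (f i).1 = 0 ∧ Q (f i).2 = 0) ∧
  (∀ i l, Q.polarBilin (f i).1 (f l).1 = 0 ∧ Q.polarBilin (f i).2 (f l).2 = 0 ∧
    Q.polarBilin (f i).1 (f l).2 = if i = l then 1 else 0) ∧
  (∀ i j, Q.polarBilin (f i).1 (z j) = 0 ∧ Q.polarBilin (f i).2 (z j) = 0) ∧ P z

/-- hyperbolic frames with base -/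
def OFrameB (Q : QuadraticForm F V) (P : (κ → V) → Prop) (U : Submodule F V) (k : ℕ) : Type _ :=
  {fz : (Fin k → V × V) × (κ → V) // IsOFrame Q P U fz.1 fz.2}

instance oFrameB_finite (P : (κ → V) → Prop) (U : Submodule F V) (k : ℕ) :
    Finite (OFrameB Q P U k) := by
  unfold OFrameB
  infer_instance

theorem isOFrame_cons (P : (κ → V) → Prop) (U : Submodule F V) (k : ℕ)
    (x y : V) (hx : x ∈ U) (hy : y ∈ U) (hQx : Q x = 0) (hQy : Q y = 0)
    (hxy : Q.polarBilin x y = 1) (f : Fin k → V × V) (z : κ → V)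
    (h : IsOFrame Q P (oPerp Q U x y) f z) :
    IsOFrame Q P U (Fin.cons (x, y) f : Fin (k + 1) → V × V) z := by
  obtain ⟨h1, h2, h3, h4, h5, h6⟩ := h
  refine ⟨?_, fun j => (h2 j).1, ?_, ?_, ?_, h6⟩
  · intro i
    refine Fin.cases ?_ (fun i => ?_) i
    · exact ⟨hx, hy⟩
    · exact ⟨(h1 i).1.1, (h1 i).2.1⟩
  · intro i
    refine Fin.cases ?_ (fun i => ?_) i
    · exact ⟨hQx, hQy⟩
    · exact h3 i
  · intro i l
    refine Fin.cases ?_ (fun i => ?_) i <;> refine Fin.cases ?_ (fun l => ?_) l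
    · simp only [Fin.cons_zero, if_true]
      exact ⟨qB_self Q hQx, qB_self Q hQy, hxy⟩
    · simp only [Fin.cons_zero, Fin.cons_succ, (Fin.succ_ne_zero l).symm, if_false]
      exact ⟨(h1 l).1.2.1, (h1 l).2.2.2, (h1 l).2.2.1⟩
    · simp only [Fin.cons_zero, Fin.cons_succ, Fin.succ_ne_zero i, if_false]
      refine ⟨?_, ?_, ?_⟩
      · rw [qB_comm]; exact (h1 i).1.2.1
      · rw [qB_comm]; exact (h1 i).2.2.2
      · rw [qB_comm]; exact (h1 i).1.2.2
    · simp only [Fin.cons_succ, Fin.succ_inj]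
      exact h4 i l
  · intro i j
    refine Fin.cases ?_ (fun i => ?_) i
    · exact ⟨(h2 j).2.1, (h2 j).2.2⟩
    · exact h5 i j

theorem isOFrame_tail (P : (κ → V) → Prop) (U : Submodule F V) (k : ℕ)
    (f : Fin (k + 1) → V × V) (z : κ → V) (h : IsOFrame Q P U f z) :
    IsOFrame Q P (oPerp Q U (f 0).1 (f 0).2) (fun i => f i.succ) z := by
  obtain ⟨h1, h2, h3, h4, h5, h6⟩ := h
  refine ⟨?_, ?_, fun i => h3 _, ?_, fun i j => h5 _ j, h6⟩
  · intro i
    refine ⟨⟨(h1 _).1, (h4 0 i.succ).1, ?_⟩, ⟨(h1 _).2, ?_, (h4 0 i.succ).2.1⟩⟩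
    · show Q.polarBilin (f 0).2 (f i.succ).1 = 0
      rw [qB_comm, (h4 i.succ 0).2.2]
      simp [Fin.succ_ne_zero]
    · show Q.polarBilin (f 0).1 (f i.succ).2 = 0
      rw [(h4 0 i.succ).2.2]
      simp [(Fin.succ_ne_zero i).symm]
  · intro j
    exact ⟨h2 j, (h5 0 j).1, (h5 0 j).2⟩
  · intro i l
    simpa using h4 i.succ l.succ

theorem oFrameB_card (P : (κ → V) → Prop) {c0 : ℕ} {N0 : F → ℕ} {b0 : ℕ}
    (hbase : ∀ U : Submodule F V, OGood Q c0 N0 U 0 →
      Nat.card {z : κ → V // (∀ j, z j ∈ U) ∧ P z} = b0)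
    {U : Submodule F V} {k : ℕ} (hU : OGood Q c0 N0 U k) :
    Nat.card (OFrameB Q P U k) = b0 * ∏ i ∈ Finset.range k,
      ((oSeq (Fintype.card F) c0 (N0 0) (i + 1) - 1) * (Fintype.card F ^ (2 * i) * c0)) := by
  induction k generalizing U with
  | zero =>
    rw [Finset.prod_range_zero, mul_one, ← hbase U hU]
    apply Nat.card_congr
    exact
      { toFun := fun fz => ⟨fz.1.2, fz.2.2.1, fz.2.2.2.2.2.2⟩
        invFun := fun z => ⟨(fun i => i.elim0, z.1), fun i => i.elim0, z.2.1, fun i => i.elim0,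
          fun i => i.elim0, fun i => i.elim0, z.2.2⟩
        left_inv := fun fz => Subtype.ext (Prod.ext (funext fun i => i.elim0) rfl)
        right_inv := fun z => rfl }
  | succ k ih =>
    let e : OFrameB Q P U (k + 1) ≃
        Σ p : {p : U × U // Q p.1.1 = 0 ∧ Q p.2.1 = 0 ∧ Q.polarBilin p.1.1 p.2.1 = 1},
          OFrameB Q P (oPerp Q U p.1.1.1 p.1.2.1) k :=
      { toFun := fun fz => ⟨⟨(⟨(fz.1.1 0).1, (fz.2.1 0).1⟩, ⟨(fz.1.1 0).2, (fz.2.1 0).2⟩),
            (fz.2.2.2.1 0).1, (fz.2.2.2.1 0).2, by simpa using (fz.2.2.2.2.1 0 0).2.2⟩,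
          ⟨(fun i => fz.1.1 i.succ, fz.1.2), isOFrame_tail P U k fz.1.1 fz.1.2 fz.2⟩⟩
        invFun := fun p => ⟨(Fin.cons (p.1.1.1.1, p.1.1.2.1) p.2.1.1, p.2.1.2),
          isOFrame_cons P U k p.1.1.1.1 p.1.1.2.1 p.1.1.1.2 p.1.1.2.2 p.1.2.1 p.1.2.2.1 p.1.2.2.2
            p.2.1.1 p.2.1.2 p.2.2⟩
        left_inv := fun fz => Subtype.ext (Prod.ext (by
          funext i
          refine Fin.cases ?_ (fun i => ?_) i <;> simp) rfl)
        right_inv := fun p => rfl }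
    have := Fintype.ofFinite
      {p : U × U // Q p.1.1 = 0 ∧ Q p.2.1 = 0 ∧ Q.polarBilin p.1.1 p.2.1 = 1}
    rw [Nat.card_congr e, Nat.card_sigma]
    have h1 : ∀ p : {p : U × U // Q p.1.1 = 0 ∧ Q p.2.1 = 0 ∧ Q.polarBilin p.1.1 p.2.1 = 1},
        Nat.card (OFrameB Q P (oPerp Q U p.1.1.1 p.1.2.1) k)
          = b0 * ∏ i ∈ Finset.range k,
      ((oSeq (Fintype.card F) c0 (N0 0) (i + 1) - 1) * (Fintype.card F ^ (2 * i) * c0)) :=
      fun p => ih (oGood_perp hU p.1.1.1 p.1.2.1 p.1.1.2 p.1.2.2 p.2.1 p.2.2.1 p.2.2.2)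
    simp_rw [h1]
    rw [Finset.sum_const, Finset.card_univ, ← Nat.card_eq_fintype_card, o_card_pairs hU,
      Finset.prod_range_succ, smul_eq_mul]
    ring

theorem oSeq_closed (q c0 n0 : ℕ) (hq : 0 < q) (j : ℕ) :
    q * oSeq q c0 n0 j = (q ^ j - 1) * q ^ j * c0 + q ^ (j + 1) * n0 := by
  induction j with
  | zero => simp [oSeq]
  | succ j ih =>
    have h1 : 1 ≤ q ^ j := Nat.one_le_pow _ _ hq
    have h2 : 1 ≤ q ^ (j + 1) := Nat.one_le_pow _ _ hq
    simp only [oSeq]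
    rw [mul_add, ih]
    have hq1 : 1 ≤ q := hq
    zify [h1, h2, hq1]
    ring

end quad

end Cfsg.Agent.Lib.Helper18
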