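import Mathlib
import Cfsg.Prelude.Def_LieClassical
import Cfsg.Agent.Lib.Helper18.Quad2

set_option linter.unusedSimpArgs false
set_option linter.unusedSectionVars false

namespace Cfsg.Agent.Lib.Helper18

open Matrix

section gram

variable {F : Type*} [Field F] {ι : Type} [Fintype ι] [DecidableEq ι]

theorem quad_ext_basis {V : Type*} [AddCommGroup V] [Module F V] (Q1 Q2 : QuadraticForm F V)
    (e : ι → V)
    (h1 : ∀ i, Q1 (e i) = Q2 (e i))
    (h2 : ∀ i j, Q1.polarBilin (e i) (e j) = Q2.polarBilin (e i) (e j)) (v : ι → F)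
    (s : Finset ι) : Q1 (∑ i ∈ s, v i • e i) = Q2 (∑ i ∈ s, v i • e i) := by
  induction s using Finset.induction_on with
  | empty => simp
  | insert a s ha ih =>
    rw [Finset.sum_insert ha]
    have hadd : ∀ (Q : QuadraticForm F V) (x y : V), Q (x + y) = Q x + Q y + Q.polarBilin x y := by
      intro Q x y
      rw [QuadraticMap.polarBilin_apply_apply, QuadraticMap.polar]
      ring
    rw [hadd, hadd, ih, QuadraticMap.map_smul, QuadraticMap.map_smul, h1]
    congr 1
    simp only [map_sum, map_smul, LinearMap.smul_apply, h2]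

theorem quad_preserve_iff (Q : QuadraticForm F (ι → F)) (A : Matrix ι ι F) :
    (∀ v, Q (A *ᵥ v) = Q v) ↔
      (∀ i, Q (fun k => A k i) = Q (Pi.single i 1)) ∧
      ∀ i j, Q.polarBilin (fun k => A k i) (fun k => A k j)
        = Q.polarBilin (Pi.single i 1) (Pi.single j 1) := by
  have hcol : ∀ i, A *ᵥ (Pi.single i 1) = fun k => A k i := by
    intro i
    ext k
    simp
  constructor
  · intro h
    refine ⟨fun i => by rw [← hcol, h], fun i j => ?_⟩
    rw [QuadraticMap.polarBilin_apply_apply, QuadraticMap.polarBilin_apply_apply,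
      QuadraticMap.polar, QuadraticMap.polar, ← hcol, ← hcol, ← Matrix.mulVec_add, h, h, h]
  · rintro ⟨h1, h2⟩ v
    have key := quad_ext_basis (Q.comp (Matrix.toLin' A)) Q (fun i => (Pi.single i 1 : ι → F))
      (fun i => by
        rw [QuadraticMap.comp_apply, Matrix.toLin'_apply, hcol, h1])
      (fun i j => by
        rw [QuadraticMap.polarBilin_apply_apply, QuadraticMap.polar, QuadraticMap.comp_apply,
          QuadraticMap.comp_apply, QuadraticMap.comp_apply, map_add, Matrix.toLin'_apply,
          Matrix.toLin'_apply, hcol, hcol, ← h2, QuadraticMap.polarBilin_apply_apply,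
          QuadraticMap.polar]) v Finset.univ
    have hv : ∑ i, v i • (Pi.single i 1 : ι → F) = v := by
      ext k
      simp [Finset.sum_apply, Pi.single_apply]
    rw [hv, QuadraticMap.comp_apply, Matrix.toLin'_apply] at key
    exact key

theorem card_isometryGroup_eq_gram (Q : QuadraticForm F (ι → F))
    (hnd : ∀ x, x ≠ 0 → ∃ y, Q.polarBilin x y ≠ 0) (Qf : (ι → F) → F) (hQf : ∀ v, Qf v = Q v) :
    Nat.card (Cfsg.isometryGroup F Qf) = Nat.card {c : ι → (ι → F) //
      (∀ i, Q (c i) = Q (Pi.single i 1)) ∧
      ∀ i j, Q.polarBilin (c i) (c j) = Q.polarBilin (Pi.single i 1) (Pi.single j 1)} := by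
  have step1 : Nat.card (Cfsg.isometryGroup F Qf)
      = Nat.card {A : Matrix ι ι F // ∀ v, Q (A *ᵥ v) = Q v} := by
    apply Nat.card_congr
    refine Equiv.ofBijective (fun g => ⟨(g.1 : Matrix ι ι F), fun v => ?_⟩) ⟨?_, ?_⟩
    · have := g.2 v v
      rw [← hQf, ← hQf]
      exact this
    · intro g g' h
      apply Subtype.ext
      apply Units.ext
      exact congrArg Subtype.val h
    · rintro ⟨A, hA⟩
      have hinj : Function.Injective A.mulVec := by
        intro v w hvw
        by_contra hne
        obtain ⟨y, hy⟩ := hnd (v - w) (sub_ne_zero.mpr hne)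
        apply hy
        have h0 : A *ᵥ (v - w) = 0 := by
          rw [Matrix.mulVec_sub]
          exact sub_eq_zero.mpr hvw
        rw [QuadraticMap.polarBilin_apply_apply, QuadraticMap.polar, ← hA (v - w + y),
          ← hA (v - w), ← hA y, Matrix.mulVec_add, h0]
        simp
      have hu : IsUnit A := Matrix.mulVec_injective_iff_isUnit.mp hinj
      refine ⟨⟨hu.unit, fun u v => ?_⟩, ?_⟩
      · show Qf (A *ᵥ u) = Qf u
        rw [hQf, hQf, hA]
      · rfl
  rw [step1]
  apply Nat.card_congr
  let e : Matrix ι ι F ≃ (ι → ι → F) :=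
    { toFun := fun A j i => A i j
      invFun := fun f => Matrix.of (fun i j => f j i)
      left_inv := fun A => rfl
      right_inv := fun f => rfl }
  exact e.subtypeEquiv (fun A => quad_preserve_iff Q A)

end gram

end Cfsg.Agent.Lib.Helper18
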