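import Mathlib
import Cfsg.Prelude.Def_LieClassical
import Cfsg.Agent.Lib.Helper18.Quad3

set_option linter.unusedSimpArgs false
set_option linter.unusedSectionVars false

namespace Cfsg.Agent.Lib.Helper18

open Matrix

section top

variable {F : Type*} [Field F] [Fintype F] {V : Type*} [AddCommGroup V] [Module F V] [Finite V]

theorem oGood_top_aux (Q : QuadraticForm F V) {X : Type*} [Finite X] (ν : X → F) (m : ℕ)
    (e : V ≃ (Fin m → F) × (Fin m → F) × X)
    (he : ∀ v, Q v = ∑ i, (e v).1 i * (e v).2.1 i + ν (e v).2.2)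
    (hnd : ∀ x, x ≠ 0 → ∃ y, Q.polarBilin x y ≠ 0) :
    OGood Q (Nat.card X) (fun t => Nat.card {z : X // ν z = t}) (⊤ : Submodule F V) m := by
  have hq : 0 < Fintype.card F := Fintype.card_pos
  refine ⟨?_, ?_, ?_⟩
  · rw [Nat.card_congr (Submodule.topEquiv (R := F) (M := V)).toEquiv, Nat.card_congr e,
      Nat.card_prod, Nat.card_prod, Nat.card_fun, Nat.card_eq_fintype_card (α := F),
      Nat.card_eq_fintype_card (α := Fin m), Fintype.card_fin]
    ring
  · intro t
    apply Nat.eq_of_mul_eq_mul_left hq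
    rw [oSeq_closed _ _ _ hq]
    have h := card_dot_add (F := F) (ι := Fin m) ν t
    rw [Fintype.card_fin] at h
    rw [← h]
    congr 1
    apply Nat.card_congr
    refine ((Submodule.topEquiv (R := F) (M := V)).toEquiv.trans e).subtypeEquiv (fun u => ?_)
    rw [he]
    rfl
  · intro x _ hx
    obtain ⟨y, hy⟩ := hnd x hx
    exact ⟨y, Submodule.mem_top, hy⟩

end top

section plus

variable {F : Type*} [Field F] {m : ℕ}

/-- `quadFormPlus` as a quadratic form -/
noncomputable def qPlus (m : ℕ) (F : Type*) [Field F] : QuadraticForm F (Fin m ⊕ Fin m → F) :=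
  ∑ i : Fin m, QuadraticMap.linMulLin (LinearMap.proj (Sum.inl i)) (LinearMap.proj (Sum.inr i))

theorem qPlus_apply (v : Fin m ⊕ Fin m → F) : qPlus m F v = Cfsg.quadFormPlus m F v := by
  simp [qPlus, Cfsg.quadFormPlus, _root_.sum_apply]

theorem qPlus_polar (u v : Fin m ⊕ Fin m → F) : (qPlus m F).polarBilin u v
    = ∑ i, (u (Sum.inl i) * v (Sum.inr i) + u (Sum.inr i) * v (Sum.inl i)) := by
  rw [QuadraticMap.polarBilin_apply_apply, QuadraticMap.polar, qPlus_apply, qPlus_apply,
    qPlus_apply]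
  unfold Cfsg.quadFormPlus
  rw [← Finset.sum_sub_distrib, ← Finset.sum_sub_distrib]
  apply Finset.sum_congr rfl
  intro i _
  simp only [Pi.add_apply]
  ring

theorem qPlus_nondeg (x : Fin m ⊕ Fin m → F) (hx : x ≠ 0) :
    ∃ y, (qPlus m F).polarBilin x y ≠ 0 := by
  obtain ⟨k, hk⟩ := Function.ne_iff.mp hx
  rcases k with k | k
  · refine ⟨Pi.single (Sum.inr k) 1, ?_⟩
    rw [qPlus_polar]
    simpa [Pi.single_apply] using hk
  · refine ⟨Pi.single (Sum.inl k) 1, ?_⟩
    rw [qPlus_polar]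
    simpa [Pi.single_apply] using hk

theorem qPlus_single (j : Fin m ⊕ Fin m) : qPlus m F (Pi.single j 1) = 0 := by
  rw [qPlus_apply]
  unfold Cfsg.quadFormPlus
  apply Finset.sum_eq_zero
  intro i _
  rcases j with j | j <;> simp [Pi.single_apply]

theorem qPlus_polar_ll (a b : Fin m) :
    (qPlus m F).polarBilin (Pi.single (Sum.inl a) 1) (Pi.single (Sum.inl b) 1) = 0 := by
  rw [qPlus_polar]
  simp [Pi.single_apply]

theorem qPlus_polar_rr (a b : Fin m) :
    (qPlus m F).polarBilin (Pi.single (Sum.inr a) 1) (Pi.single (Sum.inr b) 1) = 0 := by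
  rw [qPlus_polar]
  simp [Pi.single_apply]

theorem qPlus_polar_lr (a b : Fin m) :
    (qPlus m F).polarBilin (Pi.single (Sum.inl a) 1) (Pi.single (Sum.inr b) 1)
      = if a = b then 1 else 0 := by
  rw [qPlus_polar]
  simp [Pi.single_apply, eq_comm]

variable [Fintype F]

theorem qPlus_good : OGood (qPlus m F) (Nat.card Unit)
    (fun t => Nat.card {z : Unit // (fun _ : Unit => (0 : F)) z = t})
    (⊤ : Submodule F (Fin m ⊕ Fin m → F)) m := by
  apply oGood_top_aux (qPlus m F) (fun _ : Unit => (0 : F)) m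
    { toFun := fun v => (v ∘ Sum.inl, v ∘ Sum.inr, ())
      invFun := fun p => Sum.elim p.1 p.2.1
      left_inv := fun v => by ext (i | i) <;> rfl
      right_inv := fun p => rfl }
  · intro v
    rw [qPlus_apply, add_zero]
    rfl
  · exact qPlus_nondeg

theorem card_gram_plus : Nat.card {c : Fin m ⊕ Fin m → (Fin m ⊕ Fin m → F) //
      (∀ i, qPlus m F (c i) = qPlus m F (Pi.single i 1)) ∧
      ∀ i j, (qPlus m F).polarBilin (c i) (c j)
        = (qPlus m F).polarBilin (Pi.single i 1) (Pi.single j 1)}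
    = Nat.card (OFrameB (qPlus m F) (fun _ : Fin 0 → (Fin m ⊕ Fin m → F) => True)
        (⊤ : Submodule F (Fin m ⊕ Fin m → F)) m) := by
  apply Nat.card_congr
  let e : (Fin m ⊕ Fin m → (Fin m ⊕ Fin m → F)) ≃
      (Fin m → (Fin m ⊕ Fin m → F) × (Fin m ⊕ Fin m → F)) × (Fin 0 → (Fin m ⊕ Fin m → F)) :=
    { toFun := fun c => (fun i => (c (Sum.inl i), c (Sum.inr i)), fun j => j.elim0)
      invFun := fun p => Sum.elim (fun i => (p.1 i).1) (fun i => (p.1 i).2)
      left_inv := fun c => by ext (i | i) <;> rfl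
      right_inv := fun p => Prod.ext rfl (funext fun j => j.elim0) }
  refine e.subtypeEquiv (fun c => ?_)
  show _ ↔ IsOFrame (qPlus m F) (fun _ => True) ⊤
    (fun i => (c (Sum.inl i), c (Sum.inr i))) (fun j : Fin 0 => j.elim0)
  constructor
  · rintro ⟨h1, h2⟩
    refine ⟨fun i => ⟨Submodule.mem_top, Submodule.mem_top⟩, fun j => j.elim0, fun i => ⟨?_, ?_⟩,
      fun i l => ⟨?_, ?_, ?_⟩, fun i j => j.elim0, trivial⟩
    · rw [h1, qPlus_single]
    · rw [h1, qPlus_single]
    · rw [h2, qPlus_polar_ll]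
    · rw [h2, qPlus_polar_rr]
    · rw [h2, qPlus_polar_lr]
  · rintro ⟨-, -, h3, h4, -, -⟩
    refine ⟨?_, ?_⟩
    · rintro (i | i)
      · rw [qPlus_single]; exact (h3 i).1
      · rw [qPlus_single]; exact (h3 i).2
    · rintro (i | i) (l | l)
      · rw [qPlus_polar_ll]; exact (h4 i l).1
      · rw [qPlus_polar_lr]; exact (h4 i l).2.2
      · rw [qB_comm, qB_comm _ (Pi.single _ _), qPlus_polar_lr]; exact (h4 l i).2.2
      · rw [qPlus_polar_rr]; exact (h4 i l).2.1

theorem card_isometry_plus : Nat.card (Cfsg.isometryGroup F (Cfsg.quadFormPlus m F))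
    = ∏ i ∈ Finset.range m, ((oSeq (Fintype.card F) 1 1 (i + 1) - 1) * Fintype.card F ^ (2 * i)) := by
  rw [card_isometryGroup_eq_gram (qPlus m F) qPlus_nondeg _ (fun v => (qPlus_apply v).symm),
    card_gram_plus, oFrameB_card (b0 := 1) _ ?_ qPlus_good]
  · have h1 : Nat.card {z : Unit // (fun _ : Unit => (0 : F)) z = 0} = 1 := by simp
    rw [h1]
    simp only [Nat.card_unique, mul_one, one_mul]
  · intro U _
    have : Unique {z : Fin 0 → (Fin m ⊕ Fin m → F) // (∀ j, z j ∈ U) ∧ True} :=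
      { default := ⟨fun j => j.elim0, fun j => j.elim0, trivial⟩
        uniq := fun z => Subtype.ext (funext fun j => j.elim0) }
    exact Nat.card_unique

end plus

end Cfsg.Agent.Lib.Helper18
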