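import Mathlib
import Cfsg.Prelude.Def_LieClassical
import Cfsg.Agent.Lib.Helper18.Quad4

set_option linter.unusedSimpArgs false
set_option linter.unusedSectionVars false

namespace Cfsg.Agent.Lib.Helper18

open Matrix

section odd

variable {F : Type*} [Field F] {m : ℕ}

/-- `quadFormOdd` as a quadratic form -/
noncomputable def qOdd (m : ℕ) (F : Type*) [Field F] :
    QuadraticForm F (Unit ⊕ (Fin m ⊕ Fin m) → F) :=
  QuadraticMap.linMulLin (LinearMap.proj (Sum.inl ())) (LinearMap.proj (Sum.inl ())) +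
  ∑ i : Fin m, QuadraticMap.linMulLin (LinearMap.proj (Sum.inr (Sum.inl i)))
    (LinearMap.proj (Sum.inr (Sum.inr i)))

theorem qOdd_apply (v : Unit ⊕ (Fin m ⊕ Fin m) → F) : qOdd m F v = Cfsg.quadFormOdd m F v := by
  simp [qOdd, Cfsg.quadFormOdd, _root_.sum_apply, pow_two]

theorem qOdd_polar (u v : Unit ⊕ (Fin m ⊕ Fin m) → F) : (qOdd m F).polarBilin u v
    = 2 * u (Sum.inl ()) * v (Sum.inl ()) + ∑ i, (u (Sum.inr (Sum.inl i)) * v (Sum.inr (Sum.inr i))
      + u (Sum.inr (Sum.inr i)) * v (Sum.inr (Sum.inl i))) := by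
  rw [QuadraticMap.polarBilin_apply_apply, QuadraticMap.polar, qOdd_apply, qOdd_apply,
    qOdd_apply]
  unfold Cfsg.quadFormOdd
  have : ∀ (a b c A B C : F), (a + A) - (b + B) - (c + C) = (a - b - c) + (A - B - C) := by
    intros; ring
  rw [this, ← Finset.sum_sub_distrib, ← Finset.sum_sub_distrib]
  congr 1
  · simp only [Pi.add_apply]
    ring
  · apply Finset.sum_congr rfl
    intro i _
    simp only [Pi.add_apply]
    ring

theorem qOdd_nondeg (h2 : (2 : F) ≠ 0) (x : Unit ⊕ (Fin m ⊕ Fin m) → F) (hx : x ≠ 0) :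
    ∃ y, (qOdd m F).polarBilin x y ≠ 0 := by
  obtain ⟨k, hk⟩ := Function.ne_iff.mp hx
  rcases k with k | k | k
  · refine ⟨Pi.single (Sum.inl ()) 1, ?_⟩
    rw [qOdd_polar]
    simpa [Pi.single_apply, h2] using hk
  · refine ⟨Pi.single (Sum.inr (Sum.inr k)) 1, ?_⟩
    rw [qOdd_polar]
    simpa [Pi.single_apply] using hk
  · refine ⟨Pi.single (Sum.inr (Sum.inl k)) 1, ?_⟩
    rw [qOdd_polar]
    simpa [Pi.single_apply] using hk

theorem qOdd_single0 : qOdd m F (Pi.single (Sum.inl ()) 1) = 1 := by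
  rw [qOdd_apply]
  simp [Cfsg.quadFormOdd, Pi.single_apply]

theorem qOdd_single (j : Fin m ⊕ Fin m) : qOdd m F (Pi.single (Sum.inr j) 1) = 0 := by
  rw [qOdd_apply]
  unfold Cfsg.quadFormOdd
  rw [Finset.sum_eq_zero]
  · simp
  · intro i _
    rcases j with j | j <;> simp [Pi.single_apply]

theorem qOdd_polar_0 (j : Fin m ⊕ Fin m) :
    (qOdd m F).polarBilin (Pi.single (Sum.inr j) 1) (Pi.single (Sum.inl ()) 1) = 0 := by
  rw [qOdd_polar]
  rcases j with j | j <;> simp [Pi.single_apply]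

theorem qOdd_polar_ll (a b : Fin m) : (qOdd m F).polarBilin (Pi.single (Sum.inr (Sum.inl a)) 1)
    (Pi.single (Sum.inr (Sum.inl b)) 1) = 0 := by
  rw [qOdd_polar]
  simp [Pi.single_apply]

theorem qOdd_polar_rr (a b : Fin m) : (qOdd m F).polarBilin (Pi.single (Sum.inr (Sum.inr a)) 1)
    (Pi.single (Sum.inr (Sum.inr b)) 1) = 0 := by
  rw [qOdd_polar]
  simp [Pi.single_apply]

theorem qOdd_polar_lr (a b : Fin m) : (qOdd m F).polarBilin (Pi.single (Sum.inr (Sum.inl a)) 1)
    (Pi.single (Sum.inr (Sum.inr b)) 1) = if a = b then 1 else 0 := by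
  rw [qOdd_polar]
  simp [Pi.single_apply, eq_comm]

variable [Fintype F]

theorem qOdd_good (h2 : (2 : F) ≠ 0) : OGood (qOdd m F) (Nat.card F)
    (fun t => Nat.card {z : F // (fun z : F => z ^ 2) z = t})
    (⊤ : Submodule F (Unit ⊕ (Fin m ⊕ Fin m) → F)) m := by
  apply oGood_top_aux (qOdd m F) (fun z : F => z ^ 2) m
    { toFun := fun v => (fun i => v (Sum.inr (Sum.inl i)), fun i => v (Sum.inr (Sum.inr i)),
        v (Sum.inl ()))
      invFun := fun p => Sum.elim (fun _ => p.2.2) (Sum.elim p.1 p.2.1)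
      left_inv := fun v => by ext (i | i | i) <;> rfl
      right_inv := fun p => rfl }
  · intro v
    rw [qOdd_apply, add_comm]
    rfl
  · exact qOdd_nondeg h2

theorem card_gram_odd : Nat.card {c : Unit ⊕ (Fin m ⊕ Fin m) → (Unit ⊕ (Fin m ⊕ Fin m) → F) //
      (∀ i, qOdd m F (c i) = qOdd m F (Pi.single i 1)) ∧
      ∀ i j, (qOdd m F).polarBilin (c i) (c j)
        = (qOdd m F).polarBilin (Pi.single i 1) (Pi.single j 1)}
    = Nat.card (OFrameB (qOdd m F)
        (fun z : Unit → (Unit ⊕ (Fin m ⊕ Fin m) → F) => qOdd m F (z ()) = 1)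
        (⊤ : Submodule F (Unit ⊕ (Fin m ⊕ Fin m) → F)) m) := by
  apply Nat.card_congr
  let e : (Unit ⊕ (Fin m ⊕ Fin m) → (Unit ⊕ (Fin m ⊕ Fin m) → F)) ≃
      (Fin m → (Unit ⊕ (Fin m ⊕ Fin m) → F) × (Unit ⊕ (Fin m ⊕ Fin m) → F))
        × (Unit → (Unit ⊕ (Fin m ⊕ Fin m) → F)) :=
    { toFun := fun c => (fun i => (c (Sum.inr (Sum.inl i)), c (Sum.inr (Sum.inr i))),
        fun _ => c (Sum.inl ()))
      invFun := fun p => Sum.elim p.2 (Sum.elim (fun i => (p.1 i).1) (fun i => (p.1 i).2))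
      left_inv := fun c => by ext (i | i | i) <;> rfl
      right_inv := fun p => rfl }
  refine e.subtypeEquiv (fun c => ?_)
  show _ ↔ IsOFrame (qOdd m F) (fun z => qOdd m F (z ()) = 1) ⊤
    (fun i => (c (Sum.inr (Sum.inl i)), c (Sum.inr (Sum.inr i)))) (fun _ : Unit => c (Sum.inl ()))
  constructor
  · rintro ⟨h1, h2⟩
    refine ⟨fun i => ⟨Submodule.mem_top, Submodule.mem_top⟩, fun j => Submodule.mem_top,
      fun i => ⟨?_, ?_⟩, fun i l => ⟨?_, ?_, ?_⟩, fun i j => ⟨?_, ?_⟩, ?_⟩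
    · rw [h1, qOdd_single]
    · rw [h1, qOdd_single]
    · rw [h2, qOdd_polar_ll]
    · rw [h2, qOdd_polar_rr]
    · rw [h2, qOdd_polar_lr]
    · rw [h2, qOdd_polar_0]
    · rw [h2, qOdd_polar_0]
    · show qOdd m F (c (Sum.inl ())) = 1
      rw [h1, qOdd_single0]
  · rintro ⟨-, -, h3, h4, h5, h6⟩
    refine ⟨?_, ?_⟩
    · rintro (i | i | i)
      · rw [qOdd_single0]; exact h6
      · rw [qOdd_single]; exact (h3 i).1
      · rw [qOdd_single]; exact (h3 i).2
    · rintro (i | i | i) (l | l | l)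
      · rw [QuadraticMap.polarBilin_apply_apply, QuadraticMap.polarBilin_apply_apply,
          QuadraticMap.polar_self, QuadraticMap.polar_self, qOdd_single0]
        congr 1
      · rw [qB_comm, qB_comm _ (Pi.single _ _), qOdd_polar_0]; exact (h5 l ()).1
      · rw [qB_comm, qB_comm _ (Pi.single _ _), qOdd_polar_0]; exact (h5 l ()).2
      · rw [qOdd_polar_0]; exact (h5 i ()).1
      · rw [qOdd_polar_ll]; exact (h4 i l).1
      · rw [qOdd_polar_lr]; exact (h4 i l).2.2
      · rw [qOdd_polar_0]; exact (h5 i ()).2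
      · rw [qB_comm, qB_comm _ (Pi.single _ _), qOdd_polar_lr]; exact (h4 l i).2.2
      · rw [qOdd_polar_rr]; exact (h4 i l).2.1

theorem card_sq_eq_zero : Nat.card {z : F // (fun z : F => z ^ 2) z = 0} = 1 := by
  have : Unique {z : F // (fun z : F => z ^ 2) z = 0} :=
    { default := ⟨0, by simp⟩
      uniq := fun z => Subtype.ext (by simpa using z.2) }
  exact Nat.card_unique

theorem card_sq_eq_one (h2 : (2 : F) ≠ 0) : Nat.card {z : F // (fun z : F => z ^ 2) z = 1} = 2 := by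
  classical
  rw [Nat.card_eq_fintype_card, Fintype.card_subtype]
  have : (Finset.univ.filter (fun z : F => (fun z : F => z ^ 2) z = 1)) = {1, -1} := by
    ext z
    simp only [Finset.mem_filter, Finset.mem_univ, true_and, Finset.mem_insert,
      Finset.mem_singleton]
    rw [pow_two, mul_self_eq_one_iff]
  rw [this, Finset.card_pair]
  intro h
  apply h2
  have : (1 : F) + 1 = 0 := by
    nth_rewrite 2 [h]
    ring
  rw [← this]
  norm_num

theorem card_isometry_odd (h2 : (2 : F) ≠ 0) :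
    Nat.card (Cfsg.isometryGroup F (Cfsg.quadFormOdd m F))
    = 2 * ∏ i ∈ Finset.range m, ((oSeq (Fintype.card F) (Fintype.card F) 1 (i + 1) - 1)
      * (Fintype.card F ^ (2 * i) * Fintype.card F)) := by
  rw [card_isometryGroup_eq_gram (qOdd m F) (qOdd_nondeg h2) _ (fun v => (qOdd_apply v).symm),
    card_gram_odd, oFrameB_card (b0 := 2) _ ?_ (qOdd_good h2)]
  · rw [card_sq_eq_zero, Nat.card_eq_fintype_card]
  · intro U hU
    have h1 := hU.2.1 1
    simp only [oSeq] at h1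
    rw [card_sq_eq_one h2] at h1
    rw [← h1]
    apply Nat.card_congr
    exact
      { toFun := fun z => ⟨⟨z.1 (), z.2.1 ()⟩, z.2.2⟩
        invFun := fun u => ⟨fun _ => u.1.1, fun _ => u.1.2, u.2⟩
        left_inv := fun z => rfl
        right_inv := fun u => rfl }

end odd

end Cfsg.Agent.Lib.Helper18
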