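import Mathlib
import Cfsg.Prelude.Def_LieClassical
import Cfsg.Agent.Lib.Helper18.Quad5
import Cfsg.Agent.Lib.Helper18.Symp2
import Cfsg.Agent.Lib.Helper18.IsoReindex

set_option linter.unusedSimpArgs false
set_option linter.unusedSectionVars false

namespace Cfsg.Agent.Lib.Helper18

open Matrix

section oddsp

variable {F : Type*} [Field F] {m : ℕ}

theorem qOdd_polar_char_two (h2 : (2 : F) = 0) (u v : Unit ⊕ (Fin m ⊕ Fin m) → F) :
    (qOdd m F).polarBilin u v = sympB m F (fun k => u (Sum.inr k)) (fun k => v (Sum.inr k)) := by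
  rw [qOdd_polar, sympB_apply', h2, zero_mul, zero_mul, zero_add]
  apply Finset.sum_congr rfl
  intro i _
  linear_combination (u (Sum.inr (Sum.inl i)) * v (Sum.inr (Sum.inr i))) * h2

theorem sympB_single (c c' : Fin m ⊕ Fin m) :
    sympB m F (Pi.single c 1) (Pi.single c' 1) = J (Fin m) F c c' := by
  rw [sympB_apply]
  simp

theorem mem_sp_iff_col (s : Matrix (Fin m ⊕ Fin m) (Fin m ⊕ Fin m) F) :
    s ∈ symplecticGroup (Fin m) F ↔
      ∀ c c', sympB m F (fun k => s k c) (fun k => s k c') = J (Fin m) F c c' := by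
  rw [SymplecticGroup.mem_iff']
  constructor
  · intro h c c'
    rw [← sympB_col, h]
  · intro h
    ext c c'
    rw [sympB_col, h]

theorem sympB_mulVec (s : Matrix (Fin m ⊕ Fin m) (Fin m ⊕ Fin m) F)
    (hs : s ∈ symplecticGroup (Fin m) F) (u v : Fin m ⊕ Fin m → F) :
    sympB m F (s *ᵥ u) (s *ᵥ v) = sympB m F u v := by
  rw [SymplecticGroup.mem_iff'] at hs
  have h1 : ∀ x, (s *ᵥ u) ⬝ᵥ x = u ⬝ᵥ (sᵀ *ᵥ x) := by
    intro x
    rw [Matrix.dotProduct_mulVec, Matrix.vecMul_transpose]
  rw [sympB_apply, sympB_apply, h1, Matrix.mulVec_mulVec, Matrix.mulVec_mulVec, hs]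

theorem qOdd_split (v : Unit ⊕ (Fin m ⊕ Fin m) → F) :
    qOdd m F v = v (Sum.inl ()) ^ 2 + qPlus m F (fun k => v (Sum.inr k)) := by
  rw [qOdd_apply, qPlus_apply]
  rfl

/-- structure of an isometry of the odd dimensional form in characteristic two -/
theorem odd_iso_structure (h2 : (2 : F) = 0)
    (g : Matrix (Unit ⊕ (Fin m ⊕ Fin m)) (Unit ⊕ (Fin m ⊕ Fin m)) F) :
    (∀ v, qOdd m F (g *ᵥ v) = qOdd m F v) ↔
      g.toBlocks₂₂ ∈ symplecticGroup (Fin m) F ∧ g.toBlocks₂₁ = 0 ∧ g (Sum.inl ()) (Sum.inl ()) = 1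
      ∧ ∀ j, g (Sum.inl ()) (Sum.inr j) ^ 2 = qPlus m F (fun k => g (Sum.inr k) (Sum.inr j)) := by
  rw [quad_preserve_iff]
  constructor
  · rintro ⟨h1, h3⟩
    have hs : g.toBlocks₂₂ ∈ symplecticGroup (Fin m) F := by
      rw [mem_sp_iff_col]
      intro c c'
      have := h3 (Sum.inr c) (Sum.inr c')
      rw [qOdd_polar_char_two h2, qOdd_polar_char_two h2] at this
      have e1 : ∀ c : Fin m ⊕ Fin m, (fun k => (Pi.single (Sum.inr c) 1 :
          Unit ⊕ (Fin m ⊕ Fin m) → F) (Sum.inr k)) = Pi.single c 1 := by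
        intro c
        ext k
        simp [Pi.single_apply]
      rw [e1, e1, sympB_single] at this
      exact this
    have hc : g.toBlocks₂₁ = 0 := by
      by_contra hne
      have hne' : (fun k => g (Sum.inr k) (Sum.inl ())) ≠ 0 := by
        intro h
        apply hne
        ext k u
        exact congrFun h k
      obtain ⟨y, hy⟩ := sympB_nondeg _ hne'
      apply hy
      -- y is in the image of s
      have hu : IsUnit g.toBlocks₂₂ := by
        rw [Matrix.isUnit_iff_isUnit_det]
        exact SymplecticGroup.symplectic_det hs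
      obtain ⟨z, hz⟩ : ∃ z, g.toBlocks₂₂ *ᵥ z = y :=
        (Matrix.mulVec_surjective_iff_isUnit.mpr hu) y
      rw [← hz]
      have e2 : g.toBlocks₂₂ *ᵥ z = ∑ j, z j • (fun k => g (Sum.inr k) (Sum.inr j)) := by
        ext k
        simp [Matrix.mulVec, dotProduct, Finset.sum_apply, mul_comm, Matrix.toBlocks₂₂]
      rw [e2, map_sum]
      apply Finset.sum_eq_zero
      intro j _
      rw [map_smul]
      have := h3 (Sum.inl ()) (Sum.inr j)
      rw [qOdd_polar_char_two h2, qOdd_polar_char_two h2] at this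
      rw [this]
      have e3 : (fun k => (Pi.single (Sum.inl ()) 1 :
          Unit ⊕ (Fin m ⊕ Fin m) → F) (Sum.inr k)) = 0 := by
        ext k
        simp
      rw [e3]
      simp
    have hc' : ∀ k, g (Sum.inr k) (Sum.inl ()) = 0 := fun k => congrFun (congrFun hc k) ()
    refine ⟨hs, hc, ?_, ?_⟩
    · have := h1 (Sum.inl ())
      rw [qOdd_single0, qOdd_split] at this
      simp only [hc'] at this
      have e4 : qPlus m F (fun _ => (0 : F)) = 0 := map_zero _
      rw [e4, add_zero] at this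
      have e5 : (g (Sum.inl ()) (Sum.inl ()) - 1) ^ 2 = 0 := by
        linear_combination this - g (Sum.inl ()) (Sum.inl ()) * h2 + h2
      exact sub_eq_zero.mp (pow_eq_zero_iff two_ne_zero |>.mp e5)
    · intro j
      have := h1 (Sum.inr j)
      rw [qOdd_single, qOdd_split] at this
      linear_combination this - qPlus m F (fun k => g (Sum.inr k) (Sum.inr j)) * h2
  · rintro ⟨hs, hc, ha, hl⟩
    have hc' : ∀ k, g (Sum.inr k) (Sum.inl ()) = 0 := fun k => congrFun (congrFun hc k) ()
    rw [mem_sp_iff_col] at hs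
    have e1 : ∀ c : Fin m ⊕ Fin m, (fun k => (Pi.single (Sum.inr c) 1 :
        Unit ⊕ (Fin m ⊕ Fin m) → F) (Sum.inr k)) = Pi.single c 1 := by
      intro c
      ext k
      simp [Pi.single_apply]
    have e3 : (fun k => (Pi.single (Sum.inl ()) 1 :
        Unit ⊕ (Fin m ⊕ Fin m) → F) (Sum.inr k)) = 0 := by
      ext k
      simp
    have e0 : (fun k => g (Sum.inr k) (Sum.inl ())) = 0 := by
      ext k
      exact hc' k
    refine ⟨?_, ?_⟩
    · rintro (u | j)
      · rw [qOdd_single0, qOdd_split, e0, ha, map_zero]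
        ring
      · rw [qOdd_single, qOdd_split, hl]
        linear_combination qPlus m F (fun k => g (Sum.inr k) (Sum.inr j)) * h2
    · rintro (u | c) (u' | c')
      · rw [qOdd_polar_char_two h2, qOdd_polar_char_two h2, e0, e3]
      · rw [qOdd_polar_char_two h2, qOdd_polar_char_two h2, e0, e3]
        simp
      · rw [qOdd_polar_char_two h2, qOdd_polar_char_two h2, e0, e3]
        simp
      · rw [qOdd_polar_char_two h2, qOdd_polar_char_two h2, e1, e1, sympB_single]
        exact hs c c'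

end oddsp

end Cfsg.Agent.Lib.Helper18
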