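import Mathlib
import Cfsg.Prelude.Def_LieClassical
import Cfsg.Agent.Lib.Helper18.OddSp

set_option linter.unusedSimpArgs false
set_option linter.unusedSectionVars false

namespace Cfsg.Agent.Lib.Helper18

open Matrix

section generic

variable {F : Type*} [Field F] {ι : Type} [Fintype ι] [DecidableEq ι]
variable {V : Type*} [AddCommGroup V] [Module F V]

/-- the matrix representation attached to a coordinate system -/
noncomputable def repMat (e : (ι → F) ≃ₗ[F] V) : Module.End F V →* Matrix ι ι F where
  toFun f := LinearMap.toMatrix' (e.symm.toLinearMap ∘ₗ f ∘ₗ e.toLinearMap)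
  map_one' := by
    rw [← LinearMap.toMatrix'_id]
    congr 1
    ext v
    simp
  map_mul' f g := by
    rw [← LinearMap.toMatrix'_comp]
    congr 1
    ext v
    simp

theorem repMat_mulVec (e : (ι → F) ≃ₗ[F] V) (f : Module.End F V) (v : ι → F) :
    repMat e f *ᵥ v = e.symm (f (e v)) := by
  show LinearMap.toMatrix' _ *ᵥ v = _
  rw [LinearMap.toMatrix'_mulVec]
  rfl

theorem repMat_injective (e : (ι → F) ≃ₗ[F] V) : Function.Injective (repMat e) := by
  intro f g h
  ext x
  have h1 := congrArg (fun M => M *ᵥ (e.symm x)) h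
  simp only [repMat_mulVec, LinearEquiv.apply_symm_apply] at h1
  exact e.symm.injective h1

theorem mem_sp_of_preserve {m : ℕ} (M : Matrix (Fin m ⊕ Fin m) (Fin m ⊕ Fin m) F)
    (h : ∀ u v, sympB m F (M *ᵥ u) (M *ᵥ v) = sympB m F u v) :
    M ∈ symplecticGroup (Fin m) F := by
  rw [mem_sp_iff_col]
  intro c c'
  have := h (Pi.single c 1) (Pi.single c' 1)
  rw [sympB_single] at this
  have hcol : ∀ c, M *ᵥ (Pi.single c 1) = fun k => M k c := by
    intro c
    ext k
    simp
  rw [← this, hcol, hcol]

/-- a representation preserving a form that is standard in some coordinates maps to `Sp` -/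
theorem exists_hom_sp_of_equiv {m : ℕ} (B : LinearMap.BilinForm F V)
    (e : (Fin m ⊕ Fin m → F) ≃ₗ[F] V) (he : ∀ u v, B (e u) (e v) = sympB m F u v)
    {G : Type*} [Group G] (ρ : G →* Module.End F V) (hρ : Function.Injective ρ)
    (hpres : ∀ g u v, B (ρ g u) (ρ g v) = B u v) :
    ∃ φ : G →* symplecticGroup (Fin m) F, Function.Injective φ := by
  refine ⟨{ toFun := fun g => ⟨repMat e (ρ g), ?_⟩
            map_one' := ?_
            map_mul' := ?_ }, ?_⟩
  · apply mem_sp_of_preserve
    intro u v
    rw [repMat_mulVec, repMat_mulVec, ← he, LinearEquiv.apply_symm_apply,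
      LinearEquiv.apply_symm_apply, hpres, he]
  · apply Subtype.ext
    show repMat e (ρ 1) = 1
    rw [map_one, map_one]
  · intro g h
    apply Subtype.ext
    show repMat e (ρ (g * h)) = repMat e (ρ g) * repMat e (ρ h)
    rw [map_mul, map_mul]
  · intro g h hgh
    have h1 : repMat e (ρ g) = repMat e (ρ h) := congrArg Subtype.val hgh
    exact hρ (repMat_injective e h1)

/-- a representation preserving a function that is standard in some coordinates maps to the
isometry group -/
theorem exists_hom_iso_of_equiv (Q : V → F) (Qs : (ι → F) → F)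
    (e : (ι → F) ≃ₗ[F] V) (he : ∀ v, Q (e v) = Qs v)
    {G : Type*} [Group G] (ρ : G →* Module.End F V) (hρ : Function.Injective ρ)
    (hpres : ∀ g v, Q (ρ g v) = Q v) :
    ∃ φ : G →* Cfsg.isometryGroup F Qs, Function.Injective φ := by
  refine ⟨((repMat e).comp ρ).toHomUnits.codRestrict (Cfsg.isometryGroup F Qs) ?_, ?_⟩
  · intro g u _
    show Qs (repMat e (ρ g) *ᵥ u) = Qs u
    rw [repMat_mulVec, ← he, LinearEquiv.apply_symm_apply, hpres, he]
  · intro g h hgh
    have h1 := congrArg (fun x : Cfsg.isometryGroup F Qs => (x.1 : Matrix ι ι F)) hgh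
    exact hρ (repMat_injective e h1)

end generic

section symp

variable {F : Type*} [Field F] [Fintype F]
variable {V : Type*} [AddCommGroup V] [Module F V] [Finite V]

/-- a nondegenerate alternating form over a finite field is standard in suitable coordinates -/
theorem exists_symp_equiv (B : LinearMap.BilinForm F V) (hB : B.IsAlt)
    (hnd : ∀ x, x ≠ 0 → ∃ y, B x y ≠ 0) (m : ℕ) (hcard : Nat.card V = Fintype.card F ^ (2 * m)) :
    ∃ e : (Fin m ⊕ Fin m → F) ≃ₗ[F] V, ∀ u v, B (e u) (e v) = sympB m F u v := by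
  classical
  have hq : 1 < Fintype.card F := Fintype.one_lt_card
  have hgood : SympGood B (⊤ : Submodule F V) m := by
    refine ⟨?_, ?_⟩
    · rw [Nat.card_congr (Submodule.topEquiv (R := F) (M := V)).toEquiv, hcard]
    · intro x _ hx
      obtain ⟨y, hy⟩ := hnd x hx
      exact ⟨y, Submodule.mem_top, hy⟩
  have hpos : 0 < Nat.card (SympFrame B (⊤ : Submodule F V) m) := by
    rw [sympFrame_card hB hgood]
    apply Finset.prod_pos
    intro i _
    apply Nat.mul_pos
    · have : 1 < Fintype.card F ^ (2 * (i + 1)) := Nat.one_lt_pow (by omega) hq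
      omega
    · positivity
  obtain ⟨⟨f, -, hf⟩⟩ := (Finite.card_pos_iff.mp hpos)
  let b : Fin m ⊕ Fin m → V := Sum.elim (fun i => (f i).2) (fun i => (f i).1)
  have hb : ∀ c c', B (b c) (b c') = J (Fin m) F c c' := by
    rintro (i | i) (l | l)
    · simpa [b, J] using (hf i l).2.1
    · show B (f i).2 (f l).1 = _
      rw [symp_swap hB, (hf l i).2.2]
      simp [J, Matrix.one_apply, eq_comm]
    · show B (f i).1 (f l).2 = _
      rw [(hf i l).2.2]
      simp [J, Matrix.one_apply]
    · simpa [b, J] using (hf i l).1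
  let L : (Fin m ⊕ Fin m → F) →ₗ[F] V := Fintype.linearCombination F b
  have hL : ∀ u v, B (L u) (L v) = sympB m F u v := by
    intro u v
    show B (∑ c, u c • b c) (∑ c, v c • b c) = _
    rw [sympB_apply]
    simp only [map_sum, LinearMap.sum_apply, map_smul, LinearMap.smul_apply, hb, smul_eq_mul,
      dotProduct, Matrix.mulVec, Finset.mul_sum]
    rw [Finset.sum_comm]
    apply Finset.sum_congr rfl
    intro c _
    apply Finset.sum_congr rfl
    intro c' _
    ring
  have hinj : Function.Injective L := by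
    rw [← LinearMap.ker_eq_bot, LinearMap.ker_eq_bot']
    intro u hu
    by_contra hne
    obtain ⟨y, hy⟩ := sympB_nondeg u hne
    apply hy
    rw [← hL, hu]
    simp
  have hbij : Function.Bijective L := by
    rw [Nat.bijective_iff_injective_and_card]
    refine ⟨hinj, ?_⟩
    rw [hcard, Nat.card_fun, Nat.card_eq_fintype_card, Nat.card_eq_fintype_card, Fintype.card_sum,
      Fintype.card_fin, two_mul]
  exact ⟨LinearEquiv.ofBijective L hbij, hL⟩

theorem exists_hom_sp_of_rep (B : LinearMap.BilinForm F V) (hB : B.IsAlt)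
    (hnd : ∀ x, x ≠ 0 → ∃ y, B x y ≠ 0) (m : ℕ) (hcard : Nat.card V = Fintype.card F ^ (2 * m))
    {G : Type*} [Group G] (ρ : G →* Module.End F V) (hρ : Function.Injective ρ)
    (hpres : ∀ g u v, B (ρ g u) (ρ g v) = B u v) :
    ∃ φ : G →* symplecticGroup (Fin m) F, Function.Injective φ := by
  obtain ⟨e, he⟩ := exists_symp_equiv B hB hnd m hcard
  exact exists_hom_sp_of_equiv B e he ρ hρ hpres

end symp

end Cfsg.Agent.Lib.Helper18
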