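import Mathlib
import Cfsg.Prelude.Def_LieExceptional
import Cfsg.Agent.Lib.Helper18.SzSub1
import Cfsg.Agent.Lib.Helper18.SzL2

/-! A nontrivial word is not a law in large Suzuki groups: a degree argument with the central
involutions `T(0,b)` and the Weyl element. -/

set_option autoImplicit false

namespace Cfsg.Agent.Lib.Helper18

open Cfsg Matrix Polynomial

section poly

variable {F : Type*} [Field F]

/-- One step `w T(0,b)` on polynomial vectors. -/
noncomputable def lawStp (s : ℕ) (b : F[X]) (y : Fin 4 → F[X]) : Fin 4 → F[X] :=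
  ![y 3, y 2, y 1 + b * y 3, y 0 + b * y 2 + b ^ s * y 3]

/-- The last coordinate dominates. -/
def LawDom (y : Fin 4 → F[X]) : Prop :=
  y 3 ≠ 0 ∧ (y 0).natDegree < (y 3).natDegree ∧ (y 1).natDegree < (y 3).natDegree ∧
    (y 2).natDegree < (y 3).natDegree

theorem lawStp_dom {s : ℕ} (hs : 2 ≤ s) {b : F[X]} (hb : 1 ≤ b.natDegree) {y : Fin 4 → F[X]}
    (hy : LawDom y) :
    LawDom (lawStp s b y) ∧ (lawStp s b y 3).natDegree = s * b.natDegree + (y 3).natDegree := by
  obtain ⟨h3, h0, h1, h2⟩ := hy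
  have hb0 : b ≠ 0 := by
    rintro rfl
    simp at hb
  have e3 : (b ^ s * y 3).natDegree = s * b.natDegree + (y 3).natDegree := by
    rw [natDegree_mul (pow_ne_zero _ hb0) h3, natDegree_pow]
  have hsb : b.natDegree < s * b.natDegree := by nlinarith
  have l1 : (y 0 + b * y 2).natDegree < (b ^ s * y 3).natDegree := by
    rw [e3]
    refine lt_of_le_of_lt (natDegree_add_le _ _) (max_lt (by omega) ?_)
    exact lt_of_le_of_lt natDegree_mul_le (by omega)
  have e4 : (lawStp s b y 3).natDegree = s * b.natDegree + (y 3).natDegree := by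
    change (y 0 + b * y 2 + b ^ s * y 3).natDegree = _
    rw [natDegree_add_eq_right_of_natDegree_lt l1, e3]
  refine ⟨⟨?_, ?_, ?_, ?_⟩, e4⟩
  · intro h
    rw [h, natDegree_zero] at e4
    omega
  · rw [e4]
    change (y 3).natDegree < _
    omega
  · rw [e4]
    change (y 2).natDegree < _
    omega
  · rw [e4]
    change (y 1 + b * y 3).natDegree < _
    refine lt_of_le_of_lt (natDegree_add_le _ _) (max_lt (by omega) ?_)
    exact lt_of_le_of_lt natDegree_mul_le (by omega)

/-- left parameter of a letter -/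
noncomputable def lawAl (l : ℕ × Bool) : F[X] :=
  if l.2 then X ^ (2 * l.1 + 1) else X ^ (2 * l.1 + 2)

/-- right parameter of a letter -/
noncomputable def lawGa (l : ℕ × Bool) : F[X] :=
  if l.2 then X ^ (2 * l.1 + 2) else X ^ (2 * l.1 + 1)

/-- left parameter of the head of a word -/
noncomputable def lawHd : List (ℕ × Bool) → F[X]
  | [] => 0
  | l :: _ => lawAl l

/-- the polynomial vector of a word -/
noncomputable def lawY (s : ℕ) : List (ℕ × Bool) → Fin 4 → F[X]
  | [] => ![1, 0, 0, 0]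
  | l :: L => lawStp s X (lawStp s (lawGa l + lawHd L) (lawY s L))

/-- degree bound for the head -/
def lawHb : List (ℕ × Bool) → ℕ
  | [] => 0
  | l :: _ => 2 * l.1 + 2

/-- degree bound for a word -/
def lawBd : List (ℕ × Bool) → ℕ
  | [] => 0
  | l :: L => lawBd L + (1 + (2 * l.1 + 2) + lawHb L)

theorem natDegree_X_pow_add_X_pow {a b : ℕ} (hab : a ≠ b) :
    ((X : F[X]) ^ a + X ^ b).natDegree = max a b := by
  rcases lt_or_gt_of_ne hab with h | h
  · rw [natDegree_add_eq_right_of_natDegree_lt (by simpa using h), natDegree_X_pow,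
      max_eq_right h.le]
  · rw [natDegree_add_eq_left_of_natDegree_lt (by simpa using h), natDegree_X_pow,
      max_eq_left h.le]

theorem natDegree_lawGa_add_lawAl (l l' : ℕ × Bool) (h : l.1 = l'.1 → l.2 = l'.2) :
    1 ≤ (lawGa l + lawAl l' : F[X]).natDegree ∧
      (lawGa l + lawAl l' : F[X]).natDegree ≤ (2 * l.1 + 2) + (2 * l'.1 + 2) := by
  obtain ⟨i, b⟩ := l
  obtain ⟨j, b'⟩ := l'
  cases b <;> cases b' <;> simp only [lawGa, lawAl, Bool.false_eq_true, if_false, if_true] <;>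
    simp at h
  · rw [natDegree_X_pow_add_X_pow (by omega)]
    omega
  · rw [natDegree_X_pow_add_X_pow (by omega)]
    omega
  · rw [natDegree_X_pow_add_X_pow (by omega)]
    omega
  · rw [natDegree_X_pow_add_X_pow (by omega)]
    omega

theorem lawY_singleton (s : ℕ) (l : ℕ × Bool) : lawY (F := F) s [l] = ![1, 0, X, X ^ s] := by
  ext i
  fin_cases i <;> simp [lawY, lawStp]

theorem lawY_dom {s : ℕ} (hs : 2 ≤ s) (l : ℕ × Bool) (L : List (ℕ × Bool))
    (h : FreeGroup.IsReduced (l :: L)) :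
    LawDom (lawY (F := F) s (l :: L)) ∧
      (lawY (F := F) s (l :: L) 3).natDegree ≤ s * lawBd (l :: L) := by
  induction L generalizing l with
  | nil =>
    rw [lawY_singleton]
    refine ⟨⟨?_, ?_, ?_, ?_⟩, ?_⟩
    · change (X : F[X]) ^ s ≠ 0
      exact pow_ne_zero _ X_ne_zero
    · change (1 : F[X]).natDegree < ((X : F[X]) ^ s).natDegree
      rw [natDegree_one, natDegree_X_pow]
      omega
    · change (0 : F[X]).natDegree < ((X : F[X]) ^ s).natDegree
      rw [natDegree_zero, natDegree_X_pow]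
      omega
    · change (X : F[X]).natDegree < ((X : F[X]) ^ s).natDegree
      rw [natDegree_X, natDegree_X_pow]
      omega
    · change ((X : F[X]) ^ s).natDegree ≤ _
      rw [natDegree_X_pow]
      simp only [lawBd, lawHb]
      nlinarith
  | cons l' L ih =>
    rw [FreeGroup.isReduced_cons_cons] at h
    obtain ⟨ih1, ih2⟩ := ih l' h.2
    obtain ⟨hb1, hb2⟩ := natDegree_lawGa_add_lawAl (F := F) l l' h.1
    obtain ⟨d1, e1⟩ := lawStp_dom hs hb1 ih1
    obtain ⟨d2, e2⟩ := lawStp_dom hs (b := (X : F[X])) (by rw [natDegree_X]) d1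
    have hY : lawY (F := F) s (l :: l' :: L) =
        lawStp s X (lawStp s (lawGa l + lawAl l') (lawY s (l' :: L))) := rfl
    rw [hY]
    refine ⟨d2, ?_⟩
    rw [e2, e1, natDegree_X]
    have hbd : lawBd (l :: l' :: L) = lawBd (l' :: L) + (1 + (2 * l.1 + 2) + (2 * l'.1 + 2)) := rfl
    rw [hbd]
    have := Nat.mul_le_mul_left s hb2
    nlinarith

end poly

section act

variable {F : Type*} [Field F] [Finite F] {m : ℕ}

/-- the action on column vectors -/
def szAct (g : Sz F m) (v : Fin 4 → F) : Fin 4 → F := g.1.1 *ᵥ v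

theorem szAct_mul (g g' : Sz F m) (v : Fin 4 → F) : szAct (g * g') v = szAct g (szAct g' v) := by
  have e : (g * g').1.1 = g.1.1 * g'.1.1 := rfl
  rw [szAct, szAct, szAct, e, Matrix.mulVec_mulVec]

theorem szAct_one (v : Fin 4 → F) : szAct (1 : Sz F m) v = v := by
  have e : (1 : Sz F m).1.1 = 1 := rfl
  rw [szAct, e, Matrix.one_mulVec]

variable (h : SzData F (2 ^ (m + 1)))

theorem szAct_T (b : F) (v : Fin 4 → F) :
    szAct (szTG h 0 b) v = ![v 0 + b * v 2 + b ^ 2 ^ (m + 1) * v 3, v 1 + b * v 3, v 2, v 3] := by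
  have h0 := h.zero_pow_s
  ext i
  fin_cases i <;>
    simp [szAct, szTG, szT, szTMat, szF, Matrix.mulVec, dotProduct, Fin.sum_univ_succ, h0] <;> ring

theorem szAct_W (v : Fin 4 → F) : szAct (szWG h) v = ![v 3, v 2, v 1, v 0] :=
  szW_mulVec v

/-- evaluation of polynomial vectors -/
def lawEv (t0 : F) (y : Fin 4 → F[X]) : Fin 4 → F := fun i => (y i).eval t0

theorem lawEv_stp (t0 : F) (b : F[X]) (y : Fin 4 → F[X]) :
    lawEv t0 (lawStp (2 ^ (m + 1)) b y) =
      szAct (szWG h) (szAct (szTG h 0 (b.eval t0)) (lawEv t0 y)) := by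
  rw [szAct_T, szAct_W]
  ext i
  fin_cases i <;> simp [lawEv, lawStp]

/-- the generic elements -/
def lawGen (t0 : F) (i : ℕ) : Sz F m :=
  szTG h 0 (t0 ^ (2 * i + 1)) * szWG h * szTG h 0 t0 * szWG h * szTG h 0 (t0 ^ (2 * i + 2))

theorem szTG_zero_inv (b : F) : (szTG h 0 b)⁻¹ = szTG h 0 b := by
  rw [szTG_inv, zero_pow (by omega), add_zero]

theorem lawGen_letter (t0 : F) (l : ℕ × Bool) :
    cond l.2 (lawGen h t0 l.1) (lawGen h t0 l.1)⁻¹ =
      szTG h 0 ((lawAl l).eval t0) * szWG h * szTG h 0 t0 * szWG h *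
        szTG h 0 ((lawGa l).eval t0) := by
  obtain ⟨i, b⟩ := l
  cases b
  · simp only [cond_false, lawGen, lawAl, lawGa, _root_.mul_inv_rev, szTG_zero_inv, szWG_inv,
      Bool.false_eq_true, if_false, mul_assoc, eval_pow, eval_X]
  · simp only [cond_true, lawGen, lawAl, lawGa, if_true, eval_pow, eval_X]

theorem lawProd_act (t0 : F) (L : List (ℕ × Bool)) :
    szAct ((L.map fun x => cond x.2 (lawGen h t0 x.1) (lawGen h t0 x.1)⁻¹).prod) ![1, 0, 0, 0] =
      szAct (szTG h 0 ((lawHd L).eval t0)) (lawEv t0 (lawY (2 ^ (m + 1)) L)) := by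
  induction L with
  | nil =>
    have e : lawEv t0 (lawY (2 ^ (m + 1)) []) = ![1, 0, 0, 0] := by
      ext i
      fin_cases i <;> simp [lawEv, lawY]
    rw [e]
    simp only [List.map_nil, List.prod_nil, lawHd, eval_zero, szTG_zero]
  | cons l L ih =>
    rw [List.map_cons, List.prod_cons, szAct_mul, ih, lawGen_letter]
    have hY : lawY (F := F) (2 ^ (m + 1)) (l :: L) =
        lawStp (2 ^ (m + 1)) X (lawStp (2 ^ (m + 1)) (lawGa l + lawHd L)
          (lawY (2 ^ (m + 1)) L)) := rfl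
    have hH : lawHd (F := F) (l :: L) = lawAl l := rfl
    have hT : szTG h 0 ((lawGa l).eval t0) * szTG h 0 ((lawHd L).eval t0) =
        szTG h 0 ((lawGa l + lawHd L).eval t0) := by
      rw [szTG_mul, h.zero_pow_s, zero_mul, add_zero, add_zero, eval_add]
    rw [hY, hH, lawEv_stp h, lawEv_stp h, eval_X, ← hT]
    simp only [szAct_mul]

end act

theorem Sz_not_law (w : FreeGroup ℕ) (hw : w ≠ 1) {F : Type*} [Field F] [Fintype F] (m : ℕ)
    (hm : 1 ≤ m) (hN : lawBd w.toWord ≤ m) (hF : Fintype.card F = 2 ^ (2 * m + 1)) :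
    ∃ f : ℕ → Sz F m, FreeGroup.lift f w ≠ 1 := by
  classical
  have h := szData_of_card hm hF
  have hL : w.toWord ≠ [] := fun h => hw (FreeGroup.toWord_eq_nil_iff.mp h)
  have hred : FreeGroup.IsReduced w.toWord := FreeGroup.isReduced_toWord
  obtain ⟨l, L, hl⟩ := List.exists_cons_of_ne_nil hL
  rw [hl] at hred hN
  have hs : 2 ≤ 2 ^ (m + 1) := by
    calc 2 = 2 ^ 1 := by norm_num
      _ ≤ 2 ^ (m + 1) := Nat.pow_le_pow_right (by norm_num) (by omega)
  obtain ⟨hd, hdeg⟩ := lawY_dom (F := F) hs l L hred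
  have hlt : (lawY (F := F) (2 ^ (m + 1)) (l :: L) 3).natDegree < Fintype.card F := by
    rw [hF]
    have h1 : lawBd (l :: L) < 2 ^ m := lt_of_le_of_lt hN Nat.lt_two_pow_self
    have h2 : 2 ^ (2 * m + 1) = 2 ^ (m + 1) * 2 ^ m := by ring
    rw [h2]
    exact lt_of_le_of_lt hdeg (Nat.mul_lt_mul_of_pos_left h1 (by positivity))
  obtain ⟨t0, ht0⟩ : ∃ t0 : F, (lawY (F := F) (2 ^ (m + 1)) (l :: L) 3).eval t0 ≠ 0 := by
    by_contra hcon
    push Not at hcon
    exact hd.1 (Polynomial.eq_zero_of_natDegree_lt_card_of_eval_eq_zero' _ Finset.univ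
      (fun r _ => hcon r) (by rw [Finset.card_univ]; exact hlt))
  refine ⟨lawGen h t0, fun h1 => ?_⟩
  have h2 : FreeGroup.lift (lawGen h t0) w =
      ((l :: L).map fun x => cond x.2 (lawGen h t0 x.1) (lawGen h t0 x.1)⁻¹).prod := by
    rw [← hl, ← FreeGroup.lift_mk, FreeGroup.mk_toWord]
  have h3 := lawProd_act h t0 (l :: L)
  rw [← h2, h1, szAct_one, szAct_T] at h3
  have h4 := congrFun h3 3
  apply ht0
  simpa [lawEv] using h4.symm

end Cfsg.Agent.Lib.Helper18
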