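import Mathlib

/-! Linear algebra for lower bounds on degrees of complex representations: decomposition under a
finite abelian group, and the Heisenberg-type bound. -/

set_option autoImplicit false

namespace Cfsg.Agent.Lib.Helper18

open Module

section Eig

variable {Z : Type*} [AddCommGroup Z] [Fintype Z] {V : Type*} [AddCommGroup V] [Module ℂ V]

/-- The simultaneous eigenspace of the operators `r b` for the character `ψ`. -/
def chEig (r : Z → V →ₗ[ℂ] V) (ψ : AddChar Z ℂ) : Submodule ℂ V where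
  carrier := {w | ∀ b, r b w = ψ b • w}
  add_mem' := by
    intro x y hx hy b
    rw [map_add, hx b, hy b, smul_add]
  zero_mem' := by
    intro b
    rw [map_zero, smul_zero]
  smul_mem' := by
    intro c x hx b
    rw [map_smul, hx b, smul_comm]

omit [Fintype Z] in
theorem mem_chEig {r : Z → V →ₗ[ℂ] V} {ψ : AddChar Z ℂ} {w : V} :
    w ∈ chEig r ψ ↔ ∀ b, r b w = ψ b • w := Iff.rfl

/-- The projector onto the eigenspace. -/
noncomputable def chProj (r : Z → V →ₗ[ℂ] V) (ψ : AddChar Z ℂ) : V →ₗ[ℂ] V :=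
  (Fintype.card Z : ℂ)⁻¹ • ∑ b, (ψ b)⁻¹ • r b

theorem chProj_isProj (r : Z → V →ₗ[ℂ] V) (hadd : ∀ a b, r (a + b) = r a ∘ₗ r b)
    (ψ : AddChar Z ℂ) : LinearMap.IsProj (chEig r ψ) (chProj r ψ) := by
  have hn : (Fintype.card Z : ℂ) ≠ 0 := Nat.cast_ne_zero.2 Fintype.card_ne_zero
  constructor
  · intro x c
    simp only [chProj, LinearMap.smul_apply, LinearMap.sum_apply, map_smul, map_sum]
    rw [smul_comm]
    congr 1
    rw [Finset.smul_sum]
    refine Fintype.sum_equiv (Equiv.addLeft c) _ _ ?_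
    intro b
    have hb : ψ b ≠ 0 := (ψ.val_isUnit b).ne_zero
    have hc : ψ c ≠ 0 := (ψ.val_isUnit c).ne_zero
    rw [Equiv.coe_addLeft, hadd, LinearMap.comp_apply, smul_smul, AddChar.map_add_eq_mul]
    congr 1
    field_simp
  · intro x hx
    simp only [chProj, LinearMap.smul_apply, LinearMap.sum_apply]
    have : ∀ b ∈ (Finset.univ : Finset Z), (ψ b)⁻¹ • r b x = x := by
      intro b _
      rw [hx b, smul_smul, inv_mul_cancel₀ (ψ.val_isUnit b).ne_zero, one_smul]
    rw [Finset.sum_congr rfl this, Finset.sum_const, Finset.card_univ, ← Nat.cast_smul_eq_nsmul ℂ,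
      smul_smul, inv_mul_cancel₀ hn, one_smul]

theorem sum_chProj (r : Z → V →ₗ[ℂ] V) (h0 : r 0 = LinearMap.id) :
    ∑ ψ : AddChar Z ℂ, chProj r ψ = LinearMap.id := by
  classical
  have hn : (Fintype.card Z : ℂ) ≠ 0 := Nat.cast_ne_zero.2 Fintype.card_ne_zero
  simp only [chProj]
  rw [← Finset.smul_sum, Finset.sum_comm]
  have : ∀ b ∈ (Finset.univ : Finset Z), ∑ ψ : AddChar Z ℂ, (ψ b)⁻¹ • r b =
      if b = 0 then (Fintype.card Z : ℂ) • r b else 0 := by
    intro b _
    rw [← Finset.sum_smul]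
    have : ∑ ψ : AddChar Z ℂ, (ψ b)⁻¹ = ∑ ψ : AddChar Z ℂ, ψ (-b) :=
      Finset.sum_congr rfl fun ψ _ => (ψ.map_neg_eq_inv b).symm
    rw [this, AddChar.sum_apply_eq_ite]
    by_cases hb : b = 0
    · simp [hb]
    · simp [hb]
  rw [Finset.sum_congr rfl this, Finset.sum_ite_eq' Finset.univ (0 : Z), if_pos (Finset.mem_univ _),
    smul_smul, inv_mul_cancel₀ hn, one_smul, h0]

theorem finrank_eq_sum_chEig [FiniteDimensional ℂ V] (r : Z → V →ₗ[ℂ] V) (h0 : r 0 = LinearMap.id)
    (hadd : ∀ a b, r (a + b) = r a ∘ₗ r b) :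
    finrank ℂ V = ∑ ψ : AddChar Z ℂ, finrank ℂ (chEig r ψ) := by
  have h1 : (LinearMap.trace ℂ V) (∑ ψ : AddChar Z ℂ, chProj r ψ) =
      ∑ ψ : AddChar Z ℂ, (finrank ℂ (chEig r ψ) : ℂ) := by
    rw [map_sum]
    exact Finset.sum_congr rfl fun ψ _ => (chProj_isProj r hadd ψ).trace
  rw [sum_chProj r h0, LinearMap.trace_id] at h1
  exact_mod_cast h1

end Eig

section Heis

variable {A ι : Type*} [AddCommGroup A] [Finite A] [Fintype ι]

theorem heis_card_le {W : Type*} [AddCommGroup W] [Module ℂ W] [FiniteDimensional ℂ W]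
    [Nontrivial W] (R : A → W →ₗ[ℂ] W) (hinj : ∀ a, Function.Injective (R a))
    (B : A → AddChar A ℂ) (hB : ∀ a c w, R c (R a w) = B a c • R a (R c w))
    (f : ι → A) (hf : Function.Injective (fun i => B (f i))) :
    Fintype.card ι ≤ finrank ℂ W ^ 2 := by
  have hli : LinearIndependent ℂ (fun i => R (f i)) := by
    rw [Fintype.linearIndependent_iff]
    intro g hg i0
    have hchar : LinearIndependent ℂ (fun i => ((B (f i) : AddChar A ℂ) : A → ℂ)) :=
      (AddChar.linearIndependent A ℂ).comp _ hf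
    rw [Fintype.linearIndependent_iff] at hchar
    by_contra hne
    obtain ⟨w, hw⟩ := exists_ne (0 : W)
    have key : ∀ φ : Module.Dual ℂ W, φ (R (f i0) w) = 0 := by
      intro φ
      have h1 := hchar (fun i => g i * φ (R (f i) w)) ?_ i0
      · exact (mul_eq_zero.1 h1).resolve_left hne
      · funext c
        obtain ⟨w', hw'⟩ := (LinearMap.injective_iff_surjective.1 (hinj c)) w
        have h2 : φ (R c ((∑ i, g i • R (f i)) w')) = 0 := by
          rw [hg, LinearMap.zero_apply, map_zero, map_zero]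
        simp only [LinearMap.sum_apply, LinearMap.smul_apply, map_sum, map_smul, hB, hw',
          smul_eq_mul] at h2
        simp only [Finset.sum_apply, Pi.smul_apply, smul_eq_mul, Pi.zero_apply]
        rw [← h2]
        exact Finset.sum_congr rfl fun i _ => by ring
    have h3 := (Module.forall_dual_apply_eq_zero_iff ℂ _).1 key
    exact hw (hinj _ (h3.trans (map_zero _).symm))
  have h4 := hli.fintype_card_le_finrank
  rwa [Module.finrank_linearMap, ← sq] at h4

theorem heis_card_le_sub {V : Type*} [AddCommGroup V] [Module ℂ V] [FiniteDimensional ℂ V]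
    (W : Submodule ℂ V) (hW : W ≠ ⊥) (R : A → V →ₗ[ℂ] V) (hRW : ∀ a, ∀ w ∈ W, R a w ∈ W)
    (hinj : ∀ a, Function.Injective (R a))
    (B : A → AddChar A ℂ) (hB : ∀ a c, ∀ w ∈ W, R c (R a w) = B a c • R a (R c w))
    (f : ι → A) (hf : Function.Injective (fun i => B (f i))) :
    Fintype.card ι ≤ finrank ℂ W ^ 2 := by
  have : Nontrivial W := Submodule.nontrivial_iff_ne_bot.2 hW
  refine heis_card_le (fun a => (R a).restrict (hRW a)) ?_ B ?_ f hf
  · intro a x y hxy
    apply Subtype.ext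
    apply hinj a
    exact congrArg Subtype.val hxy
  · intro a c w
    apply Subtype.ext
    exact hB a c w.1 w.2

end Heis

end Cfsg.Agent.Lib.Helper18
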