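import Mathlib
import Cfsg.Agent.Lib.Helper18.Sz1
import Cfsg.Agent.Lib.Helper18.SzRep1

/-! The commutator form on the Sylow 2-subgroup of a Suzuki group has a radical of order two. -/

set_option autoImplicit false

namespace Cfsg.Agent.Lib.Helper18

open Module

variable {F : Type*} [Field F] {s : ℕ}

/-- The commutator character `c ↦ ψ (a ^ s * c + a * c ^ s)`. -/
def szB (h : SzData F s) (ψ : AddChar F ℂ) (a : F) : AddChar F ℂ where
  toFun c := ψ (a ^ s * c + a * c ^ s)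
  map_zero_eq_one' := by
    rw [mul_zero, h.zero_pow_s, mul_zero, add_zero, AddChar.map_zero_eq_one]
  map_add_eq_mul' := by
    intro x y
    rw [← AddChar.map_add_eq_mul, h.add]
    congr 1
    ring

theorem szB_apply (h : SzData F s) (ψ : AddChar F ℂ) (a c : F) :
    szB h ψ a c = ψ (a ^ s * c + a * c ^ s) := rfl

/-- The character `c ↦ ψ (c ^ s)`. -/
def szThetaChar (h : SzData F s) (ψ : AddChar F ℂ) : AddChar F ℂ where
  toFun c := ψ (c ^ s)
  map_zero_eq_one' := by rw [h.zero_pow_s, AddChar.map_zero_eq_one]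
  map_add_eq_mul' := by
    intro x y
    rw [← AddChar.map_add_eq_mul, h.add]

theorem szThetaChar_apply (h : SzData F s) (ψ : AddChar F ℂ) (c : F) :
    szThetaChar h ψ c = ψ (c ^ s) := rfl

theorem exists_mulShift_eq [Fintype F] {ψ : AddChar F ℂ} (hψ : ψ ≠ 1) (χ : AddChar F ℂ) :
    ∃ ν, AddChar.mulShift ψ ν = χ := by
  have hinj := AddChar.to_mulShift_inj_of_isPrimitive (AddChar.IsPrimitive.of_ne_one hψ)
  have := (Fintype.bijective_iff_injective_and_card _).2 ⟨hinj, AddChar.card_eq.symm⟩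
  exact this.2 χ

theorem SzData.exists_pow_s (h : SzData F s) (x : F) : ∃ e : F, e ^ s = x := by
  obtain ⟨y, hy⟩ := h.sqrt x
  exact ⟨y ^ s, by rw [h.ss, hy]⟩

theorem szB_rad [Fintype F] (h : SzData F s) {ψ : AddChar F ℂ} (hψ : ψ ≠ 1) :
    ∃ x0 : F, ∀ x, szB h ψ x = 1 → x = 0 ∨ x = x0 := by
  obtain ⟨ν, hν⟩ := exists_mulShift_eq hψ (szThetaChar h ψ)
  refine ⟨ν ^ s, fun x hx => ?_⟩
  obtain ⟨e, rfl⟩ := h.exists_pow_s x
  have h1 : AddChar.mulShift ψ (e ^ 2 + ν * e) = 1 := by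
    ext c
    have h4 := DFunLike.congr_fun hx c
    rw [szB_apply, h.ss, AddChar.map_add_eq_mul, ← mul_pow] at h4
    have h2 : ψ ((e * c) ^ s) = ψ (ν * (e * c)) := (DFunLike.congr_fun hν (e * c)).symm
    rw [h2, ← AddChar.map_add_eq_mul] at h4
    rw [AddChar.mulShift_apply, ← h4]
    congr 1
    ring
  have h3 : e ^ 2 + ν * e = 0 := by
    by_contra hne
    exact AddChar.IsPrimitive.of_ne_one hψ hne h1
  have h5 : e * (e + ν) = 0 := by linear_combination h3
  rcases mul_eq_zero.1 h5 with h0 | h0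
  · left
    rw [h0, h.zero_pow_s]
  · right
    rw [h.eq_of_add_eq_zero h0]

theorem szB_add (h : SzData F s) (ψ : AddChar F ℂ) (a a' : F) :
    szB h ψ (a + a') = szB h ψ a * szB h ψ a' := by
  ext c
  rw [AddChar.mul_apply, szB_apply, szB_apply, szB_apply, ← AddChar.map_add_eq_mul, h.add]
  congr 1
  ring

theorem szB_zero (h : SzData F s) (ψ : AddChar F ℂ) : szB h ψ 0 = 1 := by
  ext c
  rw [szB_apply, h.zero_pow_s, zero_mul, zero_mul, add_zero, AddChar.map_zero_eq_one,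
    AddChar.one_apply]

theorem szB_fibre [Fintype F] (h : SzData F s) {ψ : AddChar F ℂ} (hψ : ψ ≠ 1) :
    ∃ x0 : F, ∀ a a', szB h ψ a' = szB h ψ a → a' = a ∨ a' = a + x0 := by
  obtain ⟨x0, hx0⟩ := szB_rad h hψ
  refine ⟨x0, fun a a' haa => ?_⟩
  have h1 : szB h ψ (a + a') = 1 := by
    rw [szB_add, haa, ← szB_add, h.add_self, szB_zero]
  rcases hx0 _ h1 with h2 | h2
  · left
    exact (h.eq_of_add_eq_zero h2).symm
  · right
    rw [← h2]
    linear_combination (-a) * h.two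

theorem szHeis_bound [Fintype F] (h : SzData F s) {ψ : AddChar F ℂ} (hψ : ψ ≠ 1)
    {V : Type*} [AddCommGroup V] [Module ℂ V] [FiniteDimensional ℂ V]
    (W : Submodule ℂ V) (hW : W ≠ ⊥) (R : F → V →ₗ[ℂ] V) (hRW : ∀ a, ∀ w ∈ W, R a w ∈ W)
    (hinj : ∀ a, Function.Injective (R a))
    (hB : ∀ a c, ∀ w ∈ W, R c (R a w) = szB h ψ a c • R a (R c w)) :
    Fintype.card F ≤ 2 * finrank ℂ W ^ 2 := by
  classical
  obtain ⟨x0, hx0⟩ := szB_fibre h hψ
  have hcard : (Finset.univ : Finset F).card ≤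
      2 * (Finset.image (szB h ψ) Finset.univ).card := by
    apply Finset.card_le_mul_card_image
    intro χ hχ
    obtain ⟨a, -, rfl⟩ := Finset.mem_image.1 hχ
    have hsub : (Finset.univ.filter fun a' => szB h ψ a' = szB h ψ a) ⊆ {a, a + x0} := by
      intro a' ha'
      rw [Finset.mem_filter] at ha'
      rw [Finset.mem_insert, Finset.mem_singleton]
      exact hx0 a a' ha'.2
    exact (Finset.card_le_card hsub).trans Finset.card_le_two
  have hex : ∀ χ : {χ // χ ∈ Finset.image (szB h ψ) Finset.univ}, ∃ a, szB h ψ a = χ.1 := by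
    intro χ
    obtain ⟨a, -, ha⟩ := Finset.mem_image.1 χ.2
    exact ⟨a, ha⟩
  choose f hf using hex
  have h1 := heis_card_le_sub W hW R hRW hinj (szB h ψ) hB f (by
    intro χ χ' hh
    dsimp only at hh
    rw [hf, hf] at hh
    exact Subtype.ext hh)
  rw [Fintype.card_coe] at h1
  rw [Finset.card_univ] at hcard
  omega

end Cfsg.Agent.Lib.Helper18
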