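import Mathlib
import Cfsg.Prelude.Def_LieExceptional
import Cfsg.Agent.Lib.Helper18.SzRep2
import Cfsg.Agent.Lib.Helper18.SzSub1
import Cfsg.Agent.Lib.Helper18.SzL2
import Cfsg.Agent.Lib.Helper18.Sz10

/-! The minimal degree of a faithful complex representation of a Suzuki group. -/

set_option autoImplicit false

namespace Cfsg.Agent.Lib.Helper18

open Cfsg Module

theorem rep_apply_injective {G V : Type*} [Group G] [AddCommGroup V] [Module ℂ V]
    (ρ : Representation ℂ G V) (g : G) : Function.Injective (ρ g) := by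
  intro x y hxy
  have h1 := congrArg (ρ g⁻¹) hxy
  rwa [← Module.End.mul_apply, ← Module.End.mul_apply, ← map_mul, inv_mul_cancel, map_one,
    Module.End.one_apply, Module.End.one_apply] at h1

variable {F : Type*} [Field F] [Fintype F] {m : ℕ} (h : SzData F (2 ^ (m + 1)))
  {V : Type*} [AddCommGroup V] [Module ℂ V]
  (ρ : Representation ℂ (Sz F m) V)

/-- The operators of the centre of the Sylow 2-subgroup. -/
def szRepZ (b : F) : V →ₗ[ℂ] V := ρ (szTG h 0 b)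

theorem szRepZ_apply (b : F) (w : V) : szRepZ h ρ b w = ρ (szTG h 0 b) w := rfl

theorem szRepZ_zero : szRepZ h ρ 0 = LinearMap.id := by
  rw [szRepZ, szTG_zero, map_one]
  rfl

theorem szRepZ_add (a b : F) : szRepZ h ρ (a + b) = szRepZ h ρ a ∘ₗ szRepZ h ρ b := by
  have h1 : szTG h 0 a * szTG h 0 b = szTG h 0 (a + b) := by
    rw [szTG_mul, h.zero_pow_s, zero_mul, add_zero, add_zero]
  rw [szRepZ, ← h1, map_mul]
  rfl

theorem szRep_eig_invariant {ψ : AddChar F ℂ} (a : F) {w : V} (hw : w ∈ chEig (szRepZ h ρ) ψ) :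
    ρ (szTG h a 0) w ∈ chEig (szRepZ h ρ) ψ := by
  intro b
  have hc : szTG h 0 b * szTG h a 0 = szTG h a 0 * szTG h 0 b := by
    rw [szTG_mul, szTG_mul, h.zero_pow_s]
    congr 1 <;> ring
  rw [szRepZ_apply, ← Module.End.mul_apply, ← map_mul, hc, map_mul, Module.End.mul_apply,
    ← szRepZ_apply, hw b, map_smul]

theorem szRep_eig_bound [FiniteDimensional ℂ V] {ψ : AddChar F ℂ} (hψ : ψ ≠ 1)
    (hW : chEig (szRepZ h ρ) ψ ≠ ⊥) :
    Fintype.card F ≤ 2 * finrank ℂ (chEig (szRepZ h ρ) ψ) ^ 2 := by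
  refine szHeis_bound h hψ _ hW (fun a => ρ (szTG h a 0))
    (fun a w hw => szRep_eig_invariant h ρ a hw) (fun a => rep_apply_injective ρ _) ?_
  intro a c w hw
  have hc : szTG h c 0 * szTG h a 0 =
      szTG h 0 (a ^ 2 ^ (m + 1) * c + a * c ^ 2 ^ (m + 1)) * (szTG h a 0 * szTG h c 0) := by
    rw [szTG_mul, szTG_mul, szTG_mul, h.zero_pow_s]
    congr 1
    · ring
    · linear_combination (-(a ^ 2 ^ (m + 1) * c)) * h.two
  rw [← Module.End.mul_apply, ← map_mul, hc, map_mul, map_mul, Module.End.mul_apply,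
    Module.End.mul_apply, ← szRepZ_apply,
    szRep_eig_invariant h ρ a (szRep_eig_invariant h ρ c hw) _, szB_apply]

theorem szRep_eig_ne_bot_of {ψ ψ' : AddChar F ℂ} (t : Fˣ)
    (hψ : ∀ b, ψ' (((t : F) ^ 2) ^ (2 ^ (m + 1) + 1) * b) = ψ b)
    (hW : chEig (szRepZ h ρ) ψ ≠ ⊥) : chEig (szRepZ h ρ) ψ' ≠ ⊥ := by
  obtain ⟨w, hw, hw0⟩ := Submodule.exists_mem_ne_zero_of_ne_bot hW
  intro hbot
  have h1 : ρ (szDG h t) w ∈ chEig (szRepZ h ρ) ψ' := by
    intro b
    have hl0 : ((t : F) ^ 2) ^ (2 ^ (m + 1) + 1) ≠ 0 := pow_ne_zero _ (pow_ne_zero _ t.ne_zero)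
    obtain ⟨b', rfl⟩ : ∃ b', ((t : F) ^ 2) ^ (2 ^ (m + 1) + 1) * b' = b :=
      ⟨(((t : F) ^ 2) ^ (2 ^ (m + 1) + 1))⁻¹ * b, by rw [mul_inv_cancel_left₀ hl0]⟩
    have hc : szTG h 0 (((t : F) ^ 2) ^ (2 ^ (m + 1) + 1) * b') * szDG h t =
        szDG h t * szTG h 0 b' := by
      have h2 := szDG_conj_szTG h t 0 b'
      rw [mul_zero] at h2
      rw [← h2, inv_mul_cancel_right]
    rw [szRepZ_apply, ← Module.End.mul_apply, ← map_mul, hc, map_mul, Module.End.mul_apply,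
      ← szRepZ_apply, hw b', map_smul, hψ]
  rw [hbot, Submodule.mem_bot] at h1
  exact hw0 (rep_apply_injective ρ _ (h1.trans (map_zero _).symm))

theorem szRep_degree_bound [FiniteDimensional ℂ V] (hF : Fintype.card F = 2 ^ (2 * m + 1))
    (hne : ∃ b, ρ (szTG h 0 b) ≠ 1) : 2 ^ m * (2 ^ (2 * m + 1) - 1) ≤ finrank ℂ V := by
  classical
  have hsum := finrank_eq_sum_chEig (szRepZ h ρ) (szRepZ_zero h ρ) (szRepZ_add h ρ)
  have hex : ∃ ψ0 : AddChar F ℂ, ψ0 ≠ 1 ∧ chEig (szRepZ h ρ) ψ0 ≠ ⊥ := by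
    by_contra hcon
    push Not at hcon
    have h1 : finrank ℂ V = finrank ℂ (chEig (szRepZ h ρ) 1) := by
      rw [hsum]
      apply Finset.sum_eq_single
      · intro ψ _ hψ
        rw [hcon ψ hψ, finrank_bot]
      · intro hh
        exact absurd (Finset.mem_univ _) hh
    have h2 : chEig (szRepZ h ρ) 1 = ⊤ := Submodule.eq_top_of_finrank_eq h1.symm
    obtain ⟨b, hb⟩ := hne
    apply hb
    apply LinearMap.ext
    intro w
    have h3 : w ∈ chEig (szRepZ h ρ) 1 := h2 ▸ Submodule.mem_top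
    have h4 := h3 b
    rw [AddChar.one_apply, one_smul] at h4
    exact h4
  obtain ⟨ψ0, hψ0, hW0⟩ := hex
  have hall : ∀ ψ : AddChar F ℂ, ψ ≠ 1 → 2 ^ m ≤ finrank ℂ (chEig (szRepZ h ρ) ψ) := by
    intro ψ hψ
    have hW : chEig (szRepZ h ρ) ψ ≠ ⊥ := by
      obtain ⟨μ, hμ⟩ := exists_mulShift_eq hψ ψ0
      have hμ0 : μ ≠ 0 := by
        rintro rfl
        rw [AddChar.mulShift_zero] at hμ
        exact hψ0 hμ.symm
      obtain ⟨u, hu⟩ := h.exists_pow_s_add_one μ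
      obtain ⟨t, ht⟩ := h.sqrt u
      have ht0 : t ≠ 0 := by
        rintro rfl
        rw [zero_pow (by norm_num)] at ht
        rw [← ht, zero_pow (by omega)] at hu
        exact hμ0 hu.symm
      refine szRep_eig_ne_bot_of h ρ (Units.mk0 t ht0) ?_ hW0
      intro b
      rw [Units.val_mk0, ht, hu, ← hμ, AddChar.mulShift_apply]
    have h1 := szRep_eig_bound h ρ hψ hW
    rw [hF] at h1
    by_contra hlt
    push Not at hlt
    have h2 : finrank ℂ (chEig (szRepZ h ρ) ψ) ^ 2 < (2 ^ m) ^ 2 :=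
      Nat.pow_lt_pow_left hlt (by norm_num)
    have e : 2 ^ (2 * m + 1) = 2 * (2 ^ m) ^ 2 := by ring
    omega
  rw [hsum]
  calc 2 ^ m * (2 ^ (2 * m + 1) - 1)
      = ∑ _ψ ∈ (Finset.univ : Finset (AddChar F ℂ)).erase 1, 2 ^ m := by
        rw [Finset.sum_const, Finset.card_erase_of_mem (Finset.mem_univ _), Finset.card_univ,
          AddChar.card_eq, hF, smul_eq_mul, mul_comm]
    _ ≤ ∑ ψ ∈ (Finset.univ : Finset (AddChar F ℂ)).erase 1, finrank ℂ (chEig (szRepZ h ρ) ψ) :=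
        Finset.sum_le_sum fun ψ hψ => hall ψ (Finset.ne_of_mem_erase hψ)
    _ ≤ ∑ ψ : AddChar F ℂ, finrank ℂ (chEig (szRepZ h ρ) ψ) :=
        Finset.sum_le_sum_of_subset (Finset.erase_subset _ _)

end Cfsg.Agent.Lib.Helper18
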