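import Mathlib
import Cfsg.Prelude.Def_LieExceptional
import Cfsg.Agent.Lib.Helper18.SzSub2

/-! Subfield subgroups of Suzuki groups: conjugacy. -/

set_option autoImplicit false

namespace Cfsg.Agent.Lib.Helper18

open Cfsg Matrix

section gen

variable {F : Type*} [Field F] [Finite F] {m : ℕ} (h : SzData F (2 ^ (m + 1)))

theorem szG_closure :
    Subgroup.closure ({g : Sz F m | ∃ t, g = szDG h t} ∪ {szTG h 1 1, szWG h}) = ⊤ := by
  obtain ⟨M', hM'⟩ : ∃ M', M' =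
    Subgroup.closure ({g : Sz F m | ∃ t, g = szDG h t} ∪ {szTG h 1 1, szWG h}) := ⟨_, rfl⟩
  rw [← hM']
  have hD : ∀ t, szDG h t ∈ M' := fun t => by
    rw [hM']; exact Subgroup.subset_closure (Or.inl ⟨t, rfl⟩)
  have hT : szTG h 1 1 ∈ M' := by
    rw [hM']; exact Subgroup.subset_closure (Or.inr (Or.inl rfl))
  have hW : szWG h ∈ M' := by
    rw [hM']; exact Subgroup.subset_closure (Or.inr (Or.inr rfl))
  have hD' : ∀ t : Fˣ, szD (2 ^ (m + 1)) t ∈ M'.map (Sz F m).subtype :=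
    fun t => ⟨_, hD t, rfl⟩
  have hT' : szT (2 ^ (m + 1)) (1 : F) 1 ∈ M'.map (Sz F m).subtype := ⟨_, hT, rfl⟩
  have hW' : (szW : SpecialLinearGroup (Fin 4) F) ∈ M'.map (Sz F m).subtype := ⟨_, hW, rfl⟩
  have hle := Sz_le_of_gens h (M'.map (Sz F m).subtype) hD'
    (mul_mem (szU_le_of_mem h _ hD' one_ne_zero hT' 1 0) hW')
  rw [eq_top_iff]
  intro g _
  obtain ⟨g', hg', e⟩ := hle g.2
  have : g' = g := Subtype.ext e
  rw [← this]; exact hg'

end gen

section emb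

variable {F : Type*} [Field F] [Fintype F] {m : ℕ} (h : SzData F (2 ^ (m + 1)))
variable {K : Type*} [Field K] [Fintype K] {k : ℕ} (h0 : SzData K (2 ^ (k + 1)))

theorem szEmb_T11 (Ψ : Sz K k →* Sz F m) (hΨ : Function.Injective Ψ)
    (P1 : ∀ a b, ∃ α β, Ψ (szTG h0 a b) = szTG h α β)
    (P3 : Ψ (szWG h0) = szWG h) : Ψ (szTG h0 1 1) = szTG h 1 1 := by
  obtain ⟨γ, δ, hγδ⟩ := P1 1 1
  obtain ⟨α, β, hαβ⟩ := P1 0 1
  have hne : ¬ (γ = 0 ∧ δ = 0) := by
    rintro ⟨rfl, rfl⟩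
    rw [szTG_zero, ← map_one Ψ] at hγδ
    have h1 := hΨ hγδ
    rw [← szTG_zero h0] at h1
    exact one_ne_zero (szTG_inj h0 h1).1
  have rel0 : szTG h0 1 1 * szWG h0 * szTG h0 0 1 = szWG h0 * (szTG h0 1 1 * szWG h0) :=
    Subtype.ext (szW_conj_rel h0)
  have rel := congrArg Ψ rel0
  simp only [map_mul, hγδ, hαβ, P3] at rel
  have rel' : szT (2 ^ (m + 1)) γ δ * szW * szT (2 ^ (m + 1)) α β =
      szW * (szT (2 ^ (m + 1)) γ δ * szW) := congrArg Subtype.val rel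
  have hf : szF (2 ^ (m + 1)) γ δ ≠ 0 := fun hh => hne (szF_eq_zero h hh)
  have ev := congrArg (fun g => g • suzukiPointInfinity F) rel'
  simp only [mul_smul, szT_smul_inf, szW_smul_inf h.s_ne, szT_smul_zero h, szW_smul_P h hf] at ev
  obtain ⟨e1, e2⟩ := szP_inj ev
  obtain ⟨f, hfdef⟩ : ∃ f, f = szF (2 ^ (m + 1)) γ δ := ⟨_, rfl⟩
  rw [← hfdef] at e1 e2 hf
  have e1' : γ * f = δ := by rw [e1]; field_simp
  have e2' : δ * f = γ := by rw [e2]; field_simp
  have hγ : γ ≠ 0 := by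
    rintro rfl
    apply hne
    exact ⟨rfl, by rw [← e1']; ring⟩
  have hf2 : f ^ 2 = 1 ^ 2 := by
    have : γ * (f ^ 2 - 1) = 0 := by linear_combination f * e1' + e2'
    rcases mul_eq_zero.1 this with h1 | h1
    · exact absurd h1 hγ
    · linear_combination h1
  have hf1 : f = 1 := h.sq_inj hf2
  have hδ : γ = δ := by rw [← e1', hf1, mul_one]
  subst hδ
  rw [hf1] at hfdef
  unfold szF at hfdef
  have hprod : (γ ^ (2 ^ (m + 1)) + 1) * (γ ^ 2 + 1) = 0 := by
    linear_combination (-1 : F) * hfdef + h.two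
  have hγ1 : γ = 1 := by
    rcases mul_eq_zero.1 hprod with h1 | h1
    · apply h.s_inj
      rw [h.eq_of_add_eq_zero h1, one_pow]
    · apply h.sq_inj
      rw [h.eq_of_add_eq_zero h1, one_pow]
  rw [hγδ, hγ1]

/-- The canonical generating set of the standard subfield subgroup. -/
def szSubGens (n : ℕ) : Set (Sz F m) :=
  {g : Sz F m | ∃ t : Fˣ, t ^ n = 1 ∧ g = szDG h t} ∪ {szTG h 1 1, szWG h}

theorem szEmb_D (Ψ : Sz K k →* Sz F m) (hΨ : Function.Injective Ψ)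
    (P1 : ∀ a b, ∃ α β, Ψ (szTG h0 a b) = szTG h α β)
    (P2 : ∀ t0, ∃ t, Ψ (szDG h0 t0) = szDG h t)
    (P3 : Ψ (szWG h0) = szWG h) :
    Ψ.range = Subgroup.closure (szSubGens h (Fintype.card K - 1)) := by
  classical
  rw [MonoidHom.range_eq_map, ← szG_closure h0, MonoidHom.map_closure]
  congr 1
  rw [Set.image_union, Set.image_pair, szEmb_T11 h h0 Ψ hΨ P1 P3, P3, szSubGens]
  congr 1
  choose χ hχ using P2
  have hinj : Function.Injective χ := by
    intro a b hab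
    apply szDG_inj h0
    apply hΨ
    rw [hχ, hχ, hab]
  have hpow : ∀ t0, χ t0 ^ (Fintype.card K - 1) = 1 := by
    intro t0
    apply szDG_inj h
    have e2 : szDG h (χ t0 ^ (Fintype.card K - 1)) = szDG h (χ t0) ^ (Fintype.card K - 1) :=
      map_pow (szDGHom h) _ _
    have e1 : szDG h0 (t0 ^ (Fintype.card K - 1)) = szDG h0 t0 ^ (Fintype.card K - 1) :=
      map_pow (szDGHom h0) _ _
    rw [e2, ← hχ, ← map_pow, ← e1, ← Fintype.card_units, pow_card_eq_one, szDG_one, szDG_one,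
      map_one]
  have hn : 0 < Fintype.card K - 1 := by
    have := Fintype.one_lt_card (α := K)
    omega
  have hsub : Finset.univ.image χ ⊆ Finset.univ.filter (fun t : Fˣ => t ^ (Fintype.card K - 1) = 1) := by
    intro t ht
    obtain ⟨t0, _, rfl⟩ := Finset.mem_image.1 ht
    simp [hpow]
  have hcard : (Finset.univ.filter (fun t : Fˣ => t ^ (Fintype.card K - 1) = 1)).card ≤
      (Finset.univ.image χ).card := by
    rw [Finset.card_image_of_injective _ hinj, Finset.card_univ, Fintype.card_units]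
    exact IsCyclic.card_pow_eq_one_le hn
  have heq := Finset.eq_of_subset_of_card_le hsub hcard
  ext g
  constructor
  · rintro ⟨_, ⟨t0, rfl⟩, rfl⟩
    exact ⟨χ t0, hpow t0, hχ t0⟩
  · rintro ⟨t, ht, rfl⟩
    have : t ∈ Finset.univ.image χ := by rw [heq]; simp [ht]
    obtain ⟨t0, _, rfl⟩ := Finset.mem_image.1 this
    exact ⟨_, ⟨t0, rfl⟩, hχ t0⟩

include h0 in
/-- Normal form: every embedded copy of `Sz K k` is conjugate to the standard one. -/
theorem szEmb_normal (hF2 : Even (Fintype.card F)) (Ψ : Sz K k →* Sz F m)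
    (hΨ : Function.Injective Ψ) :
    ∃ g : Sz F m, Ψ.range.map (MulAut.conj g).toMonoidHom =
      Subgroup.closure (szSubGens h (Fintype.card K - 1)) := by
  have inj : ∀ (g : Sz F m) (Φ : Sz K k →* Sz F m), Function.Injective Φ →
      Function.Injective ((MulAut.conj g).toMonoidHom.comp Φ) := by
    intro g Φ hΦ
    exact (MulAut.conj g).injective.comp hΦ
  obtain ⟨g1, A1⟩ := szEmb_A h h0 hF2 Ψ
  obtain ⟨g2, B1, B2⟩ := szEmb_B h h0 ((MulAut.conj g1).toMonoidHom.comp Ψ) (inj _ _ hΨ) A1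
  obtain ⟨g3, C1, C2, C3⟩ := szEmb_C h h0
    ((MulAut.conj g2).toMonoidHom.comp ((MulAut.conj g1).toMonoidHom.comp Ψ))
    (inj _ _ (inj _ _ hΨ)) B1 B2
  have D := szEmb_D h h0 ((MulAut.conj g3).toMonoidHom.comp
    ((MulAut.conj g2).toMonoidHom.comp ((MulAut.conj g1).toMonoidHom.comp Ψ)))
    (inj _ _ (inj _ _ (inj _ _ hΨ))) C1 C2 C3
  refine ⟨g3 * g2 * g1, ?_⟩
  rw [← D, MonoidHom.map_range]
  congr 1
  ext x
  simp [mul_assoc]

include h h0 in
theorem szSub_conj (hF2 : Even (Fintype.card F)) (S₁ S₂ : Subgroup (Sz F m))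
    (e₁ : Nonempty (S₁ ≃* Sz K k)) (e₂ : Nonempty (S₂ ≃* Sz K k)) :
    ∃ g : Sz F m, S₂ = S₁.map (MulAut.conj g).toMonoidHom := by
  obtain ⟨e₁⟩ := e₁
  obtain ⟨e₂⟩ := e₂
  have key : ∀ (S : Subgroup (Sz F m)) (e : S ≃* Sz K k),
      ∃ g : Sz F m, S.map (MulAut.conj g).toMonoidHom =
        Subgroup.closure (szSubGens h (Fintype.card K - 1)) := by
    intro S e
    obtain ⟨g, hg⟩ := szEmb_normal h h0 hF2 (S.subtype.comp e.symm.toMonoidHom)
      (S.subtype_injective.comp e.symm.injective)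
    refine ⟨g, ?_⟩
    rw [← hg]
    congr 1
    rw [MonoidHom.range_comp]
    have : e.symm.toMonoidHom.range = ⊤ := MonoidHom.range_eq_top.2 e.symm.surjective
    rw [this, ← MonoidHom.range_eq_map, Subgroup.range_subtype]
  obtain ⟨g1, h1⟩ := key S₁ e₁
  obtain ⟨g2, h2⟩ := key S₂ e₂
  refine ⟨g2⁻¹ * g1, ?_⟩
  have : S₁.map (MulAut.conj (g2⁻¹ * g1)).toMonoidHom =
      (S₁.map (MulAut.conj g1).toMonoidHom).map (MulAut.conj g2⁻¹).toMonoidHom := by
    rw [Subgroup.map_map]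
    congr 1
    ext x
    simp [mul_assoc]
  rw [this, h1, ← h2, Subgroup.map_map]
  have e3 : (MulAut.conj g2⁻¹).toMonoidHom.comp (MulAut.conj g2).toMonoidHom =
      MonoidHom.id _ := by
    ext x
    simp [mul_assoc]
  rw [e3, Subgroup.map_id]

end emb

end Cfsg.Agent.Lib.Helper18
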