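import Mathlib
import Cfsg.Prelude.Def_LieExceptional
import Cfsg.Agent.Lib.Helper18.SzSub3

/-! Subfield subgroups of Suzuki groups: existence. -/

set_option autoImplicit false

namespace Cfsg.Agent.Lib.Helper18

open Cfsg Matrix

section ex

variable {F : Type*} [Field F] [Fintype F] {m : ℕ}
variable {K : Type*} [Field K] [Fintype K] {k : ℕ}

theorem exists_ringHom_of_dvd (hF : Fintype.card F = 2 ^ (2 * m + 1)) (h2 : (2 : F) = 0)
    (hK : Fintype.card K = 2 ^ (2 * k + 1)) (h2K : (2 : K) = 0)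
    (hdiv : 2 * k + 1 ∣ 2 * m + 1) : Nonempty (K →+* F) := by
  have : CharP F 2 := CharTwo.of_one_ne_zero_of_two_eq_zero one_ne_zero h2
  have : CharP K 2 := CharTwo.of_one_ne_zero_of_two_eq_zero one_ne_zero h2K
  have : Fact (Nat.Prime 2) := ⟨Nat.prime_two⟩
  let _ : Algebra (ZMod 2) F := ZMod.algebra F 2
  let _ : Algebra (ZMod 2) K := ZMod.algebra K 2
  have hfr : Module.finrank (ZMod 2) F = 2 * m + 1 := by
    have := FiniteField.pow_finrank_eq_card 2 F
    rw [hF] at this
    exact Nat.pow_right_injective (le_refl 2) this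
  have hfrK : Module.finrank (ZMod 2) K = 2 * k + 1 := by
    have := FiniteField.pow_finrank_eq_card 2 K
    rw [hK] at this
    exact Nat.pow_right_injective (le_refl 2) this
  obtain ⟨φ⟩ := FiniteField.nonempty_algHom_of_finrank_dvd (F := ZMod 2) (K := K)
    (L := F) (by rw [hfrK, hfr]; exact hdiv)
  exact ⟨φ.toRingHom⟩

theorem pow_s_eq_of_dvd (hK : Fintype.card K = 2 ^ (2 * k + 1))
    (hdiv : 2 * k + 1 ∣ 2 * m + 1) (x : K) : x ^ (2 ^ (m + 1)) = x ^ (2 ^ (k + 1)) := by
  obtain ⟨j, hj⟩ := hdiv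
  obtain ⟨i, hi⟩ : ∃ i, j = 2 * i + 1 := by
    rcases Nat.even_or_odd' j with ⟨i, hi | hi⟩
    · exfalso
      rw [hi] at hj
      have : 2 * m + 1 = 2 * ((2 * k + 1) * i) := by rw [hj]; ring
      omega
    · exact ⟨i, hi⟩
  have hm : m + 1 = (2 * k + 1) * i + (k + 1) := by
    rw [hi] at hj
    have : 2 * m + 1 = 2 * ((2 * k + 1) * i + k) + 1 := by rw [hj]; ring
    omega
  rw [hm, pow_add, pow_mul x, pow_mul 2, ← hK, FiniteField.pow_card_pow]

variable (φ : K →+* F) {s s0 : ℕ}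

theorem szMap_apply (A : SpecialLinearGroup (Fin 4) K) (i j : Fin 4) :
    (SpecialLinearGroup.map φ A).1 i j = φ (A.1 i j) := rfl

theorem szMap_szT (hpow : ∀ x : K, x ^ s = x ^ s0) (a b : K) :
    SpecialLinearGroup.map φ (szT s0 a b) = szT s (φ a) (φ b) := by
  have e : ∀ x : K, φ x ^ s = φ (x ^ s0) := fun x => by rw [← hpow, map_pow]
  ext i j
  rw [szMap_apply]
  fin_cases i <;> fin_cases j <;>
    simp [szT, szTMat, szF, pow_succ, e]

theorem szMap_szD (hpow : ∀ x : K, x ^ s = x ^ s0) (t : Kˣ) :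
    SpecialLinearGroup.map φ (szD s0 t) = szD s (Units.map φ.toMonoidHom t) := by
  have e : ∀ x : K, φ x ^ s = φ (x ^ s0) := fun x => by rw [← hpow, map_pow]
  ext i j
  rw [szMap_apply]
  fin_cases i <;> fin_cases j <;>
    simp [szD, szDMat, pow_succ, e]

theorem szMap_szW : SpecialLinearGroup.map φ (szW : SpecialLinearGroup (Fin 4) K) = szW := by
  ext i j
  rw [szMap_apply]
  fin_cases i <;> fin_cases j <;>
    simp [szW, suzukiForm]

theorem szMap_injective : Function.Injective (SpecialLinearGroup.map (n := Fin 4) φ) := by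
  intro A B hAB
  ext i j
  apply φ.injective
  have := congrArg (fun M : SpecialLinearGroup (Fin 4) F => M.1 i j) hAB
  exact this

theorem szSub_exists (h : SzData F (2 ^ (m + 1))) (h0 : SzData K (2 ^ (k + 1)))
    (hF : Fintype.card F = 2 ^ (2 * m + 1))
    (hK : Fintype.card K = 2 ^ (2 * k + 1)) (hdiv : 2 * k + 1 ∣ 2 * m + 1) :
    ∃ S : Subgroup (Sz F m), Nonempty (S ≃* Sz K k) := by
  obtain ⟨φ⟩ := exists_ringHom_of_dvd hF h.two hK h0.two hdiv
  have hpow := pow_s_eq_of_dvd (m := m) hK hdiv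
  have hle : Sz K k ≤ (Sz F m).comap (SpecialLinearGroup.map φ) := by
    apply Sz_le_of_gens h0
    · intro t
      rw [Subgroup.mem_comap, szMap_szD φ hpow]
      exact szD_mem h _
    · rw [Subgroup.mem_comap, map_mul, szMap_szT φ hpow, szMap_szW]
      exact mul_mem (szT_mem h _ _) (szW_mem h)
  have hle' : (Sz K k).map (SpecialLinearGroup.map φ) ≤ Sz F m := Subgroup.map_le_iff_le_comap.2 hle
  exact ⟨((Sz K k).map (SpecialLinearGroup.map φ)).subgroupOf (Sz F m),
    ⟨(Subgroup.subgroupOfEquivOfLe hle').trans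
      ((Sz K k).equivMapOfInjective _ (szMap_injective φ)).symm⟩⟩

end ex

end Cfsg.Agent.Lib.Helper18
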